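import Cfsg.Agent.H2.WC
import Cfsg.Agent.H2.PU5
import Cfsg.Agent.H1.SL2P
import Cfsg.Agent.H9.Om
import Cfsg.Agent.H9.Join

/-! Baumann blocks. -/

set_option autoImplicit false
namespace CfsgH9
open Subgroup Cfsg Matrix Equiv
open scoped MatrixGroups commutatorElement

theorem sl_der_trans {F : Type*} [Field F] {v w : Fin 2 → F} (hv : v ≠ 0) (hw : w ≠ 0) :
    ∃ g ∈ commutator SL(2, F), g.1 *ᵥ v = w := by
  have mu : ∀ a b : SL(2, F), (a * b).1 = a.1 * b.1 := fun _ _ => rfl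
  let S : Subgroup SL(2, F) :=
    { carrier := {g | g.1 *ᵥ ![1, 0] = ![1, 0]}
      mul_mem' := fun {a b} ha hb => by
        simp only [Set.mem_setOf_eq] at *
        rw [mu, ← mulVec_mulVec, hb, ha]
      one_mem' := by simp
      inv_mem' := fun {a} ha => by
        simp only [Set.mem_setOf_eq] at *
        conv_lhs => rw [← ha, mulVec_mulVec, ← mu, inv_mul_cancel]
        simp }
  have u : ∀ t, CfsgH1.sU t ∈ S := fun t => by
    ext i; fin_cases i <;> simp [CfsgH1.sU, mulVec, dotProduct, Fin.sum_univ_two]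
  have e : commutator SL(2, F) ⊔ S = ⊤ := CfsgH1.sl2_le_of (fun t => mem_sup_right (u t)) fun t => by
    let s : SL(2, F) := ⟨!![0, 1; -1, 0], by simp [det_fin_two]⟩
    have : CfsgH1.sL t * s = s * CfsgH1.sU (-t) := by
      ext i j; rw [mu, mu]
      fin_cases i <;> fin_cases j <;> simp [s, CfsgH1.sU, CfsgH1.sL, Matrix.mul_apply]
    rw [show CfsgH1.sL t = ⁅s, CfsgH1.sU (-t)⁆ * CfsgH1.sU (-t) by
      rw [commutatorElement_def, ← this]; group]
    exact mul_mem (mem_sup_left (commutator_mem_commutator trivial trivial)) (mem_sup_right (u _))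
  have k : ∀ v : Fin 2 → F, v ≠ 0 → ∃ g ∈ commutator SL(2, F), g.1 *ᵥ ![1, 0] = v := fun v hv => by
    obtain ⟨g, rfl⟩ := CfsgH2.sl2_transitive (v := ![1, 0]) (by simp) hv
    obtain ⟨a, ha, b, hb, rfl⟩ := mem_sup_of_normal_left.1 (e ▸ mem_top g)
    exact ⟨a, ha, by rw [mu, ← mulVec_mulVec, show b.1 *ᵥ _ = _ from hb]⟩
  obtain ⟨a, ha, rfl⟩ := k v hv
  obtain ⟨b, hb, rfl⟩ := k w hw
  exact ⟨b * a⁻¹, mul_mem hb (inv_mem ha), by
    rw [mulVec_mulVec, ← mu, inv_mul_cancel_right]⟩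

theorem alt_even_irr {n : ℕ} (hn : Odd n) (K : AddSubgroup (Fin n → ZMod 2))
    (hK : ∀ σ ∈ alternatingGroup (Fin n), ∀ v ∈ K, (fun i => v (σ⁻¹ i)) ∈ K) {v : Fin n → ZMod 2}
    (hv : v ∈ K) (h0 : v ≠ 0) (hs : ∑ i, v i = 0) (w : Fin n → ZMod 2) (hw : ∑ i, w i = 0) : w ∈ K := by
  have z : ∀ x : ZMod 2, x = 0 ∨ x = 1 := by decide
  have c2 : (1 : ZMod 2) + 1 = 0 := by decide
  have cy : ∀ a b c : Fin n, a ≠ b → b ≠ c → ∀ v ∈ K, (fun i => v (swap b c (swap a b i))) ∈ K :=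
    fun a b c h1 h2 v hv => hK (swap a b * swap b c) (by simp [Perm.mem_alternatingGroup, h1, h2]) v hv
  obtain ⟨i, hi⟩ := Function.ne_iff.1 h0
  replace hi := (z _).resolve_left hi
  obtain ⟨j, hj⟩ : ∃ j, v j = 0 := by
    by_contra! k
    rw [Finset.sum_congr rfl fun j _ => (z _).resolve_left (k j)] at hs
    simp [ZMod.natCast_eq_zero_iff_even, ← Nat.not_odd_iff_even, hn] at hs
  have ij : i ≠ j := fun e => by rw [e, hj] at hi; exact zero_ne_one hi
  obtain ⟨k, hk⟩ : ∃ k, k ∉ ({i, j} : Finset (Fin n)) := by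
    by_contra! k
    have := congrArg Finset.card (Finset.eq_univ_iff_forall.2 k)
    rw [Finset.card_pair ij, Finset.card_univ, Fintype.card_fin] at this
    rw [← this] at hn; exact absurd hn (by decide)
  simp only [Finset.mem_insert, Finset.mem_singleton, not_or] at hk
  have ex : ∀ (a b c : Fin n) (f g : Fin n → ZMod 2), f a = g a → f b = g b → f c = g c →
      (∀ x, x ≠ a → x ≠ b → x ≠ c → f x = g x) → f = g := fun a b c f g h1 h2 h3 h4 => funext fun x => by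
    by_cases x1 : x = a; · rwa [x1]
    by_cases x2 : x = b; · rwa [x2]
    by_cases x3 : x = c; · rwa [x3]
    exact h4 x x1 x2 x3
  have vv : ∀ x : ZMod 2, x + x = 0 := by decide
  obtain ⟨a, b, ab, m⟩ : ∃ a b : Fin n, a ≠ b ∧ Pi.single a 1 + Pi.single b 1 ∈ K := by
    have := add_mem hv (cy i j k ij (Ne.symm hk.2) v hv)
    have i1 := ij.symm
    have i2 := Ne.symm hk.1
    have i3 := Ne.symm hk.2
    rcases z (v k) with e | e
    · refine ⟨i, j, ij, ?_⟩
      convert this using 1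
      refine ex i j k _ _ ?_ ?_ ?_ fun x x1 x2 x3 => ?_ <;>
        simp [swap_apply_def, Pi.single_apply, ij, i1, i2, i3, hk.1, hk.2, hi, hj, e, vv, *]
    · refine ⟨j, k, Ne.symm hk.2, ?_⟩
      convert this using 1
      refine ex i j k _ _ ?_ ?_ ?_ fun x x1 x2 x3 => ?_ <;>
        simp [swap_apply_def, Pi.single_apply, ij, i1, i2, i3, hk.1, hk.2, hi, hj, e, vv, *]
  have m2 : ∀ c, Pi.single a 1 + Pi.single c 1 ∈ K := fun c => by
    by_cases c1 : c = a
    · rw [c1]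
      convert zero_mem K
      exact funext fun _ => vv _
    by_cases c2 : c = b
    · exact c2 ▸ m
    convert add_mem m (cy a b c ab (Ne.symm c2) _ m) using 1
    have i1 := ab.symm
    have i2 := Ne.symm c1
    have i3 := Ne.symm c2
    refine ex a b c _ _ ?_ ?_ ?_ fun x x1 x2 x3 => ?_ <;>
      simp [swap_apply_def, Pi.single_apply, ab, i1, i2, i3, c1, c2, vv, *]
  have : w = ∑ c, w c • (Pi.single a 1 + Pi.single c 1 : Fin n → ZMod 2) := by
    ext x
    simp [Finset.sum_apply, mul_add, Finset.sum_add_distrib, ← Finset.sum_mul, hw, Pi.single_apply]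
  rw [this]
  exact sum_mem fun c _ => by rcases z (w c) with e | e <;> simp [e, m2 c]

variable {G : Type*} [Group G] {p : ℕ} {B E K P Q T U V : Subgroup G}

theorem sl_section_irr {F : Type*} [Field F] (h : ActsAsSL2OnSection F (commutator SL(2, F)) E U V) :
    ¬ U ≤ V ∧ ∀ K, V ≤ K → K ≤ U → E ≤ normalizer (K : Set G) → K ≤ V ∨ U ≤ K := by
  obtain ⟨-, -, ρ, ψ, r, s, k, a⟩ := h
  refine ⟨fun l => ?_, fun K l1 l2 n => or_iff_not_imp_left.2 fun m x hx => ?_⟩
  · obtain ⟨u, e⟩ := s (Multiplicative.ofAdd ![1, 0])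
    simpa using congrFun (congrArg Multiplicative.toAdd (e.symm.trans ((k u).2 (l u.2)))) 0
  obtain ⟨u, hu, u0⟩ := SetLike.not_le_iff_exists.1 m
  by_cases x0 : x ∈ V
  · exact l1 x0
  obtain ⟨g, hg, e⟩ := sl_der_trans (v := (ψ ⟨u, l2 hu⟩).toAdd) (w := (ψ ⟨x, hx⟩).toAdd)
    (mt (k _).1 u0) (mt (k _).1 x0)
  obtain ⟨g, rfl⟩ := r ▸ hg
  obtain ⟨w, e1, e2⟩ := a g ⟨u, l2 hu⟩
  have := (k (w⁻¹ * ⟨x, hx⟩)).1 (by
    rw [map_mul, map_inv, inv_mul_eq_one]; exact Multiplicative.toAdd.injective (e2.trans e))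
  exact mul_inv_cancel_left (w : G) x ▸ mul_mem (e1 ▸ (mem_normalizer_iff.1 (n g.2) u).1 hu) (l1 this)

theorem alt_section_irr {n : ℕ} (hn : Odd n) (h3 : 1 < n)
    (h : ActsAsOddPermModuleOnSection n (alternatingGroup (Fin n)) E U V) :
    ¬ U ≤ V ∧ ∀ K, V ≤ K → K ≤ U → E ≤ normalizer (K : Set G) → K ≤ V ∨ U ≤ K := by
  obtain ⟨-, -, ρ, ψ, r, s0, s, k, a⟩ := h
  refine ⟨fun l => ?_, fun K l1 l2 nK => or_iff_not_imp_left.2 fun m x hx => ?_⟩
  · obtain ⟨u, e⟩ := s (Pi.single ⟨0, by omega⟩ 1 + Pi.single ⟨1, h3⟩ 1) (by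
      simp only [Pi.add_apply, Finset.sum_add_distrib, Finset.sum_pi_single', Finset.mem_univ, if_true]
      decide)
    have := congrFun (e.symm.trans (congrArg Multiplicative.toAdd ((k u).2 (l u.2)))) ⟨1, h3⟩
    simp at this
  obtain ⟨u, hu, u0⟩ := SetLike.not_le_iff_exists.1 m
  obtain ⟨w, hw, e⟩ := alt_even_irr hn ((K.subgroupOf U).map ψ).toAddSubgroup' (v := (ψ ⟨u, l2 hu⟩).toAdd)
    (by
      rintro σ hσ _ ⟨y, hy, e⟩
      obtain ⟨g, rfl⟩ := r ▸ hσ
      obtain ⟨w, e1, e2⟩ := a g y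
      exact ⟨w, show (w : G) ∈ K from e1 ▸ (mem_normalizer_iff.1 (nK g.2) y).1 hy,
        Multiplicative.toAdd.injective (funext fun i => by rw [e2, e]; rfl)⟩)
    ⟨_, hu, rfl⟩ (mt (k _).1 u0) (s0 _) _ (s0 ⟨x, hx⟩)
  have := (k (w⁻¹ * ⟨x, hx⟩)).1 (by rw [map_mul, map_inv, inv_mul_eq_one]; exact e)
  exact mul_inv_cancel_left (w : G) x ▸ mul_mem hw (l1 this)

theorem norm_le_norm_bm : normalizer (T : Set G) ≤ normalizer (baumannSubgroupOf p T : Set G) :=
  le_normalizer_inf le_rfl (le_normalizer_centralizer (CfsgL0.ZJ_eq (e := p) (P := T) ▸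
    le_normalizer_OZ CfsgL0.norm_le_norm_J))

theorem J_le_bm : thompsonSubgroupOf p T ≤ baumannSubgroupOf p T :=
  le_inf CfsgL0.J_le (CfsgL0.ZJ_eq (e := p) (P := T) ▸ le_centralizer_OZ _)

variable [Finite G] [hp : Fact p.Prime]

theorem bm_weak (t : Syl p T ⊤) (hP : IsPGroup p P) (l : baumannSubgroupOf p T ≤ P) :
    P ≤ normalizer (baumannSubgroupOf p T : Set G) := by
  obtain ⟨g, -, k⟩ := t.exists_cj_le hP le_top
  have e : cj g (thompsonSubgroupOf p T) = _ := CfsgL0.J_weak ((cj_mono g (J_le_bm.trans l)).trans k)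
  have n : g ∈ normalizer (baumannSubgroupOf p T : Set G) := mem_normalizer_of_cj_le
    (le_inf ((cj_mono g l).trans k) (cj_le_of_mem_normalizer (le_normalizer_centralizer
      (CfsgL0.ZJ_eq (e := p) (P := T) ▸ le_normalizer_OZ le_rfl) (cj_eq_iff.1 e)) inf_le_right))
  rw [← cj_le_cj (g := g), cj_normalizer, cj_eq_of_mem_normalizer n]
  exact k.trans (le_normalizer.trans norm_le_norm_bm)

theorem blk_norm (t : Syl p T ⊤) (h : IsBaumannBlock p T E) (hQ : IsPGroup p Q)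
    (h1 : baumannSubgroupOf p T ≤ normalizer (Q : Set G)) (h2 : E ≤ normalizer (Q : Set G)) :
    Q ≤ normalizer (E : Set G) := by
  have nB := le_sup_right.trans (bm_weak t (isPGroup_sup h1 (t.pg.to_le inf_le_left) hQ) le_sup_left)
  obtain ⟨e1, e2, -⟩ := h
  generalize baumannSubgroupOf p T = B at *
  have BE : B ≤ normalizer (E : Set G) := e2 ▸ CfsgH2.le_norm_comm_right
  have s : E ≤ CfsgH2.stab Q (Q ⊓ normalizer (E : Set G)) := e2.ge.trans ((commutator_mono le_rfl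
    (CfsgH2.le_stab (le_normalizer_inf h1 (CfsgH2.le_norm_norm BE)) (le_inf (commutator_le_left_of h1)
      ((commutator_le_right_of nB).trans BE)))).trans (commutator_le_right_of (CfsgH2.le_norm_stab h2
        (le_normalizer_inf h2 (CfsgH2.le_norm_norm le_normalizer)))))
  refine fun q hq => mem_normalizer_of_cj_le ?_
  rw [← e1, pResidualOf, Oup_eq, cj_Oup, ← Oup_eq, ← Oup_eq E, ← pResidualOf, ← pResidualOf, e1,
    pResidualOf, Oup_eq]
  refine Oup_le_sup_of_isPGroup (hQ.to_le inf_le_left) inf_le_right ?_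
  rintro _ ⟨e, he, rfl⟩
  simpa [commutatorElement_def] using mul_mem (mem_sup_left ((s he).2 q hq)) (mem_sup_right he)

theorem blk_irr (h : IsBaumannBlock p T E) : ¬ OZ p (Op p E) ≤ OZ p (Op p E) ⊓ centralizer (E : Set G) ∧
    ∀ K, OZ p (Op p E) ⊓ centralizer (E : Set G) ≤ K → K ≤ OZ p (Op p E) → E ≤ normalizer (K : Set G) →
      K ≤ OZ p (Op p E) ⊓ centralizer (E : Set G) ∨ OZ p (Op p E) ≤ K := by
  obtain ⟨e1, -, -, n, ⟨F, _, _, _, -, -, a, -⟩ | ⟨-, m, ⟨f⟩, a, -⟩⟩ := h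
  · exact sl_section_irr a
  refine alt_section_irr (odd_two_mul_add_one m) (by_contra fun k => n ?_) a
  obtain rfl : m = 0 := by omega
  have : (Op p E).relIndex E = 1 := by
    rw [Op, relIndex_map_subtype, index, Nat.card_congr f.toEquiv]
    exact Nat.card_unique (α := alternatingGroup (Fin 1))
  rw [← e1, pResidualOf, Oup_eq, Oup_eq_bot_iff.2 ((Op_isPGroup p E).to_le (relIndex_eq_one.1 this)),
    commutator_bot_left]

theorem blk_cent (t : Syl p T ⊤) (h : IsBaumannBlock p T E) [Q.Normal] (hQ : IsPGroup p Q) :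
    ⁅⁅OZ p (Op p E), E⁆, Q⁆ = ⊥ := by
  have n : Q ≤ normalizer (E : Set G) := blk_norm t h hQ le_normalizer_of_normal le_normalizer_of_normal
  obtain ⟨i1, i2⟩ := blk_irr h
  have nE : E ⊔ Q ≤ normalizer (E : Set G) := sup_le le_normalizer n
  have nW := le_normalizer_OZ (p := p) (le_normalizer_Op (p := p) nE)
  have l : OZ p (Op p E) ≤ Op p E := OZ_le _
  have cm : ⁅Op p E, OZ p (Op p E)⁆ = ⊥ := comm_bot_symm (OZ_comm _)
  generalize OZ p (Op p E) = W at *
  have c : CfsgH2.Chf (E ⊔ Q) W (W ⊓ centralizer (E : Set G)) :=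
    ⟨lt_of_le_not_ge inf_le_left i1, (l.trans (Op_le _ _)).trans le_sup_left, nW,
      le_normalizer_inf nW (le_normalizer_centralizer nE), fun L l1 l2 l3 =>
        (i2 L l1 l2 (le_sup_left.trans l3)).imp (le_antisymm · l1) (le_antisymm l2)⟩
  have k := c.comm_le ((Op_isPGroup p E).to_le l) hQ le_sup_right le_normalizer_of_normal
  have k2 : ⁅E, Q⁆ ≤ Op p E := (le_inf (commutator_le_left_of n) (commutator_le_right _ _)).trans
    (le_Op (.of_normal inf_le_left (le_normalizer_inf le_normalizer le_normalizer_of_normal))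
      (hQ.to_le inf_le_right))
  rw [commutator_comm] at k
  exact CfsgH2.three_subgroup (comm_bot_mono cm k2 le_rfl) (comm_bot_iff.2 (k.trans inf_le_right))

end CfsgH9
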