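import Cfsg.Agent.H9.Cp4

/-! Ward's theorem on fixed-point-free elementary abelian groups of rank two. -/

set_option autoImplicit false
open Subgroup Cfsg CfsgH3 CfsgH2 Function
open CfsgH1 (fs mem_fs card_fs sum_fs sum_irr_nat Frob)
open CfsgH9 (LF nres)
open scoped commutatorElement IsMulCommutative ComplexConjugate

namespace CfsgCP

universe u v
variable {G : Type u} [Group G] [Finite G] {Q K R D B C A H M P S T U V W X Y N L : Subgroup G}
  {θ : G → ℂ} {p q r t d n : ℕ} {x : G}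

theorem aut_amb (σ : MulAut G) (h0 : ∀ g, σ g = g → g = 1) :
    ∃ (Γ : Type u) (_ : Group Γ) (_ : Finite Γ) (i : G →* Γ) (f : zpowers σ →* Γ) (g : zpowers σ),
      Injective i ∧ Injective f ∧ zpowers g = ⊤ ∧ orderOf g = orderOf σ ∧ f.range = zpowers (f g) ∧
      f.range ≤ N[map i ⊤] ∧ map i ⊤ ⊓ C[f.range] = ⊥ := by
  obtain ⟨Γ, _, _, i, f, a, b, c, d⟩ := exists_amb (zpowers σ).subtype
  have e : zpowers (⟨σ, mem_zpowers σ⟩ : zpowers σ) = ⊤ := by
    rw [eq_top_iff]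
    rintro ⟨_, m, rfl⟩ -
    exact ⟨m, rfl⟩
  exact ⟨Γ, _, inferInstance, i, f, ⟨σ, mem_zpowers σ⟩, a, b, e, (orderOf_coe _).symm,
    by rw [MonoidHom.range_eq_map, ← e, MonoidHom.map_zpowers], c,
    amb_fpf d fun g hg => h0 g (hg ⟨σ, mem_zpowers σ⟩)⟩

theorem LF_top_of_amb {Γ : Type*} [Group Γ] [Finite Γ] {i : G →* Γ} (hi : Injective i)
    (h : LF n (map i ⊤) = ⊥) : LF n (⊤ : Subgroup G) = ⊥ := by
  rwa [← CfsgH9.map_LF, map_eq_bot_iff_of_injective _ hi] at h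

theorem exists_nc (nA : A ≤ N[N]) (hc : o[A].Coprime o[N]) (hs : Sol[N]) (h : ¬ Nil[N]) :
    ∃ (r q : ℕ) (_ : Fact r.Prime) (_ : Fact q.Prime) (P : Subgroup G), r ≠ q ∧ P ≤ N ∧ PG[r, P] ∧
      A ≤ N[P] ∧ N ≤ N[P ⊔ F[N]] ∧ ¬ P ≤ C[O[{q}, N]] := by
  by_contra hn
  push Not at hn
  have n1 : N ≤ N[F[N]] := le_norm_fit
  refine fit_ne_bot (isSolvable_qt (K := F[N]) hs) (fun e => h (isNilpotent_of_le fit_nil
    ((qt_eq_bot n1).1 e))) (le_bot_iff.1 (fit_le_of_cores fun r _ _ => ?_))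
  obtain ⟨P, p1, p2, p3, p4⟩ := exists_inv_lift r nA hc hs fit_le n1 (le_norm_fit' nA)
  have n2 : N ≤ N[P ⊔ F[N]] := by
    rw [← qc_qt (p1.trans n1), p4]
    exact le_norm_qc n1 le_norm_piCoreOf
  rw [← p4, le_bot_iff, qt_eq_bot (p1.trans n1)]
  refine le_sup_left.trans (le_fit (sup_le p1 fit_le) n2 ?_)
  rw [← nil_sup_core (π := {r}) (fit_nil (H := N)), ← sup_assoc]
  refine nil_sup_of_cent (nil_of_pg (isPGroup_sup p2 isPGroup_piCoreOf (Or.inl (p1.trans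
    (le_norm_piCoreOf' n1))))) (isNilpotent_of_le fit_nil piCoreOf_le) (sup_le (le_centralizer_iff.1
      (nil_le_of_cores (isNilpotent_of_le fit_nil piCoreOf_le) fun q _ a => (nil_core_mono fit_nil
        piCoreOf_le).trans (core_fit.le.trans (le_centralizer_iff.1 (hn r q ‹_› ‹_› P ?_ p1 p2 p3 n2)))))
      piCoreOf_le_cent)
  rintro rfl
  exact not_dvd_piCoreOf a

theorem le_zpowers_mul (hY : o[Y].Prime) (hc : o[S].Coprime o[Y]) (h : S ≤ C[Y]) {s y : G}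
    (hs : s ∈ S) (hy : y ∈ Y) (h1 : y ≠ 1) : Y ≤ zpowers (s * y) := by
  have e : (s * y) ^ o[S] = y ^ o[S] := by
    rw [Commute.mul_pow (h hs y hy).symm, orderOf_dvd_iff_pow_eq_one.1 (orderOf_dvd_of_mem hs), one_mul]
  rw [← zpowers_eq_of_prime hY (pow_mem hy o[S]) fun e => h1 (orderOf_eq_one_iff.1
    (Nat.eq_one_of_dvd_coprimes hc (orderOf_dvd_of_pow_eq_one e) (orderOf_dvd_of_mem hy))), ← e]
  exact zpowers_le.2 (pow_mem (mem_zpowers _) _)

namespace KD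
variable (h : KD Q K R d θ)
include h

theorem free (hF : Frob S B X) (hX : X ≤ Inv Q θ) (hc : o[X].Coprime o[Q]) (hs : Sol[Q])
    (h0 : Q ⊓ C[S] ≤ R) : d ^ 2 = R.relIndex (Q ⊓ C[B]) ^ o[B] := by
  have n := hX.trans h.inv_R
  have nQ := hX.trans Inv_le
  have e := inf_eq_bot_of_coprime' (hc.coprime_dvd_right (card_dvd_of_le h.R_le))
  have k : ∀ U ≤ X, qt R Q ⊓ C[qt R U] = qt R (Q ⊓ C[U]) := fun U hU => (qt_fix (hU.trans n) h.n_R
    (hU.trans nQ) (hc.coprime_dvd_left (card_dvd_of_le hU)) hs).symm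
  have := wielandt_of_cent_eq_bot (frob_qt_of_disj hF n e) (qt_le_norm nQ) (isSolvable_qt hs)
    (coprime_qt hc) (by rw [k S hF.ker_le]; exact qt_eq_bot_of_le h0)
  rwa [k B hF.comp_le, card_qt h.n_R, h.relIndex, card_qt (inf_le_left.trans h.n_R), card_qt_of_disj
    (hF.comp_le.trans n) (le_bot_iff.1 ((inf_le_inf_right _ hF.comp_le).trans e.le))] at this

theorem not_prime (hB : B ≤ Inv Q θ) (hc : o[B].Coprime o[Q]) (hs : Sol[Q]) :
    ¬ (R.relIndex (Q ⊓ C[B])).Prime := fun a => by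
  have nK := (le_Inv h.irr.isCharacter).trans h.inv_K
  have l : Q ⊓ C[B] ≤ Q := inf_le_left
  have l2 : R ⊓ (Q ⊓ C[B]) ≤ Q ⊓ C[B] := inf_le_right
  rw [← inf_relIndex_right] at a
  obtain ⟨y, y1, y2⟩ := SetLike.exists_of_lt (l2.lt_of_ne fun e => a.ne_one (by rw [e, relIndex_self]))
  have e := CfsgH1.sup_zpowers_eq_of_prime a l2 y1 y2
  have c1 : ⁅⁅B, Q⁆, Q ⊓ C[B]⁆ ≤ K := three_subgroup_le (hB.trans h.inv_K) nK (l.trans nK)
    ((commutator_mono ((commutator_mono le_rfl l).trans h.cl) hB).trans h.comm_le)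
    (by rw [comm_eq_bot_iff.2 inf_le_right, commutator_bot_left]; exact bot_le)
  have c2 : qt K Q ≤ C[qt K (zpowers y)] := by
    have n := zpowers_le.2 (nK y1.1)
    have m := comm_le_left (hB.trans Inv_le)
    rw [← coprime_comm_sup_cent (hB.trans Inv_le) hc (Or.inr hs), qt_sup (m.trans nK) (l.trans nK), ← e,
      qt_sup ((l2.trans l).trans nK) n]
    refine sup_le ((qt_le_cent_iff (m.trans nK) n).2 ((commutator_mono (commutator_comm Q B).le
      (zpowers_le.2 y1)).trans c1)) (sup_le ((qt_le_cent_iff ((l2.trans l).trans nK) n).2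
        ((commutator_mono inf_le_left ((zpowers_le.2 y1.1).trans (le_Inv h.irr.isCharacter))).trans
          h.comm_le)) (qt_le_cent (le_cent_self inferInstance)))
  exact y2 ⟨h.mem_R.2 ⟨y1.1, fun z hz => (qt_le_cent_iff nK (zpowers_le.2 (nK y1.1))).1 c2
    (commutator_mem_commutator hz (mem_zpowers y))⟩, y1⟩

theorem index_modEq [hp : Fact p.Prime] (hY : PG[p, Y]) (h1 : Y ≤ Inv Q θ) (h2 : Y ≤ N[B])
    (h0 : Q ⊓ C[B] ⊓ C[Y] = ⊥) : R.relIndex (Q ⊓ C[B]) ≡ 1 [MOD p] := by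
  have a := card_modEq_inf_cent hY (le_norm_inf (h1.trans Inv_le) (le_norm_cent h2))
  have b := card_modEq_inf_cent hY (le_norm_inf (h1.trans h.inv_R)
    (le_norm_inf (h1.trans Inv_le) (le_norm_cent h2)))
  rw [inf_assoc, h0, inf_bot_eq, card_bot] at b
  rw [h0, card_bot, ← CfsgH2.card_inf_mul_relIndex R] at a
  simpa using (b.symm.mul_right _).trans a

theorem bd_sqrt {u : G} (hu : u ∈ Inv Q θ) (hc : (orderOf u).Coprime o[Q])
    (h1 : R.relIndex (Q ⊓ C1[u]) = n) : Bd Q R u (√n ^ 2) := by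
  rw [Real.sq_sqrt (Nat.cast_nonneg _), ← h1]
  exact bd_cent hu.1 (h.inv_R hu) h.R_le h.n_R hc

end KD

omit [Finite G] in
theorem exists_pow_of_dvd [hq : Fact q.Prime] [Finite G] (hQ : PG[q, Q]) (h : n ∣ o[Q]) : ∃ j, n = q ^ j :=
  let ⟨_, hn⟩ := exists_card_eq_pow hQ
  let ⟨j, _, e⟩ := (Nat.dvd_prime_pow hq.out).1 (h.trans hn.dvd)
  ⟨j, e⟩

theorem exists_root (hq : q.Prime) (hp : Odd p) {m j : ℕ} (h : (q ^ m) ^ 2 = (q ^ j) ^ p) :
    ∃ x, q ^ j = x ^ 2 ∧ q ^ m = x ^ p := by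
  rw [← pow_mul, ← pow_mul, Nat.pow_right_inj hq.one_lt] at h
  obtain ⟨k, rfl⟩ : Even j := by
    have : Even (j * p) := h ▸ (even_two.mul_left m)
    exact (Nat.even_mul.1 this).resolve_right (Nat.not_even_iff_odd.2 hp)
  exact ⟨q ^ k, by ring, by rw [← pow_mul]; congr 1; nlinarith⟩

theorem free_false (hp : p.Prime) (hq : q.Prime) {m j : ℕ} (hd : 1 < q ^ m)
    (h : (q ^ m) ^ 2 = (q ^ j) ^ p) (h1 : ((q ^ m : ℕ) : ℝ) ≤ (p - 1) * √(q ^ j : ℕ)) : False := by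
  rcases hp.eq_two_or_odd' with rfl | o
  · rw [Nat.pow_left_inj two_ne_zero] at h
    rw [← h] at h1
    have a : (1 : ℝ) < (q ^ m : ℕ) := by exact_mod_cast hd
    generalize ((q ^ m : ℕ) : ℝ) = z at a h1
    norm_num at h1
    nlinarith [Real.sq_sqrt (by linarith : 0 ≤ z), Real.sqrt_nonneg z]
  obtain ⟨x, x1, x2⟩ := exists_root hq o h
  obtain ⟨k, rfl⟩ : ∃ k, p = k + 1 := ⟨p - 1, by have := hp.pos; omega⟩
  rw [x1, x2, Nat.cast_pow x 2, Real.sqrt_sq (Nat.cast_nonneg _)] at h1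
  have a : 2 ≤ x := by
    by_contra b
    interval_cases x <;> simp_all
  have b : x ^ k * x ≤ k * x := by
    have : ((x ^ k * x : ℕ) : ℝ) ≤ (k * x : ℕ) := by simpa [pow_succ] using h1
    exact_mod_cast this
  exact absurd (Nat.le_of_mul_le_mul_right b (by omega)) (Nat.lt_pow_self a).not_ge

theorem ward_num (hp : p.Prime) (o : Odd p) {x : ℕ} (hd : 1 < x ^ p) (h : x ^ 2 ≡ 1 [MOD p])
    (h1 : x ^ p + p * x + 1 ≤ p + p * p * x) : p = 3 ∧ x ^ p = 8 := by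
  have a : 2 ≤ x := by
    by_contra b
    interval_cases x <;> simp_all [hp.ne_zero]
  have b : p ≤ x + 1 := by
    have := (Nat.modEq_iff_dvd' (Nat.one_le_pow _ _ (by omega))).1 h.symm
    rw [show x ^ 2 - 1 = (x + 1) * (x - 1) from Nat.sq_sub_sq x 1] at this
    rcases hp.dvd_mul.1 this with c | c <;> have := Nat.le_of_dvd (by omega) c <;> omega
  obtain ⟨k, rfl⟩ := o
  rcases (by have := hp.one_lt; omega : k = 1 ∨ 2 ≤ k) with rfl | c
  · obtain rfl : x = 2 := by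
      by_contra e
      have : 3 ≤ x := by omega
      norm_num at h1
      nlinarith [Nat.mul_le_mul this this, Nat.mul_le_mul_right x (Nat.mul_le_mul this this)]
    norm_num
  · have e : x ^ 5 ≤ x ^ (2 * k + 1) := Nat.pow_le_pow_right (by omega) (by omega)
    have f : (2 * k + 1) * (2 * k + 1) ≤ (x + 1) * (x + 1) := Nat.mul_le_mul b b
    have g : 4 ≤ x := by omega
    nlinarith [Nat.mul_le_mul_right x f, Nat.mul_le_mul g g, Nat.mul_le_mul_right (x ^ 3)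
      (Nat.mul_le_mul g g), Nat.mul_le_mul_right (x ^ 2) g, Nat.mul_le_mul_right x g]

theorem PC.ward [Fact t.Prime] [hp : Fact p.Prime] (h : PC t 0 V N A) (hA : IsElementaryAbelian p A)
    (h2 : o[A] = p ^ 2) : Nil[N] := by
  classical
  by_contra hn
  obtain ⟨r, q, hr, hq, P, rq, p1, p2, p3, -, p4⟩ := exists_nc h.nAN h.cN h.sol hn
  obtain ⟨a, a1, a2, a3⟩ : ∃ a ∈ A, a ≠ 1 ∧ ¬ P ⊓ C1[a] ≤ C[O[{q}, N]] := by
    by_contra b
    push Not at b
    exact p4 (le_of_cent1 hA.1 (not_cyclic_of_elem hp.out hA h2 le_rfl) p3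
      (h.cN.coprime_dvd_right (card_dvd_of_le p1)) b)
  have cz : ∀ b ∈ A, b ≠ 1 → o[zpowers b] = p := fun b b1 b2 => card_zpowers_eq hp.out (hA.2 b b1) b2
  obtain ⟨Y, hY⟩ : ∃ Y, Y = zpowers a := ⟨_, rfl⟩
  rw [← cent_zpowers, ← hY] at a3
  have y1 : Y ≤ A := hY ▸ zpowers_le.2 a1
  have y2 : o[Y] = p := hY ▸ cz a a1 a2
  have pY := isPGroup_of_card' y2
  have y3 : Y.relIndex A = p := Nat.eq_of_mul_eq_mul_left hp.out.pos (by
    rw [← sq, ← h2, ← CfsgH2.card_mul_relIndex y1, y2])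
  have ac : ∀ U ≤ A, A ≤ C[U] := fun U hU => le_cent_of_comm hA.1 hU
  have fx : ∀ b ∈ A, b ∉ Y → N ⊓ C[zpowers b] ⊓ C[Y] = ⊥ := fun b b1 b2 => by
    rw [inf_assoc, ← cent_sup, sup_comm, CfsgH1.sup_zpowers_eq_of_prime (y3 ▸ hp.out) y1 b1 b2]
    exact h.fN le_rfl
  obtain ⟨S, hS⟩ : ∃ S, S = P ⊓ C[Y] := ⟨_, rfl⟩
  rw [← hS] at a3
  have s1 : S ≤ N ⊓ C[Y] := hS ▸ inf_le_inf_right _ p1
  have sN := s1.trans inf_le_left
  have sY := s1.trans inf_le_right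
  have pS : PG[r, S] := hS ▸ p2.to_le inf_le_left
  have nS : A ≤ N[S] := hS ▸ le_norm_inf p3 (le_norm_of_le (ac Y y1))
  have s0 : S ≠ ⊥ := fun e => a3 (e ▸ bot_le)
  have rp : r ≠ p := by
    rintro rfl
    exact s0 (eq_bot_of_pg h.cN (y2 ▸ card_dvd_of_le y1) pS sN)
  have fS : ∀ b ∈ A, b ∉ Y → S ⊓ C[zpowers b] = ⊥ := fun b b1 b2 => le_bot_iff.1 (le_trans
    (le_inf (inf_le_inf_right _ sN) (inf_le_left.trans sY)) (fx b b1 b2).le)
  obtain ⟨Q, q1, q2, s⟩ := exists_SP (B := S ⊔ A) isPGroup_piCoreOf (sup_le (sN.trans le_norm_piCoreOf)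
    (le_norm_piCoreOf' h.nAN)) le_sup_left (sup_le le_normalizer nS) (not_dvd_pg pS rq.symm) a3
  have lQ := q1.trans piCoreOf_le
  have nA := le_sup_right.trans q2
  have nSQ := le_sup_left.trans q2
  have cA := h.cN.coprime_dvd_right (card_dvd_of_le lQ)
  have cY := cA.coprime_dvd_left (card_dvd_of_le y1)
  have co : ∀ u ∈ A, (orderOf u).Coprime o[Q] := fun u hu => cA.coprime_dvd_left (orderOf_dvd_of_mem hu)
  have sQ := isSolvable_of_pgroup s.pg
  have cS := coprime_of_pgroup pS (not_dvd_pg s.pg rq)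
  obtain ⟨b₀, b1, b2⟩ := SetLike.exists_of_lt (y1.lt_of_ne fun e => hp.out.ne_one (by
    rw [← y3, e, relIndex_self]))
  have e : Q ⊓ C[Y] ≤ C[S] := nil_le_cent (CfsgH1.nil_of_prime_fpf (R := zpowers b₀)
    (cz b₀ b1 (fun e => b2 (e ▸ one_mem _)) ▸ hp.out) ((zpowers_le.2 b1).trans (le_norm_inf h.nAN
      (le_norm_of_le (ac Y y1)))) (by rw [inf_right_comm]; exact fx b₀ b1 b2))
    (inf_le_inf_right _ lQ) s1 (cS.symm.coprime_dvd_left (card_dvd_of_le inf_le_left))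
  obtain ⟨e1, -⟩ := s.of_cent (y1.trans nA) cY e
  have tq := h.ne_of_core fun z => s.ne (le_bot_iff.1 (q1.trans z.le))
  obtain ⟨v1, v2, v3, v4, v5⟩ := h.sub (B := Q ⊔ (S ⊔ A)) s.pg lQ tq s.ne (sup_le le_normalizer q2)
    (sup_le (lQ.trans h.nN) (sup_le (sN.trans h.nN) h.nA))
  obtain ⟨K, hK⟩ := exists_MK v5 Q
  have w1 := (sup_le_sup_left (le_sup_right (a := S)) Q).trans v2
  have w2 := not_dvd_sup nA (not_dvd_pg s.pg tq) h.not_dvd
  have w3 := le_bot_iff.1 ((inf_le_inf_right _ v3).trans h.fV.le)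
  obtain ⟨R, d, θ, k, n1⟩ := hK.exists_KD v1 w1 nA w2 w3 s.cl
  have cSY : o[S].Coprime o[Y] := coprime_of_pgroup pS (not_dvd_pg pY rp)
  have zR := (le_inf inf_le_left e1).trans k.center_le
  have sI : S ≤ Inv Q θ := by
    by_cases y : Y ≤ Inv Q θ
    · exact k.le_inv_of y cY sQ nSQ (le_centralizer_iff.1 (s.der.trans (s.cen.ge.trans inf_le_right)))
        (sY.trans (cent_le_norm _)) e
    obtain ⟨b, ⟨b1, b3⟩, b2⟩ := exists_ne_one (n1.ne_bot k.pos)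
    have b4 : b ∉ Y := fun c => y (zpowers_eq_of_prime (y2 ▸ hp.out) c b2 ▸ zpowers_le.2 b3)
    intro z hz
    obtain ⟨x, x1, x2⟩ := CfsgH1.exists_conj_of_fpf (nS b1) (cent_zpowers b ▸ fS b b1 b4) hz
    obtain ⟨c, c1, c2, c3⟩ := hK.conj_meet v1 w1 nA w2 w3 s.cl k
      (v2 (mem_sup_right (mem_sup_left (inv_mem x1)))) (nSQ (inv_mem x1))
    rw [inv_inv] at c3
    obtain ⟨y', y4, g, g1, rfl⟩ := (mem_sup_of_norm' ((zpowers_le.2 b1).trans ((ac Y y1).trans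
      (cent_le_norm _)))).1 ((CfsgH1.sup_zpowers_eq_of_prime (y3 ▸ hp.out) y1 b1 b4).ge c1)
    by_cases y5 : y' = 1
    · rw [y5, one_mul] at c2 c3
      have : (zpowers b).map (cj x) ≤ Inv Q θ := by
        rw [← zpowers_eq_of_prime (cz b b1 b2 ▸ hp.out) g1 c2, MonoidHom.map_zpowers, zpowers_le]
        exact c3
      simpa [x2] using mul_mem (this (conj_mem_map_cj (mem_zpowers b))) (inv_mem b3)
    refine (y ((le_zpowers_mul (y2 ▸ hp.out) cSY sY (mul_mem x1 (conj_mem_of_norm (nS (zpowers_le.2 b1 g1))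
      (inv_mem x1))) y4 y5).trans (zpowers_le.2 ?_))).elim
    convert mul_mem c3 (inv_mem (zpowers_le.2 b3 g1)) using 1
    rw [← sY (mul_mem x1 (conj_mem_of_norm (nS (zpowers_le.2 b1 g1)) (inv_mem x1))) y' y4,
      ← mul_assoc y', sY x1 y' y4]
    group
  have d1 := k.one_lt sI (by rw [s.comm]; exact hK.not_le v4)
  have rpf := fun (y : Y ≤ Inv Q θ) z => (k.rp pS y2 rp sY sI y (not_dvd_pg s.pg rq) ((hp.out.coprime_iff_not_dvd).1
    (y2 ▸ cY)) zR (by rw [s.comm]; exact k.not_le d1)).elim fun _ m =>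
      rp_false hr.out d1 (k.not_dvd s.pg rq) z m.1 m.2
  have bY : ∀ u ∈ Y, u ∈ Inv Q θ → u ≠ 1 → Bd Q R u (1 ^ 2) := fun u u1 u2 u3 => by
    rw [one_pow]
    exact k.bd1 u2 (co u (y1 u1)) (by rwa [← cent_zpowers, zpowers_eq_of_prime (y2 ▸ hp.out) u1 u3])
  have fr : ∀ b ∈ A, b ∉ Y → b ∈ Inv Q θ → d ^ 2 = R.relIndex (Q ⊓ C[zpowers b]) ^ p :=
    fun b b1 b2 b3 => by
      have c := cz b b1 fun e => b2 (e ▸ one_mem _)
      have l := zpowers_le.2 b1
      have := k.free (CfsgH1.frob_of_prime (c ▸ hp.out) (l.trans nS) s0 (fS b b1 b2))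
        (sup_le sI (zpowers_le.2 b3)) ((cS.mul_left (cA.coprime_dvd_left (card_dvd_of_le l))).coprime_dvd_left
          (CfsgH2.card_sup_dvd (Or.inr (l.trans nS)))) sQ (s.cen.le.trans ((le_inf phi_le s.phi).trans
            k.center_le))
      rwa [c] at this
  obtain ⟨m, rfl⟩ := k.pow_eq s.pg
  have pw : ∀ U, ∃ j, R.relIndex (Q ⊓ U) = q ^ j := fun U => exists_pow_of_dvd s.pg
    (relIndex_dvd_card'.trans (card_dvd_of_le inf_le_left))
  by_cases hI : A ≤ Inv Q θ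
  · obtain ⟨j, hj⟩ := pw C[zpowers b₀]
    have f0 := fr b₀ b1 b2 (hI b1)
    have md := k.index_modEq pY (y1.trans hI) (y1.trans ((ac _ (zpowers_le.2 b1)).trans (cent_le_norm _)))
      (le_bot_iff.1 ((inf_le_inf_right _ (inf_le_inf_right _ lQ)).trans (fx b₀ b1 b2).le))
    have np := k.not_prime ((zpowers_le.2 b1).trans hI) (cA.coprime_dvd_left (card_dvd_of_le
      (zpowers_le.2 b1))) sQ
    rw [hj] at f0 md np
    have := n1 (fun u => √(q ^ j : ℕ) + if u ∈ Y then 1 - √(q ^ j : ℕ) else 0) fun u u1 u2 => by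
      by_cases c : u ∈ Y
      · simpa [c] using bY u c u1.2 u2
      · simp only [c, if_false, add_zero]
        exact ⟨Real.sqrt_nonneg _, k.bd_sqrt u1.2 (co u u1.1) (cent_zpowers u ▸ (Nat.pow_left_inj
          hp.out.ne_zero).1 ((fr u u1.1 c u1.2).symm.trans f0))⟩
    rw [inf_of_le_left hI, Finset.sum_erase_eq_sub (mem_fs.2 (one_mem _)), Finset.sum_add_distrib,
      sum_ite_mem y1, Finset.sum_const, card_fs, h2, y2, if_pos (one_mem _), nsmul_eq_mul] at this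
    rcases hp.out.eq_two_or_odd' with rfl | o
    · rw [Nat.pow_left_inj two_ne_zero] at f0
      rw [f0] at this d1
      have c : q ^ j ≤ 5 := by
        have c := Real.sq_sqrt (Nat.cast_nonneg (α := ℝ) (q ^ j))
        have : ((q ^ j : ℕ) : ℝ) < 6 := by
          by_contra z
          generalize ((q ^ j : ℕ) : ℝ) = w at *
          norm_num at this
          nlinarith [Real.sqrt_nonneg w]
        exact Nat.lt_succ_iff.1 (by exact_mod_cast this)
      generalize q ^ j = z at *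
      interval_cases z <;> first | exact absurd md (by decide) | exact np (by norm_num)
    obtain ⟨x, x1, x2⟩ := exists_root hq.out o f0
    rw [x1, x2, Nat.cast_pow x 2, Real.sqrt_sq (Nat.cast_nonneg _)] at this
    obtain ⟨z1, z2⟩ := ward_num hp.out o (x2 ▸ d1) (x1 ▸ md) (by
      have : ((x ^ p + p * x + 1 : ℕ) : ℝ) ≤ (p + p * p * x : ℕ) := by
        push_cast at this ⊢
        linarith
      exact_mod_cast this)
    exact rpf (y1.trans hI) (.inr ⟨z1, x2.trans z2, z1 ▸ rp⟩)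
  have cI : o[A ⊓ Inv Q θ] = p := by
    have := mul_card_dvd_of_lt (elem_pgroup hA) (inf_le_left.lt_of_ne fun c => hI (c.ge.trans inf_le_right))
    rw [h2, sq, Nat.mul_dvd_mul_iff_right hp.out.pos, Nat.dvd_prime hp.out, card_eq_one] at this
    exact this.resolve_left (n1.ne_bot k.pos)
  by_cases y : Y ≤ Inv Q θ
  · have := n1.le zero_le_one fun u u1 => bY u ((eq_of_le_of_card_le (le_inf y1 y) (by rw [cI, y2])).ge
      u1) u1.2
    rw [cI] at this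
    exact rpf y (.inl (by exact_mod_cast (by linarith : ((q ^ m : ℕ) : ℝ) < p)))
  obtain ⟨b, b1, b2⟩ := exists_ne_one (n1.ne_bot k.pos)
  obtain ⟨j, hj⟩ := pw C[zpowers b]
  have f0 := fr b b1.1 (fun c => y (zpowers_eq_of_prime (y2 ▸ hp.out) c b2 ▸ zpowers_le.2 b1.2)) b1.2
  have := n1.le (Real.sqrt_nonneg (q ^ j : ℕ)) fun u u1 u2 => k.bd_sqrt u1.2 (co u u1.1) (by
    rw [← cent_zpowers, zpowers_eq_of_prime (cI ▸ hp.out) u1 u2, ← hj,
      zpowers_eq_of_prime (cI ▸ hp.out) b1 b2])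
  exact free_false hp.out hq.out d1 (hj ▸ f0) (cI ▸ this)

theorem ward [hp : Fact p.Prime] {A₀ : Type v} [Group A₀] (h1 : ∀ a b : A₀, a * b = b * a)
    (h2 : ∀ a : A₀, a ^ p = 1) (h3 : Nat.card A₀ = p ^ 2) (f : A₀ →* G) (hf : Injective f)
    (nA : f.range ≤ N[X]) (hs : Sol[X]) (h0 : X ⊓ C[f.range] = ⊥) : LF 2 X = ⊥ := by
  have k : ∀ {G : Type u} [Group G] (f : A₀ →* G), Injective f → IsElementaryAbelian p f.range ∧
      o[f.range] = p ^ 2 := fun f hf => ⟨⟨⟨⟨by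
        rintro ⟨_, a, rfl⟩ ⟨_, b, rfl⟩
        exact Subtype.ext (by simp [← map_mul, h1 a b])⟩⟩, by
        rintro _ ⟨a, rfl⟩
        rw [← map_pow, h2, map_one]⟩, (Nat.card_congr (MonoidHom.ofInjective hf).toEquiv).symm.trans h3⟩
  exact CfsgH9.nres_eq_bot.2 (prim_red (n := 0) (ρ := fun _ _ X _ => LF 1 X)
    (fun _ _ _ _ _ _ => ⟨LF_le 1, CfsgH9.le_normalizer_LF le_normalizer 1⟩)
    (fun _ _ _ _ _ _ _ _ _ => CfsgH9.map_LF _ _ _) (fun G _ _ V N f t _ hf h _ =>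
      CfsgH9.nres_eq_bot.2 (h.ward (k f hf).1 (k f hf).2)) X f hf nA hs
    (coprime_of_fpf (elem_pgroup (k f hf).1) nA h0) h0)

end CfsgCP
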