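import Cfsg.Agent.H9.Cp5

/-! Extraspecial groups: faithful characters, Hall-Higman type arithmetic. -/

set_option autoImplicit false
open Subgroup Cfsg CfsgH3 CfsgH2 Function
open CfsgH1 (fs mem_fs card_fs sum_fs sum_irr_nat Frob)
open scoped commutatorElement IsMulCommutative ComplexConjugate

namespace CfsgCP

universe u v
variable {G : Type u} [Group G] [Finite G] {Q K R D B C A H M P S T U V W X Y N L : Subgroup G}
  {θ : G → ℂ} {p q r t d n : ℕ} {x : G}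

theorem KD.wx [hq : Fact q.Prime] (h : KD Q K R d θ) (w : Wx q Q) (hz : ¬ Z[Q] ≤ K) :
    K = ⊥ ∧ R = Z[Q] ∧ d ^ 2 * q = o[Q] := by
  have l := h.K_le.trans h.R_le
  have a : K = ⊥ := by
    by_contra e
    obtain ⟨z, z1, z2⟩ := exists_ne_one (inf_cent_ne_bot' w.pg (w.pg.to_le l)
      ((le_Inv h.irr.isCharacter).trans h.inv_K) e)
    exact hz ((zpowers_eq_of_prime (w.cardZ ▸ hq.out) (mem_inf.2 ⟨l z1.1, z1.2⟩) z2).ge.trans (zpowers_le.2 z1.1))
  have b : R = Z[Q] := Subgroup.ext fun x => h.mem_R.trans (and_congr_right fun _ => by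
    simp only [a, mem_bot, mul_inv_eq_iff_eq_mul, one_mul]
    exact mem_cent_iff.symm)
  exact ⟨a, b, by rw [← h.card, b, w.cardZ]⟩

theorem wx_deg [hq : Fact q.Prime] (h : d ^ 2 * q = q ^ (2 * n + 1)) : d = q ^ n := by
  rw [pow_succ q, Nat.mul_left_inj hq.out.ne_zero, mul_comm 2, pow_mul] at h
  exact Nat.pow_left_injective two_ne_zero h

theorem exists_KD_wx [hq : Fact q.Prime] (w : Wx q Q) : ∃ K R d θ, KD Q K R d θ ∧ ¬ Z[Q] ≤ K := by
  obtain ⟨z, z1, z2⟩ := exists_ne_one (H := Z[Q]) (fun e => hq.out.ne_one (by rw [← w.cardZ, e, card_bot]))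
  obtain ⟨φ, h1, h2⟩ : ∃ φ, IsIrrCharacter Q φ ∧ φ ⟨z, z1.1⟩ ≠ φ 1 := by
    by_contra! h
    exact z2 (congrArg Subtype.val (isConj_one_left.1 (isConj_of_irr_eq h)))
  have e : (fun x : Q => extendByZero Q φ x) = φ := funext fun x => extendByZero_coe _ _
  obtain ⟨K, R, d, k⟩ := exists_KD (θ := extendByZero Q φ) (by rw [ICh, e]; exact h1)
    (w.der.trans inf_le_right)
  exact ⟨K, R, d, _, k, fun a => h2 ((congrFun e ⟨z, z1.1⟩).symm.trans
    (((k.ker z).1 (a z1)).2.trans (congrFun e 1)))⟩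

theorem mult_arith {ι : Type*} [Fintype ι] (m : ι → ℕ) {h : ℕ} (hc : Nat.card ι = h)
    (h1 : ∑ i, m i = d) (h2 : h * ∑ i, (m i : ℝ) ^ 2 ≤ h + (d ^ 2 - 1)) (h0 : 0 < h) :
    h ∣ d ∨ h ∣ d + 1 ∨ h ∣ d - 1 := by
  obtain ⟨a, b, hb, rfl⟩ : ∃ a b, b < h ∧ d = h * a + b :=
    ⟨d / h, d % h, Nat.mod_lt _ h0, (Nat.div_add_mod d h).symm⟩
  have e : ∑ i, ((m i : ℝ) - a) ≤ ∑ i, ((m i : ℝ) - a) ^ 2 := Finset.sum_le_sum fun i _ => by
    have : ((m i : ℤ) - a) ≤ ((m i : ℤ) - a) ^ 2 := Int.le_self_sq _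
    exact_mod_cast this
  have s : ∑ i, (m i : ℝ) = h * a + b := by exact_mod_cast h1
  simp only [sub_sq, Finset.sum_add_distrib, Finset.sum_sub_distrib, Finset.sum_const, Finset.card_univ,
    ← Nat.card_eq_fintype_card, hc, nsmul_eq_mul, ← Finset.sum_mul, ← Finset.mul_sum, s] at e
  have f : ((h * b + 1 : ℕ) : ℝ) ≤ (b * b + h : ℕ) := by
    push_cast at h2 ⊢
    nlinarith [mul_le_mul_of_nonneg_left e (Nat.cast_nonneg (α := ℝ) h)]
  rw [Nat.cast_le] at f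
  rcases (by
    by_contra! z
    obtain ⟨c, rfl⟩ : ∃ c, b = c + 2 := ⟨b - 2, by omega⟩
    obtain ⟨y, rfl⟩ : ∃ y, h = c + y + 4 := ⟨h - c - 4, by omega⟩
    nlinarith [Nat.zero_le (c * y)] : b = 0 ∨ b = 1 ∨ b + 1 = h) with rfl | rfl | c
  · simp
  · simp
  · exact .inr (.inl ⟨a + 1, by rw [add_assoc, c]; ring⟩)

theorem semi_dvd [hq : Fact q.Prime] (w : Wx q Q) (hn : o[Q] = q ^ (2 * n + 1)) (hH : Cyc[H])
    (hc : o[H].Coprime q) (nH : H ≤ N[Q]) (hf : ∀ x ∈ H, x ≠ 1 → Q ⊓ C1[x] = Z[Q]) :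
    o[H] ∣ q ^ n + 1 ∨ o[H] ∣ q ^ n - 1 := by
  classical
  obtain ⟨K, R, d, θ, k, z⟩ := exists_KD_wx w
  obtain ⟨rfl, rfl, e⟩ := k.wx w z
  obtain rfl := wx_deg (e.trans hn)
  have c : Z[Q] ≤ C[H] := le_centralizer_iff.1 fun x hx => by
    by_cases a : x = 1
    · exact a ▸ one_mem _
    · exact le_cent1_iff.1 ((hf x hx a).ge.trans inf_le_right)
  have i := k.le_inv nH (le_norm_inf nH (le_norm_cent nH)) (comm_eq_bot_iff.2 c).le
  obtain ⟨m, m1, m2⟩ := k.mult i hH (fun u => 1 + if u ∈ (⊥ : Subgroup G) then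
    ((q ^ n : ℕ) : ℝ) ^ 2 - 1 else 0) fun u hu => by
      by_cases e : u = 1
      · simpa [e] using k.bd_all
      · simpa [e] using k.bd1 (i hu) ((hn ▸ hc.pow_right _).coprime_dvd_left (orderOf_dvd_of_mem hu))
          (hf u hu e).le
  rw [Finset.sum_add_distrib, sum_ite_mem bot_le, Finset.sum_const, card_fs, card_bot, nsmul_eq_mul,
    mul_one, Nat.cast_one, one_mul] at m2
  rcases mult_arith m (card_irr_of_comm fun a b => mul_comm' a b) m1 m2 Nat.card_pos with a | a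
  · rw [Nat.eq_one_of_dvd_coprimes (hc.pow_right n) dvd_rfl a]
    exact .inl (one_dvd _)
  · exact a

theorem eq_two_of_prime (hq : q.Prime) (hr : r.Prime) (h1 : 1 < q ^ n) (h : r = q ^ n + 1) : q = 2 := by
  refine hq.eq_two_or_odd'.resolve_right fun o => ?_
  have := (hr.eq_two_or_odd'.resolve_left (by omega))
  rw [h, Nat.odd_add_one, Nat.not_odd_iff_even] at this
  exact Nat.not_even_iff_odd.2 o.pow this

theorem cy_self [hp : Fact p.Prime] (h : o[X] = p) : CY p X X :=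
  ⟨isCyclic_of_prime_card h, isPGroup_of_card' h, le_rfl, h⟩

theorem wx_comm [hq : Fact q.Prime] [ht : Fact t.Prime] (w : Wx q Q) (hV : IsElementaryAbelian t V)
    (nV : Q ≤ N[V]) (htq : t ≠ q) (hf : Q ⊓ C[V] = ⊥) :
    ⁅V, Z[Q]⁆ ≠ ⊥ ∧ ⁅V, Z[Q]⁆ ⊓ C[Z[Q]] = ⊥ :=
  ⟨fun e => hq.out.ne_one (by
    rw [← w.cardZ, card_eq_one, eq_bot_iff, ← hf]
    exact le_inf inf_le_left (le_centralizer_iff.1 (comm_eq_bot_iff.1 e))),
    coprime_comm_inf_cent hV.1 (inf_le_left.trans nV) (coprime_of_not_dvd (not_dvd_pg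
      (w.pg.to_le inf_le_left) htq) (elem_pgroup hV))⟩

theorem wx_fpf [hq : Fact q.Prime] [hr : Fact r.Prime] [Fact t.Prime] (w : Wx q Q) (ha : ¬ Ab[Q])
    (hX : o[X] = r) (hqr : r ≠ q) (nX : X ≤ N[Q]) (hc : Q ⊓ C[X] = Z[Q]) (hV : IsElementaryAbelian t V)
    (nV : Q ⊔ X ≤ N[V]) (htq : t ≠ q) (htr : t ≠ r) (hf : Q ⊓ C[V] = ⊥) (h0 : V ⊓ C[X] = ⊥) :
    q = 2 ∧ ∃ n : ℕ, r = 2 ^ n + 1 ∧ o[Q] = 2 ^ (2 * n + 1) := by
  have y := cy_self hX
  have l : ⁅V, Z[Q]⁆ ≤ V := comm_le_left (inf_le_left.trans (le_sup_left.trans nV))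
  obtain ⟨z1, z⟩ := wx_comm w hV (le_sup_left.trans nV) htq hf
  obtain ⟨K, hK⟩ := exists_MK z1 Q
  obtain ⟨R, d, θ, k, n, d1, e⟩ := cyc_core y w.pg hqr nX (w.der.trans inf_le_right)
    (hc.le.trans inf_le_right) (eq_of_le_phi_sup (comm_le_left nX) ((coprime_comm_sup_cent nX
      (coprime_of_pgroup y.pg (not_dvd_pg w.pg hqr)) (Or.inr (isSolvable_of_pgroup w.pg))).ge.trans
      (sup_le le_sup_right ((hc.trans (w.phi_eq ha).symm).le.trans le_sup_left)))) (elem_of_le hV l)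
    (le_norm_commutator nV (sup_le le_norm_center (nX.trans norm_le_norm_center)))
    (not_dvd_sup nX (not_dvd_pg w.pg htq) (not_dvd_pg y.pg htr))
    (le_bot_iff.1 ((inf_le_inf_right _ l).trans h0.le))
    (le_bot_iff.1 ((inf_le_inf_left _ (cent_anti inf_le_left)).trans z.le)) hK
  obtain ⟨-, -, c⟩ := k.wx w fun a => hK.ne (le_bot_iff.1 ((inf_le_inf_left _ (cent_anti a)).trans z.le))
  obtain ⟨m, rfl⟩ := k.pow_eq w.pg
  rw [inf_of_le_left n, hX] at e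
  obtain rfl := eq_two_of_prime hq.out hr.out d1 e
  exact ⟨rfl, m, e, by rw [← c]; ring⟩

theorem wx_dim [hq : Fact q.Prime] [ht : Fact t.Prime] (w : Wx q Q) (hn : o[Q] = q ^ (2 * n + 1))
    (hV : IsElementaryAbelian t V) (nV : Q ≤ N[V]) (htq : t ≠ q) (h0 : V ⊓ C[Z[Q]] = ⊥) :
    ∃ D, o[V] = t ^ D ∧ q ^ n ∣ D := by
  classical
  haveI := Fintype.ofFinite Q
  obtain ⟨τ, h1, h3⟩ := exists_char_bridge' hV nV (not_dvd_pg w.pg htq)
  obtain ⟨D, a, b⟩ := h3 ⊥ bot_le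
  obtain ⟨e, a', b'⟩ := h3 Z[Q] inf_le_left
  rw [h0, card_bot, eq_comm, Nat.pow_eq_one, or_iff_right ht.out.ne_one] at a'
  subst a'
  rw [cent_bot, inf_top_eq] at a
  refine ⟨D, a, ?_⟩
  have b1 : τ 1 = D := by
    rw [sum_fs, Fintype.sum_subsingleton _ 1] at b
    simpa using b
  obtain ⟨m, m1, m2⟩ := h1.exists_eq_sum_irr
  have := congrFun m2 1
  simp only [OneMemClass.coe_one, b1, Finset.sum_apply, Pi.smul_apply, smul_eq_mul] at this
  have k : ∀ φ : IrrCharacter Q, ∃ c : ℕ, (m φ : ℂ) * φ.1 1 = (q ^ n * c : ℕ) := fun φ => by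
    by_cases z : m φ = 0
    · exact ⟨0, by simp [z]⟩
    have e : (fun x : Q => extendByZero Q φ.1 x) = φ.1 := funext fun x => extendByZero_coe _ _
    obtain ⟨K, R, d, k⟩ := exists_KD (θ := extendByZero Q φ.1) (by rw [ICh, e]; exact φ.2)
      (w.der.trans inf_le_right)
    obtain ⟨-, -, c⟩ := k.wx w fun a => by
      haveI := Fintype.ofFinite Z[Q]
      obtain ⟨j, j1, j2⟩ := CfsgH1.sum_le_of_constituent (inclusion (inf_le_left : Z[Q] ≤ Q)) h1 φ.2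
        (by rw [m1]; exact_mod_cast z) (n := 0) (by simpa [sum_fs] using b')
      rw [Finset.sum_congr rfl (g := fun _ => (d : ℂ)) fun x _ => (congrFun e _).symm.trans
        (((k.ker _).1 (a x.2)).2.trans k.deg), Nat.le_zero.1 j1] at j2
      simp [k.pos.ne'] at j2
    obtain rfl := wx_deg (c.trans hn)
    exact ⟨m φ, by rw [← congrFun e 1]; exact (congrArg _ k.deg).trans (by push_cast; ring)⟩
  choose c hc using k
  rw [Finset.sum_congr rfl fun φ _ => hc φ, ← Nat.cast_sum, Nat.cast_inj, ← Finset.mul_sum] at this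
  exact ⟨_, this⟩

end CfsgCP
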