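import Cfsg.Agent.H2.Func2

/-! Control of fusion and transfer by a conjugacy functor together with a central functor. -/

set_option autoImplicit false
namespace CfsgFP
open Subgroup Function Cfsg CfsgH2
open scoped commutatorElement

variable {G : Type*} [Group G] {M S T U : Subgroup G} {p : ℕ} {W V : Subgroup G → Subgroup G}
  {D : G → Prop} {c h : G}

theorem fu_of_list (l : List G) (hD : ∀ x ∈ l, D x⁻¹) (hc : c ∈ C[U])
    (k : ∀ k ≤ l.length, U.map (cj (l.take k).prod⁻¹) ≤ T) : Fu D T U (c * l.prod)⁻¹ := by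
  induction l using List.reverseRecOn with
  | nil => exact Fu.base _ (by simpa using hc) (by simpa [map_cj_one] using k 0 le_rfl)
  | append_singleton l x ih =>
    rw [List.prod_append, List.prod_singleton, ← mul_assoc, mul_inv_rev]
    refine Fu.step _ _ (ih (fun y hy => hD y (List.mem_append_left _ hy)) fun j hj => ?_)
      (hD x (by simp)) ?_
    · have := k j (by simp; omega)
      rwa [List.take_append_of_le_length hj] at this
    · have := k _ le_rfl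
      rw [List.take_length, List.prod_append, List.prod_singleton] at this
      rwa [mul_inv_rev, ← mul_assoc, ← mul_inv_rev, ← map_cj_cj, map_cj_of_cent (inv_mem hc)]

theorem list_of_fu (f : Fu D T U h) : ∃ c ∈ C[U], ∃ l : List G, (∀ x ∈ l, D x⁻¹) ∧ h⁻¹ = c * l.prod ∧
    ∀ k ≤ l.length, U.map (cj (l.take k).prod⁻¹) ≤ T := by
  induction f with
  | base c h1 h2 => exact ⟨c⁻¹, inv_mem h1, [], by simp, by simp, fun k _ => by simpa [map_cj_one] using h2⟩
  | step d x _ hx h2 ih =>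
    obtain ⟨c, hc, l, a, e, b⟩ := ih
    refine ⟨c, hc, l ++ [x⁻¹], fun y hy => ?_, by simp [e, mul_assoc], fun k hk => ?_⟩
    · rcases List.mem_append.1 hy with hy | hy
      · exact a y hy
      · rwa [List.mem_singleton.1 hy, inv_inv]
    by_cases hl : k ≤ l.length
    · rw [List.take_append_of_le_length hl]; exact b k hl
    rw [List.take_of_length_le (by simp; omega), List.prod_append, List.prod_singleton]
    rwa [← inv_inv d, e, show x * (c * l.prod)⁻¹ = (l.prod * x⁻¹)⁻¹ * c⁻¹ by group, ← map_cj_cj,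
      map_cj_of_cent (inv_mem hc)] at h2

/-- allowed elements -/
def PD (W V : Subgroup G → Subgroup G) (M T : Subgroup G) (x : G) : Prop :=
  x ∈ M ⊓ N[W T] ∨ x ∈ M ⊓ C[V T]

theorem PD.inv (h : PD W V M T c) : PD W V M T c⁻¹ := Or.imp inv_mem inv_mem h

/-- the product of the two local focal subgroups -/
def PK (W V : Subgroup G → Subgroup G) (M T : Subgroup G) : Subgroup G :=
  T ⊓ ⁅M ⊓ N[W T], M ⊓ N[W T]⁆ ⊔ T ⊓ ⁅M ⊓ C[V T], M ⊓ C[V T]⁆

variable [Finite G] [hp : Fact p.Prime]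

theorem pf_move (hW : IsConjugacyFunctor p W) (hV : IsConjugacyFunctor p V) (hS : Syl p S M)
    (h : ∀ U ≤ S, ∀ h ∈ M, U.map (cj h) ≤ S → Fu (PD W V M S) S U h) (hT : Syl p T M) :
    ∀ U ≤ T, ∀ h ∈ M, U.map (cj h) ≤ T → Fu (PD W V M T) T U h := by
  intro U hU k hk hUk
  obtain ⟨g, hg, rfl⟩ := hS.conj hT
  have := (h (U.map (cj g⁻¹)) (le_map_cj_iff.1 hU) (g⁻¹ * k * g)
    (mul_mem (mul_mem (inv_mem hg) hk) hg)
    (by rwa [map_cj_cj, mul_inv_cancel_right, ← map_cj_cj, ← le_map_cj_iff])).map (cj g)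
    (D' := PD W V M (S.map (cj g))) fun x => Or.imp (fun hx => by
      rw [cf_map hW hS.pg, ← map_cj_inf_norm hg]; exact mem_map_of_mem _ hx) fun hx => by
      rw [cf_map hV hS.pg, centralizer_map_cj, ← map_cj_of_mem hg, ← map_cj_inf]; exact mem_map_of_mem _ hx
  rwa [map_cj_cj_inv, cj_apply, show g * (g⁻¹ * k * g) * g⁻¹ = k by group] at this

theorem pk_move (hW : IsConjugacyFunctor p W) (hV : IsConjugacyFunctor p V) (hS : Syl p S M)
    (h : S ⊓ ⁅M, M⁆ ≤ PK W V M S) (hT : Syl p T M) : T ⊓ ⁅M, M⁆ ≤ PK W V M T := by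
  obtain ⟨g, hg, rfl⟩ := hS.conj hT
  have := map_mono (f := cj g) h
  rwa [PK, Subgroup.map_sup, map_cj_inf, map_cj_inf, map_cj_inf, map_commutator, map_commutator, map_commutator,
    map_cj_inf, map_cj_inf, map_cj_of_mem hg, ← normalizer_map_cj, ← centralizer_map_cj, ← cf_map hW hS.pg,
    ← cf_map hV hS.pg] at this

theorem alp_Z (hW : IsConjugacyFunctor p W) (hS : Syl p S M) (R : Subgroup G → G → Prop)
    (trans : ∀ U c d, R U c → R (U.map (cj c)) d → R U (d * c))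
    (mono : ∀ U V c, V ≤ U → R U c → R V c) (mc : ∀ U g c, R U g → c ∈ C[U] → R U (g * c))
    (base : ∀ F, WP p W S M F → Z[S] ≤ F → ∀ x ∈ M ⊓ N[F], R F x) :
    ∀ U ≤ S, ∀ g ∈ M, U.map (cj g) ≤ S → R U g := by
  refine alp_ind hS (WP p W S M) (fun _ hT => by
    obtain ⟨g, hg, h1, -⟩ := exists_wp hW hS hT
    exact ⟨g, hg, h1, h1.le, h1.syl⟩) _ trans mono fun F hF hFS hs ih x hx => ?_
  by_cases h0 : Z[S] ≤ F
  · exact base F hF h0 x hx
  have nC : M ⊓ N[F] ≤ N[M ⊓ N[F] ⊓ C[F]] := le_norm_inf le_normalizer (le_norm_cent inf_le_right)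
  have s0 := hs.inf_norm inf_le_left (hs.le.trans nC)
  obtain ⟨n, hn, c, hc, rfl⟩ := s0.frattini' (nC hx)
  have n1 : n ∈ M ⊓ N[F] := by simpa using mul_mem hx (inv_mem hc.1)
  have zc : Z[S] ≤ C[F] := inf_le_right.trans (cent_anti hFS)
  have zn := zc.trans (cent_le_norm _)
  refine mc _ _ _ (mono _ _ _ le_sup_left (ih (F ⊔ _) (sup_le hFS (inf_le_left.trans inf_le_left))
    (index_lt_of_lt (left_lt_sup.2 fun e => h0 (le_trans (le_inf (le_inf inf_le_left zn) (le_inf (le_inf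
      (inf_le_left.trans hS.le) zn) zc)) e))) n n1.1 ?_)) hc.2
  rw [map_cj_eq (mem_norm_sup n1.2 hn)]
  exact sup_le hFS (inf_le_left.trans inf_le_left)

omit [Finite G] hp in
theorem zz {F : Subgroup G} (h0 : Z[S] ≤ F) : Z[S] ≤ Z[S ⊓ N[F]] :=
  le_inf (le_inf inf_le_left (h0.trans le_normalizer)) (inf_le_right.trans (cent_anti inf_le_left))

variable (hW : IsConjugacyFunctor p W) (hWZ : ∀ P : Subgroup G, IsPGroup p P → Z[P] ≤ W P)
  (hV : ∀ H K : Subgroup G, IsPGroup p H → IsPGroup p K → H ≠ ⊥ → K ≠ ⊥ → Z[H] ≤ Z[K] → V H ≤ V K)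
  (hS : Syl p S M) (S0 : S ≠ ⊥)
include hV hS S0

theorem cv_le {F : Subgroup G} (h0 : Z[S] ≤ F) : C[V (S ⊓ N[F])] ≤ C[V S] :=
  cent_anti (hV _ _ hS.pg (hS.pg.to_le inf_le_left) S0 (fun e => center_ne_bot hS.pg S0
    (eq_bot_iff.2 (((zz h0).trans inf_le_left).trans e.le))) (zz h0))

include hW hWZ

theorem pf_of_loc (hloc : ∀ F ≤ S, Z[S] ≤ F → ∀ T, Syl p T (M ⊓ N[F]) → ∀ U ≤ T, ∀ h ∈ M ⊓ N[F],
      U.map (cj h) ≤ T → Fu (PD W V (M ⊓ N[F]) T) T U h) :
    ∀ U ≤ S, ∀ h ∈ M, U.map (cj h) ≤ S → Fu (PD W V M S) S U h := by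
  have key := wp_ind hW hS (fun F => Z[S] ≤ F → ∀ U ≤ S ⊓ N[F], ∀ x ∈ M ⊓ N[F],
    U.map (cj x) ≤ S ⊓ N[F] → Fu (PD W V M S) S U x) (fun F hF ih h0 U hU x hx hUx => by
      refine (hloc F hF.le h0 _ hF.syl U hU x hx hUx).subst inf_le_left ?_
      rintro y (hy | hy) V' h1 - h2
      · by_cases hT : S ⊓ N[F] = S
        · rw [hT] at hy h1 h2
          exact Fu.single h1 (.inl ⟨hy.1.1, hy.2⟩) h2
        · have h3 := (lt_inf_norm_cf hW hS.pg (lt_of_le_of_ne inf_le_left hT)).le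
          exact ih hT ((zz h0).trans (hWZ _ hF.syl.pg)) V' (h1.trans h3) y ⟨hy.1.1, hy.2⟩ (h2.trans h3)
      · exact Fu.single (h1.trans inf_le_left) (.inr ⟨hy.1.1, cv_le hV hS S0 h0 hy.2⟩) (h2.trans inf_le_left))
  exact alp_Z hW hS _ (fun _ _ _ => Fu.trans) (fun _ _ _ h1 h2 => h2.mono h1) (fun _ _ _ => Fu.mul_cent)
    fun F hF h0 x hx => key F hF h0 F (le_inf hF.le le_normalizer) x hx
      (by rw [map_cj_eq hx.2]; exact le_inf hF.le le_normalizer)

theorem pk_of_loc (hloc : ∀ F ≤ S, Z[S] ≤ F → ∀ T, Syl p T (M ⊓ N[F]) →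
      T ⊓ ⁅M ⊓ N[F], M ⊓ N[F]⁆ ≤ PK W V (M ⊓ N[F]) T) : S ⊓ ⁅M, M⁆ ≤ PK W V M S := by
  have key := wp_ind hW hS (fun F => Z[S] ≤ F → (S ⊓ N[F]) ⊓ ⁅M ⊓ N[F], M ⊓ N[F]⁆ ≤ PK W V M S)
    (fun F hF ih h0 => by
      refine (hloc F hF.le h0 _ hF.syl).trans (sup_le ?_ ?_)
      · have h4 : M ⊓ N[F] ⊓ N[W (S ⊓ N[F])] ≤ M ⊓ N[W (S ⊓ N[F])] := inf_le_inf_right _ inf_le_left
        by_cases hT : S ⊓ N[F] = S
        · rw [hT] at h4 ⊢
          exact (inf_le_inf_left _ (commutator_mono h4 h4)).trans le_sup_left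
        · have h3 := (lt_inf_norm_cf hW hS.pg (lt_of_le_of_ne inf_le_left hT)).le
          exact (inf_le_inf h3 (commutator_mono h4 h4)).trans (ih hT ((zz h0).trans (hWZ _ hF.syl.pg)))
      · have h4 := inf_le_inf (inf_le_left : M ⊓ N[F] ≤ M) (cv_le hV hS S0 h0)
        exact (inf_le_inf inf_le_left (commutator_mono h4 h4)).trans le_sup_right)
  have := alp_Z hW hS (fun U g => ∀ x ∈ U, x * (g * x * g⁻¹)⁻¹ ∈ PK W V M S) (fun _ _ _ => foc_trans)
    (fun _ _ _ h1 h2 x hx => h2 x (h1 hx)) (fun U g c h hc x hx => by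
      rw [mul_assoc g c, ← hc x hx, show g * (x * c) * (g * c)⁻¹ = g * x * g⁻¹ by group]; exact h x hx)
    fun F hF h0 g hg x hx => by
      have h1 : F ≤ S ⊓ N[F] := le_inf hF.le le_normalizer
      exact key F hF h0 (mem_inf.2 ⟨mul_mem (h1 hx) (inv_mem (h1 (conj_mem_of_norm hg.2 hx))),
        foc_mem ⟨hS.le (hF.le hx), le_normalizer hx⟩ hg⟩)
  rw [inf_comm]
  exact hS.focal_le fun x hx u hu k => this (zpowers x) (zpowers_le.2 hx) u hu
    (by rw [MonoidHom.map_zpowers, zpowers_le]; exact k) x (mem_zpowers x)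

end CfsgFP
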