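import Cfsg.Agent.H9.Loc
import Cfsg.Agent.H9.Gen
import Cfsg.Agent.H9.Bal
import Cfsg.Agent.H1.Frattini
import Cfsg.Agent.H1.Coprime

/-! Isolated `p`-minimal subgroups. -/

set_option autoImplicit false
open Subgroup Cfsg
open scoped Pointwise

namespace CfsgH9

variable {G : Type*} [Group G] [Finite G] {p : ℕ} [hp : Fact p.Prime] {S P L A Y W : Subgroup G}

structure IsoM (p : ℕ) (S P L A : Subgroup G) : Prop where
  syl : Syl p S ⊤
  SP : S ≤ P
  SL : S ≤ L
  AS : A ≤ S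
  nA : L ≤ normalizer (A : Set G)
  nP : ¬ P ≤ normalizer (A : Set G)
  gen : ∀ H, S ≤ H → H ≤ L ∨ (P ≤ H ∧ H ≤ H ⊓ L ⊔ P)

theorem le_of_pmin (hS : Syl p S ⊤) {J : Subgroup G} (K : Subgroup G) :
    S ≤ K → K ⊓ normalizer (S : Set G) ≤ J → (∀ P ≤ K, S ≤ P → IsPMinimal p P → P ≤ J) → K ≤ J := by
  induction K using subgroup_induction with
  | h K ih =>
    intro hK hn h
    by_cases h2 : K ≤ normalizer (S : Set G)
    · exact (le_inf le_rfl h2).trans hn
    have sK := hS.of_le hK le_top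
    by_cases h3 : ∃ M, UM S M K
    · obtain ⟨M, hM⟩ := h3
      exact h K le_rfl hK ((isPMinimal_iff sK).2 ⟨hM.ncl_syl sK h2, M, hM⟩)
    obtain ⟨A, B, a1, a2, b1, b2, e⟩ := exists_two_max
      (lt_of_le_of_ne hK fun e => h2 (e ▸ le_normalizer)) h3
    rw [← e]
    exact sup_le
      (ih A a2 a1 ((inf_le_inf_right _ a2.le).trans hn) fun P x => h P (x.trans a2.le))
      (ih B b2 b1 ((inf_le_inf_right _ b2.le).trans hn) fun P x => h P (x.trans b2.le))

theorem isoM_of (hS : Syl p S ⊤) (hSP : S ≤ P) (h1 : normalizer (S : Set G) ≤ L)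
    (h2 : ∀ P', S ≤ P' → IsPMinimal p P' → P' ≠ P → P' ≤ L) (h : ¬ Op p L ≤ Op p P) :
    IsoM p S P L (Op p L) := by
  have SL : S ≤ L := le_normalizer.trans h1
  have AS := (hS.of_le SL le_top).Op_le
  refine ⟨hS, hSP, SL, AS, le_normalizer_Op le_normalizer, fun e => h (le_Op
    (Sn.of_normal (AS.trans hSP) e) (Op_isPGroup p L)), fun H hH => ?_⟩
  by_cases hP : P ≤ H
  · refine Or.inr ⟨hP, le_of_pmin hS H hH ((inf_le_inf_left _ h1).trans le_sup_left)
      fun P' a b c => ?_⟩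
    by_cases e : P' = P
    · exact e.le.trans le_sup_right
    · exact (le_inf a (h2 P' b c e)).trans le_sup_left
  · exact Or.inl (le_of_pmin hS H hH (inf_le_right.trans h1) fun P' a b c =>
      h2 P' b c fun e => hP (e ▸ a))

namespace IsoM
variable (h : IsoM p S P L A)
include h

omit hp in
theorem map (N : Subgroup G) [N.Normal] (hN : N ≤ A) :
    IsoM p (S.map (QuotientGroup.mk' N)) (P.map (QuotientGroup.mk' N))
      (L.map (QuotientGroup.mk' N)) (A.map (QuotientGroup.mk' N)) := by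
  have sj := QuotientGroup.mk'_surjective N
  refine ⟨map_top_of_surjective _ sj ▸ h.syl.map _, map_mono h.SP, map_mono h.SL, map_mono h.AS,
    (map_mono h.nA).trans (le_normalizer_map _), fun e => h.nP ?_, fun H hH => ?_⟩
  · have := (map_le_iff_le_comap.1 e).trans (le_normalizer_comap _)
    rwa [comap_map_mk, sup_eq_left.2 hN] at this
  · rw [← map_comap_mk N H]
    refine (h.gen _ (map_le_iff_le_comap.1 hH)).imp map_mono fun e => ⟨map_mono e.1,
      (map_mono e.2).trans ?_⟩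
    rw [Subgroup.map_sup]
    exact sup_le_sup_right (map_inf_le _ _ _) _

theorem sup : P = S ⊔ Oup p P := (h.syl.of_le h.SP le_top).sup_Oup.symm

theorem notX : ¬ Oup p P ≤ L := fun e => h.nP ((h.sup.le.trans (sup_le h.SL e)).trans h.nA)

omit [Finite G] hp in
theorem dich (hW : S ≤ normalizer (W : Set G)) : W ≤ L ∨ Oup p P ≤ W :=
  (h.gen (S ⊔ W) le_sup_left).imp le_sup_right.trans fun e =>
    Oup_le_sup_of_isPGroup h.syl.pg hW e.1

theorem cent : centralizer (A : Set G) ≤ L :=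
  (h.dich (le_normalizer_centralizer (h.SL.trans h.nA))).resolve_right fun e =>
    h.nP (h.sup.le.trans (sup_le (h.SL.trans h.nA) (e.trans (centralizer_le_normalizer _))))

theorem top (hY : Oup p P ≤ Y) : Y ⊔ L = ⊤ := by
  refine top_le_iff.1 (((h.gen ⊤ le_top).resolve_left fun e => h.notX (le_top.trans e)).2.trans ?_)
  exact sup_le (inf_le_right.trans le_sup_right)
    (h.sup.le.trans (sup_le (h.SL.trans le_sup_right) (hY.trans le_sup_left)))

theorem le_Fs (hO : Op p (⊤ : Subgroup G) = ⊥) : Oup p P ≤ Fs ⊤ := by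
  have nF : ∀ X : Subgroup G, X ≤ normalizer (Fs (⊤ : Subgroup G) : Set G) := fun X =>
    le_normalizer_Fs (le_top.trans le_normalizer)
  refine (h.dich (nF S)).resolve_left fun e => h.nP ?_
  have pA := h.syl.pg.to_le h.AS
  have h1 : Fs ⊤ ⊓ A ≤ ⊥ := hO ▸ le_Op ((Sn.of_normal inf_le_left
    (le_normalizer_inf le_normalizer (e.trans h.nA))).trans (sn_Fs ⊤)) (pA.to_le inf_le_right)
  have h2 : ⁅A, Fs ⊤⁆ = ⊥ := le_bot_iff.1 ((le_inf (commutator_le_right_of (nF A))
    (commutator_le_left_of (e.trans h.nA))).trans h1)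
  have h3 : A ≤ ⊥ := hO ▸ le_Op (sn_of_le_Fit (le_Fit_of_comm_Fs' le_top h2)) pA
  rw [le_bot_iff.1 h3]
  exact le_normalizer_of_normal

omit [Finite G] hp in
theorem inf_le (hc : (Nat.card S).Coprime (Nat.card Y)) [Y.Normal] :
    Y ⊓ L ≤ centralizer (A : Set G) := by
  refine comm_bot_iff.1 (le_bot_iff.1 ((le_inf (commutator_le_right_of (inf_le_right.trans h.nA))
    ((commutator_mono inf_le_left le_top).trans (commutator_le_left _ _))).trans ?_))
  exact (inf_le_inf_right _ h.AS).trans (inf_eq_bot_of_coprime hc).le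

theorem comm_normal (hY : Oup p P ≤ Y) [Y.Normal] : ⁅Y, A⁆.Normal :=
  normal_of_top_le ((h.top hY).ge.trans (sup_le (normalizer_commutator_ge_left _ _)
    (le_normalizer_commutator le_normalizer_of_normal h.nA)))

theorem comm_not_le (hc : (Nat.card S).Coprime (Nat.card Y)) (hY : Oup p P ≤ Y) [Y.Normal] :
    ¬ ⁅Y, A⁆ ≤ L := fun e => by
  haveI := (h.syl.pg.to_le h.AS).isNilpotent
  have := CfsgH1.coprime_commutator_sup_centralizer (A := A) (K := Y) le_normalizer_of_normal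
    (hc.coprime_dvd_left (card_dvd_of_le h.AS)) (Or.inl inferInstance)
  exact h.notX (hY.trans (this.ge.trans (sup_le e (inf_le_right.trans h.cent))))

theorem nil (hO : Op p (⊤ : Subgroup G) = ⊥) (hY : Oup p P ≤ Y) [Y.Normal]
    (hm : ∀ N : Subgroup G, N.Normal → Oup p P ≤ N → Y ≤ N) (hF : Y ≤ Fit ⊤) :
    Oup p P = Y ∧ ∃ t : ℕ, t.Prime ∧ t ≠ p ∧ IsPGroup t Y ∧ ⁅⁅Y, Y⁆, Y⁆ = ⊥ := by
  obtain ⟨t, pt, ht⟩ : ∃ (t : ℕ) (_ : Fact t.Prime), ¬ Op t (⊤ : Subgroup G) ≤ L := by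
    by_contra! e
    exact h.notX (hY.trans (hF.trans (Fit_le_of fun t i => e t i)))
  have nO : (⊤ : Subgroup G) ≤ normalizer (Op t (⊤ : Subgroup G) : Set G) :=
    le_normalizer_Op le_normalizer
  have tY : IsPGroup t Y := (Op_isPGroup t ⊤).to_le (hm _ (normal_of_top_le nO)
    ((h.dich (le_top.trans nO)).resolve_left ht))
  have tp : t ≠ p := by
    rintro rfl
    exact ht (hO ▸ bot_le)
  have hc : (Nat.card S).Coprime (Nat.card Y) :=
    IsPGroup.coprime_card_of_ne p t tp.symm _ _ h.syl.pg tY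
  haveI := tY.isNilpotent
  have cA := h.inf_le hc
  have SA := h.SL.trans h.nA
  have h1 : Y ≤ ⁅Y, A⁆ := hm _ (h.comm_normal hY)
    ((h.dich (le_normalizer_commutator le_normalizer_of_normal SA)).resolve_left
      (h.comm_not_le hc hY))
  have DY : Oup p P ⊔ ⁅Y, Y⁆ ≤ Y := sup_le hY (commutator_le_left _ _)
  have nD : Y ≤ normalizer ((Oup p P ⊔ ⁅Y, Y⁆ : Subgroup G) : Set G) :=
    le_normalizer_iff_commutator_le_left.2 ((commutator_mono DY le_rfl).trans le_sup_right)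
  have sD : S ≤ normalizer ((Oup p P ⊔ ⁅Y, Y⁆ : Subgroup G) : Set G) :=
    le_normalizer_sup (le_normalizer_Oup (h.SP.trans le_normalizer)) le_normalizer_of_normal
  have h2 : Y ≤ (Oup p P ⊔ ⁅Y, Y⁆) ⊔ Y ⊓ L := by
    have h3 := ((h.gen (S ⊔ Y) le_sup_left).resolve_left fun e =>
      h.notX (hY.trans (le_sup_right.trans e))).2
    rw [inf_sup_of_le_normalizer le_normalizer_of_normal h.SL] at h3
    have h4 : Y ≤ (((Oup p P ⊔ ⁅Y, Y⁆) ⊔ Y ⊓ L) ⊔ S) ⊓ Y := le_inf (le_sup_right.trans (h3.trans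
      (sup_le (sup_le le_sup_right (le_sup_right.trans le_sup_left)) (h.sup.le.trans
        (sup_le le_sup_right (le_sup_left.trans (le_sup_left.trans le_sup_left))))))) le_rfl
    rwa [inf_sup_of_le_normalizer' (le_normalizer_sup sD (le_normalizer_inf
      le_normalizer_of_normal (h.SL.trans le_normalizer))) (sup_le DY inf_le_left),
      inf_eq_bot_of_coprime hc, sup_bot_eq] at h4
  have h3 : Y ≤ Oup p P ⊔ ⁅Y, Y⁆ := h1.trans ((commutator_mono h2 le_rfl).trans
    (commutator_sup_le le_normalizer (inf_le_left.trans nD)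
      (commutator_le_left_of (h.AS.trans sD)) ((comm_bot_iff.2 cA).le.trans bot_le)))
  have e : Oup p P = Y := CfsgH1.eq_of_sup_le_frattiniOf (CfsgH1.commutator_le_frattiniOf Y)
    (by rw [sup_comm]; exact le_antisymm DY h3)
  refine ⟨e, t, pt.out, tp, tY, ?_⟩
  have h4 : ⁅Y, Y⁆ ≤ centralizer (A : Set G) := (le_inf (commutator_le_left _ _)
    ((h.dich le_normalizer_of_normal).resolve_right fun e' => h.notX (by
      rw [e, eq_bot_of_perfect_of_solvable (H := Y) inferInstance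
        (le_antisymm (commutator_le_left _ _) (e ▸ e'))]
      exact bot_le))).trans cA
  refine comm_bot_symm (comm_bot_mono (le_bot_iff.1 (three_subgroups (A := Y) (B := A)
    (C := ⁅Y, Y⁆) (N := ⊥) le_normalizer_of_normal le_normalizer_of_normal le_normalizer_of_normal
    ?_ ?_)) h1 le_rfl)
  · rw [comm_bot_iff'.2 h4, commutator_bot_left]
  · exact (comm_bot_iff.2 ((commutator_le_left _ _).trans h4)).le

theorem dvd (hY : Oup p P ≤ Y) [Y.Normal] (hF : Fit ⊤ ≤ L) : p ∣ Nat.card Y := by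
  by_contra hd
  have hc : (Nat.card S).Coprime (Nat.card Y) := by
    obtain ⟨k, hk⟩ := h.syl.pg.exists_card_eq
    rw [hk]
    exact ((Nat.Prime.coprime_iff_not_dvd hp.out).2 hd).pow_left k
  haveI := h.syl.pg.isNilpotent
  have ex := fun (q : ℕ) [Fact q.Prime] => exists_invariant_syl_coprime (A := S) (K := Y)
    le_normalizer_of_normal hc (Or.inl inferInstance) q
  obtain ⟨q, pq, R, hR, nR, hX⟩ : ∃ (q : ℕ) (_ : Fact q.Prime) (R : Subgroup G), Syl q R Y ∧
      S ≤ normalizer (R : Set G) ∧ Oup p P ≤ R := by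
    by_contra! e
    refine h.notX (hY.trans (le_of_forall_syl fun q i => ?_))
    obtain ⟨R, a, b⟩ := ex q
    exact ⟨R, a, (h.dich b).resolve_right (e q i R a b)⟩
  have h1 : ((Y ⊓ L).relIndex Y).Coprime (R.relIndex Y) := by
    refine Nat.coprime_of_dvd fun r pr a b => ?_
    haveI := Fact.mk pr
    by_cases e : r = q
    · exact hR.nd (e ▸ b)
    obtain ⟨T, c, d⟩ := ex r
    refine c.not_dvd_relIndex (le_inf c.le ((h.dich d).resolve_right fun f => h.notX ?_)) a
    exact (le_inf f hX).trans ((inf_eq_bot_of_coprime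
      (IsPGroup.coprime_card_of_ne r q e _ _ c.pg hR.pg)).le.trans bot_le)
  have h2 : (Y ⊓ L).relIndex Y ∣ (Y ⊓ L).relIndex R := by
    refine h1.dvd_of_dvd_mul_right ?_
    rw [← inf_relIndex_right (Y ⊓ L) R, relIndex_mul_relIndex _ _ _ inf_le_right hR.le]
    exact relIndex_dvd_of_le_left _ inf_le_left
  have h3 : (R : Set G) * (Y ⊓ L : Subgroup G) = Y := by
    refine Set.eq_of_subset_of_ncard_le ?_ ?_
    · rintro _ ⟨r, hr, c, hc, rfl⟩
      exact mul_mem (hR.le hr) hc.1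
    · rw [← Nat.card_coe_set_eq, ← Nat.card_coe_set_eq, card_set_mul]
      refine (card_mul_relIndex (inf_le_left : Y ⊓ L ≤ Y)).ge.trans (Nat.mul_le_mul_left _ ?_)
      exact Nat.le_of_dvd (Nat.pos_of_ne_zero index_ne_zero_of_finite) h2
  have h4 : ⁅Y, A⁆ ≤ R := Subgroup.commutator_le.2 fun y hy a ha => by
    obtain ⟨r, hr, c, hc', rfl⟩ := h3.ge hy
    have h5 : a * c = c * a := mem_centralizer_iff.1 (h.inf_le hc hc') a ha
    have h6 := mul_mem hr ((mem_normalizer_iff.1 (nR (h.AS ha)) _).1 (inv_mem hr))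
    convert h6 using 1
    simp only [commutatorElement_def, mul_inv_rev, mul_assoc]
    rw [← mul_assoc c a, ← h5]
    group
  haveI := h.comm_normal hY
  exact h.comm_not_le hc hY (((le_Op (Sn.of_normal_top _) (hR.pg.to_le h4)).trans
    (Op_le_Fit q ⊤)).trans hF)

theorem main (hO : Op p (⊤ : Subgroup G) = ⊥) (hY : Oup p P ≤ Y) [Y.Normal]
    (hm : ∀ N : Subgroup G, N.Normal → Oup p P ≤ N → Y ≤ N) :
    Oup p P = Y ∨ (p ∣ Nat.card Y ∧ ∃ K, Comp K ⊤ ∧ Y = ncl S K) := by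
  have nt : ∀ X : Subgroup G, X ≤ normalizer ((⊤ : Subgroup G) : Set G) := fun X =>
    le_top.trans le_normalizer
  rcases h.dich (W := Fit ⊤) (le_normalizer_Fit (nt _)) with hF | hF
  swap
  · exact Or.inl (h.nil hO hY hm (hm _ (normal_of_top_le (le_normalizer_Fit (nt _))) hF)).1
  refine Or.inr ⟨h.dvd hY hF, ?_⟩
  obtain ⟨K, hK, KL⟩ : ∃ K, Comp K (⊤ : Subgroup G) ∧ ¬ K ≤ L := by
    by_contra! e
    exact h.notX ((h.le_Fs hO).trans ((Fs_eq ⊤).le.trans (sup_le (Lay_le_iff.2 e) hF)))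
  have hX : ∀ J, ¬ J ≤ L → Oup p P ≤ ncl S J := fun J a =>
    (h.dich (le_normalizer_ncl S J)).resolve_left fun e => a ((le_ncl S J).trans e)
  have hZ : ¬ Oup p P ≤ centralizer (ncl S K : Set G) := fun e =>
    h.notX (((le_inf (hX K KL) e).trans (center_le_Fit (hK.sn_ncl (nt S)))).trans hF)
  have hJ : ∀ J, Comp J (⊤ : Subgroup G) → ¬ J ≤ L → J ≤ ncl S K := fun J a b => by
    rcases hK.eq_cj_or_comm a (nt S) with ⟨y, hy, rfl⟩ | e
    · exact cj_le_ncl hy
    · exact absurd ((hX J b).trans (ncl_le (comm_bot_iff.1 e)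
        (le_normalizer_centralizer (le_normalizer_ncl S K)))) hZ
  have nW : (ncl S K).Normal := by
    refine normal_of_top_le ((h.top (hX K KL)).ge.trans (sup_le le_normalizer
      (le_normalizer_iff_cj.2 fun l hl => ?_)))
    rw [cj_ncl]
    refine ncl_le_iff.2 fun y hy => ?_
    rw [cj_cj]
    refine hJ _ (hK.cj_of_mem (nt _ (mem_top _))) fun e => KL ?_
    rw [← cj_inv_cj (y * l) K]
    exact cj_le_of_mem (inv_mem (mul_mem (cj_le_of_mem hl h.SL hy) hl)) e
  refine ⟨K, hK, le_antisymm (hm _ nW (hX K KL)) (ncl_le ?_ le_normalizer_of_normal)⟩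
  refine (hK.le_or_comm (Sn.of_normal_top Y)).resolve_right fun e => hZ (hY.trans ?_)
  exact le_centralizer_iff.1 (ncl_le (comm_bot_iff.1 e)
    (le_normalizer_centralizer le_normalizer_of_normal))

end IsoM

theorem Oup_eq_of_map_eq (hS : Syl p S ⊤) (hSP : S ≤ P) [(pCore p G).Normal] [Y.Normal]
    (hY : Oup p P ≤ Y) (hm : ∀ N : Subgroup G, N.Normal → Oup p P ≤ N → Y ≤ N)
    (e : (Oup p P).map (QuotientGroup.mk' (pCore p G)) = Y.map (QuotientGroup.mk' (pCore p G))) :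
    Oup p P = Y := by
  have h1 := map_mk_eq_map_mk_iff.1 e
  have h2 : pCore p G ≤ P := (Op_top (G := G) p ▸ hS.Op_le).trans hSP
  have h3 : Oup p (Y ⊔ pCore p G) = Oup p P := le_antisymm (Oup_le_sup_of_isPGroup
    (pCore_isPGroup p) (le_normalizer_Oup (h2.trans le_normalizer)) (by rw [← h1, sup_comm]))
    ((Oup_Oup P).ge.trans (Oup_mono (hY.trans le_sup_left)))
  exact le_antisymm hY (hm _ (normal_of_top_le (h3 ▸ le_normalizer_Oup le_normalizer_of_normal))
    le_rfl)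

omit hp in
theorem exists_quot_hom (Y : Subgroup G) [Y.Normal] [(pCore p G).Normal] [(pCore p Y).Normal] :
    ∃ g : Y ⧸ pCore p Y →* G ⧸ pCore p G, Function.Injective g ∧
      (∀ y : Y, g (QuotientGroup.mk' _ y) = QuotientGroup.mk' _ (y : G)) ∧
      (⊤ : Subgroup _).map g = Y.map (QuotientGroup.mk' (pCore p G)) := by
  have h1 : ∀ y : Y, y ∈ pCore p Y ↔ (y : G) ∈ pCore p G := fun y => by
    have := Op_of_sn (p := p) (Sn.of_normal_top Y)
    rw [Op_top] at this
    refine ⟨fun h => (this.le ⟨y, h, rfl⟩).1, fun h => ?_⟩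
    obtain ⟨z, hz, e⟩ := this.ge ⟨h, y.2⟩
    exact (Subtype.ext e : z = y) ▸ hz
  refine ⟨QuotientGroup.lift _ ((QuotientGroup.mk' (pCore p G)).comp Y.subtype) fun y hy =>
    (QuotientGroup.eq_one_iff _).2 ((h1 y).1 hy), (injective_iff_map_eq_one _).2 fun x hx => ?_,
    fun y => rfl, le_antisymm ?_ ?_⟩
  · obtain ⟨y, rfl⟩ := QuotientGroup.mk_surjective x
    exact (QuotientGroup.eq_one_iff _).2 ((h1 y).2 ((QuotientGroup.eq_one_iff _).1 hx))
  · rintro _ ⟨x, -, rfl⟩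
    obtain ⟨y, rfl⟩ := QuotientGroup.mk_surjective x
    exact ⟨y, y.2, rfl⟩
  · rintro _ ⟨y, hy, rfl⟩
    exact ⟨QuotientGroup.mk ⟨y, hy⟩, mem_top _, rfl⟩

end CfsgH9
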