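import Cfsg.Agent.H2.NP8
import Cfsg.Agent.H2.FF3
import Cfsg.Agent.H2.S4G
import Cfsg.Agent.H2.WC
import Cfsg.Agent.L0.ZJ2

/-! Weak closure of elements of the centre of the normalizer of the Thompson subgroup. -/

set_option autoImplicit false
namespace CfsgJW
open Subgroup Function Cfsg CfsgL0 CfsgBG CfsgH2
open scoped commutatorElement IsMulCommutative

variable {G : Type*} [Group G] {p : ℕ} {V A B D H U L M T P E K X Y Z W S : Subgroup G}

theorem np_not_comm [Finite G] (h : NP p V D B) : ¬ ⁅⁅D ⊔ B, D ⊔ B⁆, V⁆ ≤ C[D ⊔ B] := fun e => by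
  obtain ⟨v, hv, v0⟩ := SetLike.not_le_iff_exists.1 h.neB
  obtain ⟨⟨d, hd⟩, d0⟩ := ne_bot_iff_exists_ne_one.1 h.ne_bot
  obtain ⟨⟨b, hb⟩, b0⟩ := ne_bot_iff_exists_ne_one.1 h.symm.ne_bot
  have d1 : d ≠ 1 := fun f => d0 (Subtype.ext f)
  have b1 : b ≠ 1 := fun f => b0 (Subtype.ext f)
  have k := e (commutator_mem_commutator (commutator_mem_commutator
    (inv_mem (mem_sup_right hb)) (mem_sup_left hd)) hv.1)
  have k2 : b * ⁅⁅b⁻¹, d⁆, v⁆ * b⁻¹ ∈ C[B] :=
    conj_mem_of_norm (le_norm_cent le_normalizer hb) (cent_anti le_sup_right k)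
  have c : v * d⁻¹ = d⁻¹ * v := (mem_cent_iff.1 hv.2 _ (inv_mem hd)).symm
  have k3 : b * ⁅⁅b⁻¹, d⁆, v⁆ * b⁻¹ = ⁅d, b * v * b⁻¹⁆ := by
    simp only [commutatorElement_def]
    calc _ = d * b * (d⁻¹ * v) * d * b⁻¹ * d⁻¹ * b * v⁻¹ * b⁻¹ := by group
      _ = _ := by rw [← c]; group
  have w := h.fA' hd d1 (conj_mem_of_norm (h.nB hb) hv.1) (k3 ▸ k2)
  exact v0 (h.symm.fA' hb b1 hv.1 (mul_mem w (inv_mem hv.2)))

theorem avg [Finite G] (ab : Ab[U]) (nU : H ≤ N[U]) (l : V ≤ U) {x : G} (hx : x ∈ U)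
    (hM : H ⊓ M ≤ C1[x]) (hV : ∀ g ∈ H, x * (g * x * g⁻¹)⁻¹ ∈ V) :
    ∃ y ∈ C[H], x ^ (M.relIndex H) * y⁻¹ ∈ V := by
  classical
  haveI := ab
  let F : G → U := fun g => if h : g ∈ H then ⟨g * x * g⁻¹, conj_mem_of_norm (nU h) hx⟩ else 1
  have eF : ∀ g ∈ H, (F g : G) = g * x * g⁻¹ := fun g hg => by simp only [F, dif_pos hg]
  have hF : ∀ g ∈ H, ∀ m ∈ H, m ∈ M → F (g * m) = F g := fun g hg m h1 h2 => Subtype.ext (by
    rw [eF _ (mul_mem hg h1), eF _ hg]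
    have := mem_centralizer_singleton_iff.1 (hM ⟨h1, h2⟩)
    calc _ = g * (m * x) * m⁻¹ * g⁻¹ := by group
      _ = _ := by rw [this]; group)
  refine ⟨(trc H M F : U), mem_cent_iff.2 fun k hk => ?_, ?_⟩
  · have e := map_trc (H := H) (M := M) (F := F) (U.normalizerMonoidHom ⟨k, nU hk⟩).toMonoidHom
    replace e := e.trans ((trc_congr (F' := fun g => F (k * g)) (fun g hg => Subtype.ext (by
      rw [eF _ (mul_mem hk hg)]
      change k * (F g : G) * k⁻¹ = _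
      rw [eF _ hg]; group))).trans (trc_shift hF hk))
    have e2 : k * (trc H M F : U) * k⁻¹ = (trc H M F : U) := congrArg Subtype.val e
    exact mul_inv_eq_iff_eq_mul.1 e2
  · have e : trc H M (fun g => (⟨x, hx⟩ : U) * (F g)⁻¹) * trc H M F = ⟨x, hx⟩ ^ M.relIndex H := by
      rw [← trc_mul, ← trc_const]; exact trc_congr fun g _ => by simp
    have m : trc H M (fun g => (⟨x, hx⟩ : U) * (F g)⁻¹) ∈ V.subgroupOf U := trc_mem fun g hg => by
      rw [mem_subgroupOf, coe_mul, coe_inv, eF _ hg]; exact hV g hg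
    rw [eq_mul_inv_of_mul_eq e] at m
    exact m

variable [Finite G]

theorem bs_small [Fact p.Prime] (h : BS p V P M T) (a : MO p V P A) {v : G} (hv : v ∈ V)
    (hM : P ⊓ M ≤ C1[v]) (hC : P ⊓ C1[v] ≤ M) : ∃ D B, D ≤ P ∧ B ≤ P ∧ NP p V D B ∧ o[D] = 2 := by
  obtain ⟨D, d, l⟩ := h.ex_le a
  obtain ⟨B, b⟩ := h.ex_par a h.pf.syl d l
  have fj := h.fj
  have mD := h.mq a b.d
  have mB := h.mq a b.b
  refine ⟨D, B, mD.le, mB.le, b.np, by_contra fun c => ?_⟩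
  have c2 := (one_lt_card_iff_ne_bot D).2 mD.ne
  have lE := sup_le mD.le mB.le
  obtain ⟨F, _, _, n, hn, hF, e⟩ := exists_field (fj.pD mD) mD.ne
  obtain ⟨x, hx, x1, -, x3⟩ := (b.s2 F hF).torus fj.el (lE.trans fj.n) (fj.fa' lE) b.hO le_sup_left
    (by omega)
  have nY : ∀ Y, Cl P A Y → Y ≤ T → x ∈ N[Y] := fun Y y l => by
    by_cases e : Y = D
    · exact e ▸ x1
    · exact cent_le_norm _ (sup_le (h.comm a b.d y h.pf.syl.pg b.le l) (b.cm Y y l e) hx)
  have nW : x ∈ N[WW P A T] := mem_norm_of_map_le (map_cj_le_iff.2 (WW_le_iff.2 fun Y y l =>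
    map_cj_le_iff.1 ((map_cj_eq (nY Y y l)).le.trans (le_WW y l))))
  have xM := h.um.norm_le WW_le (fun t ht => norm_WW (h.pf.syl.le ht) (le_normalizer ht))
    (fun e => mD.ne (le_bot_iff.1 (h.hO ▸ (le_WW d l).trans e))) ⟨lE hx, nW⟩
  have vC := x3 v hv (by
    rw [commutatorElement_eq_one_iff_mul_comm.2 (mem_centralizer_singleton_iff.1 (hM ⟨lE hx, xM⟩))]
    exact one_mem _)
  exact b.nM 1 (one_mem _) (by rw [map_cj_one]; exact h.pf.le) (by
    rw [map_cj_one]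
    exact (le_inf mB.le (le_sup_right.trans (le_cent1_iff.2 vC))).trans hC)

/-- a quadratic element from the Thompson subgroup -/
theorem jw_quad [Fact p.Prime] (hT : Syl p T H) (hn : ¬ H ≤ N[J[0, T]]) : ∃ g ∈ T, g ∉ O[{p}, H] ∧
    ⁅⁅Z[O[{p}, H]], zpowers g⁆, zpowers g⁆ = ⊥ := by
  obtain ⟨A, a1, a2, a3⟩ := quad_J hT hn
  rw [omegaOne_zero] at a3
  obtain ⟨g, g1, g2⟩ := SetLike.not_le_iff_exists.1 a2
  refine ⟨g, a1.le g1, g2, comm_eq_bot_iff.2 (le_trans ?_ ((le_cent_self a1.ab).trans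
    (cent_anti (zpowers_le.2 g1))))⟩
  exact (commutator_mono le_rfl (zpowers_le.2 g1)).trans (comm_le_right a3)

theorem jw_cf [Fact p.Prime] : IsConjugacyFunctor p (fun P : Subgroup G => J[0, P]) := by
  have := iw_cf (G := G) (wJ_char (p := p) (dvd_zero p))
  rwa [show inducedFunctor (wJ 0) = fun P : Subgroup G => J[0, P] from funext fun _ => iw_J] at this

theorem jw_syl_bar [Fact p.Prime] (s : Syl p T L) (n : L ≤ N[V]) : Syl p (bar V T) (bar V L) :=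
  ((inj_syl N[V].subtype_injective).1 (by
    rwa [map_subgroupOf_eq_of_le n, map_subgroupOf_eq_of_le (s.le.trans n)])).map _

theorem jw_le_of_bar (n : L ≤ N[V]) (c : L ⊓ C[V] ≤ M) (l : K ≤ L) (e : bar V K ≤ bar V (L ⊓ M)) :
    K ≤ M :=
  (le_inf ((bar_le_bar (l.trans n) (inf_le_left.trans n)).1 e) l).trans
    ((sup_inf_of_norm (.inl ((inf_le_left.trans n).trans (norm_le_norm_cent _))) inf_le_left).le.trans
      (sup_le inf_le_right ((inf_comm _ _).le.trans c)))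

theorem jw_toBar [Fact p.Prime] (u : UM p T M L) (n : L ≤ N[V]) (c : L ⊓ C[V] ≤ M) :
    UM p (bar V T) (bar V (L ⊓ M)) (bar V L) := by
  refine ⟨jw_syl_bar u.syl n, bar_mono (le_inf u.syl.le u.le), fun e => u.nle
    (jw_le_of_bar n c le_rfl e), fun K k1 k2 k3 => ?_⟩
  rw [← bar_inf_pre k2]
  exact bar_mono (le_inf inf_le_left (u.max _ (le_inf u.syl.le ((bar_le_iff (u.syl.le.trans n)).1 k1))
    inf_le_left fun e => k3 (by rw [← bar_inf_pre k2, e])))

theorem jw_core_bar [Fact p.Prime] (u : UM p T M L) (n : L ≤ N[V]) (c : L ⊓ C[V] ≤ M)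
    (q : O[{p}, L] ≤ C[V]) : O[{p}, bar V L] = ⊥ := by
  have l : O[{p}, bar V L] ≤ bar V T := (jw_syl_bar u.syl n).pCoreOf_le
  have nN : L ≤ N[L ⊓ pre V O[{p}, bar V L]] := le_norm_inf le_normalizer (le_norm_pre n le_norm_piCoreOf)
  rw [← bar_inf_pre l, bar_eq_bot (inf_le_left.trans (u.syl.le.trans n))]
  refine le_trans (le_inf inf_le_left (inf_le_inf_right _ u.syl.le))
    ((u.inf_le_core inf_le_left nN ?_).trans q)
  refine (le_inf ((bar_le_bar (inf_le_left.trans n) (u.syl.le.trans n)).1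
    ((bar_mono inf_le_right).trans (bar_pre_le.trans l))) inf_le_left).trans
    ((sup_inf_of_norm (.inl ((u.syl.le.trans n).trans (norm_le_norm_cent _))) u.syl.le).le.trans
      (sup_le u.le ((inf_comm _ _).le.trans c)))

theorem jw_bs [Fact p.Prime] (u : UM p T M L) (hV : IsElementaryAbelian p V) (n : L ≤ N[V])
    (q : O[{p}, L] ≤ C[V]) (c : L ⊓ C[V ⊓ C[T]] ≤ M) (h0 : ¬ T ≤ C[V]) :
    BS p (vv V V) (bar V L) (bar V (L ⊓ M)) (bar V T) := by
  have c' : L ⊓ C[V] ≤ M := (inf_le_inf_left _ (cent_anti inf_le_left)).trans c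
  have hO := jw_core_bar u n c' q
  have nT := u.syl.le.trans n
  refine bs_of (elem_vv hV) ((bar_le_norm_vv le_rfl n).2 n) (bar_fa n) (jw_toBar u n c')
    (fun e => h0 ?_) hO ?_
  · rw [← bar_eq_bot nT, ← le_bot_iff, ← hO]
    exact le_pCoreOf (bar_mono u.syl.le) e (jw_syl_bar u.syl n).pg
  · rw [← vv_cent le_rfl nT, ← bar_inf_cent inf_le_left n]
    exact bar_mono (le_inf inf_le_left c)

/-- the local lemma -/
theorem jw_local {x : G} (u : UM 2 T C1[x] H) (hZ : x ∈ Z[T]) (hQ : x ∈ O2[H])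
    (hn : ¬ H ≤ N[J[0, T]]) : I4 H := by
  set Q := O2[H]
  have nQ : H ≤ N[Q] := le_norm_piCoreOf
  have QT : Q ≤ T := u.syl.pCoreOf_le
  have pZ : PG[2, Z[Q]] := isPGroup_piCoreOf.to_le inf_le_left
  have nZ : H ≤ N[Z[Q]] := nQ.trans norm_le_norm_center
  have xZ : x ∈ Z[Q] := ⟨hQ, cent_anti QT hZ.2⟩
  have c2 : C1[x] ≤ C[zpowers (x ^ 2)] := by
    rw [← cent_zpowers]; exact cent_anti (zpowers_le.2 (pow_mem (mem_zpowers x) 2))
  have h2 : H ≤ C[zpowers (x ^ 2)] := fun g hg => wcm_of_local jw_cf (fun _ _ => center_le_J)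
    (fun _ _ => jw_quad) u.syl (A := zpowers (x ^ 2)) (zpowers_le.2 (pow_mem_phi
      (u.syl.pg.to_le inf_le_left) hZ)) le_rfl (cent_le_norm _)
    ((u.norm_le' le_norm_J hn).trans c2) g hg
    ((map_cj_le_of_norm (zpowers_le.2 (pow_mem hQ 2)) (nQ hg)).trans QT)
  set V := ΩZ[Q]
  have el : IsElementaryAbelian 2 V := elem_OZ
  have l : V ≤ Z[Q] := omegaOne_le
  have nV : H ≤ N[V] := le_norm_omegaOne' nZ
  obtain ⟨y, y1, y2⟩ := avg (V := V) (M := C1[x]) (isMulComm_cent_inf Q) nZ l xZ inf_le_right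
    fun g hg => by
      have m := conj_mem_of_norm (nZ hg) xZ
      refine mem_omegaOne (mul_mem xZ (inv_mem m)) ?_
      rw [Commute.mul_pow (commute_of_mem_cent xZ.2 (inv_mem m.1)), inv_pow, conj_pow,
        ← mem_cent_iff.1 (h2 hg) _ (mem_zpowers _)]
      group
  set v := x ^ C1[x].relIndex H * y⁻¹
  have v1 : H ⊓ C1[x] ≤ C1[v] := le_cent1_iff.2 (mul_mem (pow_mem (le_cent1_iff.1 inf_le_right) _)
    (inv_mem (cent_anti inf_le_left y1)))
  have v2 : H ⊓ C1[v] ≤ C1[x] := u.max _ (le_inf u.syl.le ((le_inf u.syl.le u.le).trans v1))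
    inf_le_left fun e => u.nle (le_cent1_iff.2 (by
      have k : x ^ C1[x].relIndex H ∈ C[H] := by
        simpa [v] using mul_mem (le_cent1_iff.1 (e.ge.trans inf_le_right)) y1
      obtain ⟨m, hm⟩ : Odd (C1[x].relIndex H) := Nat.not_even_iff_odd.1 fun f =>
        u.syl.not_dvd_of_le u.le f.two_dvd
      have k2 : x ^ 2 ∈ C[H] := le_centralizer_iff.1 h2 (mem_zpowers _)
      rw [hm, pow_succ, pow_mul] at k
      simpa using mul_mem (inv_mem (pow_mem k2 m)) k))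
  have vT : v ∈ V ⊓ C[T] := ⟨y2, le_cent1_iff.1 ((le_inf u.syl.le u.le).trans v1)⟩
  have c : H ⊓ C[V ⊓ C[T]] ≤ C1[x] := (inf_le_inf_left _ (le_cent1_iff.2
    (le_centralizer_iff.1 le_rfl vT))).trans v2
  have c' : H ⊓ C[V] ≤ C1[x] := (inf_le_inf_left _ (cent_anti inf_le_left)).trans c
  have tq : T ⊓ C[V] ≤ Q := (le_inf inf_le_left (inf_le_inf_right _ u.syl.le)).trans
    (u.inf_le_core inf_le_left (le_norm_inf le_normalizer (le_norm_cent nV)) c')
  obtain ⟨A, a1, a2, a3⟩ := quad_J u.syl hn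
  rw [omegaOne_zero] at a3
  have a4 : ¬ A ≤ C[V] := fun e => a2 ((le_inf a1.le e).trans tq)
  have nA : A ≤ N[V] := (a1.le.trans u.syl.le).trans nV
  have bs := jw_bs u el nV le_cent_OZ c fun e => a4 (a1.le.trans e)
  obtain ⟨A', -, a, -⟩ := exists_mo (p := 2) (V := vv V V) (bar_mono (a1.le.trans u.syl.le) :
    bar V A ≤ bar V H) (el_two (by
      rintro _ ⟨k, hk, rfl⟩
      rw [← map_mul, hψ_eq_one]
      refine mem_cent_iff.2 fun w hw => ?_
      have e1 : ⁅w, (k : G)⁆ ∈ A := comm_le_right a3 (commutator_mem_commutator (l hw) hk)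
      have e2 : ⁅w, (k : G)⁆ ∈ V := comm_le_left nA (commutator_mem_commutator hw hk)
      rw [← commutatorElement_eq_one_iff_mul_comm, coe_mul, commutator_mul_right',
        comm_of_isMulComm a1.ab (show (k : G) ∈ A from hk) e1, mul_inv_cancel_right, ← pow_two,
        el.2 _ e2]))
    (mt (bar_eq_bot nA).1 a4) (by
      rw [← vv_cent le_rfl nA, card_vv le_rfl, card_vv inf_le_left, card_bar nA,
        ← card_inf_mul_relIndex C[A] V, inf_comm C[A], mul_comm]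
      exact Nat.mul_le_mul_right _ (me_off a1 (l.trans (inf_le_left.trans QT))
        ⟨el.1, fun _ _ => pow_zero _⟩))
  have ev : ∀ K ≤ N[V], bar V K ≤ C1[(SemidirectProduct.inl ⟨v, y2⟩ : HX V)] ↔ K ≤ C1[v] :=
    fun K n => by
      rw [← cent_zpowers, ← cent_zpowers, ← bar_le_cent (zpowers_le.2 y2) n]
      congr! 3
      refine le_antisymm (zpowers_le.2 (inl_mem_vv.2 (mem_zpowers _))) ?_
      rintro _ ⟨w, ⟨k, hk⟩, rfl⟩
      exact ⟨k, (map_zpow _ _ _).symm.trans (congrArg _ (Subtype.ext hk))⟩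
  obtain ⟨D, B, d, b, np, cD⟩ := bs_small bs a (inl_mem_vv.2 y2 : SemidirectProduct.inl ⟨v, y2⟩ ∈ _)
    (inf_le_right.trans ((ev _ (inf_le_left.trans nV)).2 v1)) (by
      rw [← bar_inf_pre (inf_le_left : bar V H ⊓ _ ≤ _)]
      exact bar_mono (le_inf inf_le_left ((le_inf inf_le_left ((ev _ (inf_le_left.trans nV)).1
        ((bar_inf_pre inf_le_left).le.trans inf_le_right))).trans v2)))
  have e := bar_inf_pre (sup_le d b)
  set L := H ⊓ pre V (D ⊔ B)
  have nL : L ≤ N[V] := inf_le_left.trans nV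
  refine (i4_sec (X := V) (Y := V ⊓ C[L]) (L := L) inf_le_left ?_ (ab_norm el.1 le_rfl inf_le_left) nL
    (le_norm_inf nL (le_norm_cent le_normalizer)) fun f => np_not_comm np ?_).mono
    (sup_le (l.trans (inf_le_left.trans piCoreOf_le)) inf_le_left)
  · have k := np.cV2
    rw [cD, ← e, ← vv_cent le_rfl nL, card_vv le_rfl, card_vv inf_le_left,
      ← card_mul_relIndex (inf_le_left : V ⊓ C[L] ≤ V), mul_comm] at k
    exact Nat.eq_of_mul_eq_mul_right (card_pos' _) k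
  · rw [← e, ← bar_comm nL nL, commutator_comm, ← vv_comm le_rfl (comm_le_norm nL nL), commutator_comm]
    exact (vv_mono f).trans ((vv_cent le_rfl nL).le.trans inf_le_right)

theorem jw_odd [Fact p.Prime] (hp : p ≠ 2) (hT : Syl p T H) {x : G} (hx : x ∈ T ⊓ C[H ⊓ N[J[0, T]]])
    {h : G} (hh : h ∈ H) (h1 : h * x * h⁻¹ ∈ T) : h * x * h⁻¹ = x := by
  refine wce_of_local jw_cf (fun _ _ => center_le_J) (fun H T hT hn => ?_) hT hx hh h1
  obtain ⟨g, g1, g2, g3⟩ := jw_quad hT hn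
  refine ⟨g, g1, g2, fun X Y h hX => iterComm_le_of_le (zpowers_le.2 (h.nY (hT.le g1))) (i := 2)
    (by have := (Fact.out : p.Prime).two_le; omega) ?_⟩
  exact ((iterComm_mono hX le_rfl 2).trans g3.le).trans bot_le

theorem jw_pow [Fact p.Prime] (hT : Syl p T H) {x : G} (hx : x ∈ Φ[Z[T]] ⊓ C[H ⊓ N[J[0, T]]])
    {h : G} (hh : h ∈ H) (h1 : h * x * h⁻¹ ∈ T) : h * x * h⁻¹ = x := by
  have := wcm_of_local jw_cf (fun _ _ => center_le_J) (fun _ _ => jw_quad) hT (A := zpowers x)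
    (zpowers_le.2 hx.1) le_rfl (cent_le_norm _) (by rw [cent_zpowers]; exact le_cent1_iff.2 hx.2) h hh
    (by rw [MonoidHom.map_zpowers]; exact zpowers_le.2 h1)
  rw [cent_zpowers] at this
  rw [mem_centralizer_singleton_iff.1 this]; group

theorem jw_s4 (f : ¬ I4 (⊤ : Subgroup G)) (hT : Syl 2 T H) {x : G}
    (hx : x ∈ T ⊓ C[H ⊓ N[J[0, T]]]) {h : G} (hh : h ∈ H) (h1 : h * x * h⁻¹ ∈ T) :
    h * x * h⁻¹ = x := by
  have := wc_skel jw_cf (fun _ _ => center_le_J) (A := zpowers x) (D := C1[x]) le_rfl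
    (by rw [← cent_zpowers]; exact cent_le_norm _) (fun H T hZ hU hA hn =>
      f ((jw_local hU (zpowers_le.1 hZ) (zpowers_le.1 hA) hn).mono le_top))
    H T hT (zpowers_le.2 ⟨hx.1, cent_anti (le_inf hT.le le_norm_J) hx.2⟩)
    (le_cent1_iff.2 hx.2) h hh (by rw [MonoidHom.map_zpowers]; exact zpowers_le.2 h1)
  rw [mem_centralizer_singleton_iff.1 this]; group

end CfsgJW
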