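import Mathlib
import Cfsg.Agent.H3.Sm2

/-! A decidable test excluding simple group orders through the degree equation. -/

set_option autoImplicit false

namespace CfsgKil
open Cfsg CfsgSm CfsgH4 CfsgH3

def sums (L : List ℤ) : ℕ → List ℤ
  | 0 => [0]
  | k + 1 => ((sums L k).flatMap fun s => L.map (s + ·)).dedup

theorem mem_sums {ι : Type*} [DecidableEq ι] (L : List ℤ) (f : ι → ℤ) (S : Finset ι)
    (h : ∀ x ∈ S, f x ∈ L) : ∑ x ∈ S, f x ∈ sums L S.card := by
  induction S using Finset.induction_on with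
  | empty => simp [sums]
  | insert a S ha ih =>
    rw [Finset.sum_insert ha, Finset.card_insert_of_notMem ha, sums, List.mem_dedup,
      List.mem_flatMap]
    exact ⟨_, ih fun x hx => h x (Finset.mem_insert_of_mem hx),
      List.mem_map.2 ⟨f a, h a (Finset.mem_insert_self _ _), add_comm _ _⟩⟩

def cs (p m e n : ℕ) : List ℕ := (cands (p * m) (e * n)).filter fun d => e * n = m ∨ 2 * p ≤ d

def xs (p m e n : ℕ) : List ℤ :=
  ((cs p m e n).filter fun d => d % p = 1).map (fun d : ℕ => (d : ℤ)) ++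
    ((cs p m e n).filter fun d => (d + 1) % p = 0).map fun d : ℕ => -(d : ℤ)

def Chk (p m : ℕ) : Prop :=
  ∀ n ∈ m.divisors, n % p = 1 → 1 < n → ∀ e ∈ (p - 1).divisors, 2 ≤ e → e * n ∣ m →
    ∀ f ∈ cs p m e n, (p - 1) / e * f ^ 2 ≤ p * m →
      ((f + e) % p = 0 → -((f : ℤ) + 1) ∉ sums (xs p m e n) (e - 1)) ∧
        (f % p = e → (f : ℤ) - 1 ∉ sums (xs p m e n) (e - 1))

instance (p m : ℕ) : Decidable (Chk p m) := by unfold Chk; infer_instance

theorem kill {G : Type*} [Group G] [Finite G] [IsSimpleGroup G] {p m : ℕ} [hp : Fact p.Prime]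
    (h : Nat.card G = p * m) (hm : ¬ p ∣ m) (h0 : ¬ (p * m).Prime) (hc : Chk p m) : False := by
  classical
  have hG := nc (G := G) (by rwa [h])
  obtain ⟨M, _, u, e, X, y, ε, δ, n, c, H, h1, h2, h3, h4, h5, h6, h7⟩ := setup (p := p) hG h hm
  have m0 : m ≠ 0 := fun e => hm (e ▸ dvd_zero p)
  have p1 := hp.out.one_lt
  obtain ⟨ψ, hψ⟩ := Finset.card_pos.1 H.pos'
  obtain ⟨b1, b2, b3, b4⟩ := dY hG H hψ
  have r := rel' H hψ
  have ce := card_erase H
  have sq := sq_le H hψ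
  have cY := H.cardY
  have bg : ∀ χ ∈ principalBlock M G, χ ≠ irrOne G → e * n = m ∨ 2 * p ≤ charDegree χ.1 := by
    intro χ a b
    by_cases c1 : c = 1
    · left; rw [← h3, c1, mul_one]
    · right
      refine big hG H ?_ a b
      rw [h2]
      intro e
      exact c1 (Nat.eq_of_mul_eq_mul_left hp.out.pos (e.trans (mul_one p).symm))
  have mc : ∀ χ ∈ principalBlock M G, χ ≠ irrOne G → 1 < charDegree χ.1 →
      charDegree χ.1 ∣ e * n → charDegree χ.1 ^ 2 < Nat.card G → charDegree χ.1 ∈ cs p m e n :=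
    fun χ a b c1 c2 c3 => List.mem_filter.2 ⟨mem_cands c1 c2 (h ▸ c3), by simpa using bg χ a b⟩
  rw [h1] at b2
  have hx : ∀ χ ∈ X.erase (irrOne G), ε χ * charDegree χ.1 ∈ xs p m e n := fun χ a => by
    obtain ⟨a1, a2, a3, a4⟩ := dX hG H (Finset.mem_of_mem_erase a) (Finset.ne_of_mem_erase a)
    rw [h1] at a2
    have := mc χ (H.memX (Finset.mem_of_mem_erase a)) (Finset.ne_of_mem_erase a) a1 a2 a3
    rw [xs, List.mem_append]
    rcases a4 with ⟨a4, a5⟩ | ⟨a4, a5⟩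
    · exact Or.inl (List.mem_map.2 ⟨_, List.mem_filter.2 ⟨this, by simpa using a5⟩, by simp [a4]⟩)
    · exact Or.inr (List.mem_map.2 ⟨_, List.mem_filter.2 ⟨this, by simpa using a5⟩, by simp [a4]⟩)
  have hs := mem_sums _ _ _ hx
  rw [show (X.erase (irrOne G)).card = e - 1 by omega] at hs
  have hY : (p - 1) / e = (exc y).card := by
    rw [show p - 1 = e * (exc y).card by omega, Nat.mul_div_cancel_left _ (by omega)]
  obtain ⟨k1, k2⟩ := hc n (Nat.mem_divisors.2 ⟨⟨e * c, by rw [← h3]; ring⟩, m0⟩) h4 h7 e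
    (Nat.mem_divisors.2 ⟨h5, by omega⟩) h6 ⟨c, h3.symm⟩ _
    (mc ψ (H.memY hψ) (H.ne_oneY hψ) b1 b2 b3) (by rw [hY, ← h]; omega)
  rcases b4 with ⟨b4, b5⟩ | ⟨b4, b5⟩ <;> rw [b4] at r
  · exact k1 b5 (by convert hs using 1; omega)
  · exact k2 b5 (by convert hs using 1; omega)

set_option maxRecDepth 100000 in
theorem c19 : ∀ d ∈ Nat.divisors 9240, d ≠ 9240 → d ≠ 420 → d ≠ 3080 → Chk 19 d := by
  decide +kernel

set_option maxRecDepth 100000 in
theorem c5 : Chk 5 1596 := by decide +kernel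

set_option maxRecDepth 100000 in
theorem c11 : Chk 11 5320 := by decide +kernel

theorem no_simple {G : Type*} [Group G] [Finite G] [IsSimpleGroup G] {d : ℕ}
    (h : Nat.card G = 19 * d) (hd : d ∣ 9240) (h1 : d ≠ 1) : d = 9240 := by
  by_contra h2
  haveI : Fact (Nat.Prime 19) := ⟨by norm_num⟩
  haveI : Fact (Nat.Prime 5) := ⟨by norm_num⟩
  haveI : Fact (Nat.Prime 11) := ⟨by norm_num⟩
  by_cases h3 : d = 420
  · exact kill (G := G) (p := 5) (m := 1596) (by rw [h, h3]) (by norm_num) (by norm_num) c5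
  by_cases h4 : d = 3080
  · exact kill (G := G) (p := 11) (m := 5320) (by rw [h, h4]) (by norm_num) (by norm_num) c11
  exact kill h (fun e => absurd (e.trans hd) (by norm_num))
    (Nat.not_prime_mul (by norm_num) h1) (c19 d (Nat.mem_divisors.2 ⟨hd, by norm_num⟩) h2 h3 h4)

set_option maxRecDepth 100000 in
theorem small : ∀ m ∈ Nat.divisors 9240, 19 ≤ m →
    ∃ a ∈ [2, 3, 5, 7, 11], ∃ b ∈ [2, 3, 5, 7, 11], a ≠ b ∧ a ∣ m ∧ b ∣ m := by
  decide +kernel

theorem pow_lt {q k : ℕ} (hq : q.Prime) (h : q ^ k ∣ 9240) : q ^ k < 19 := by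
  by_contra! h1
  obtain ⟨a, ha, b, hb, ab, h2, h3⟩ := small _ (Nat.mem_divisors.2 ⟨h, by norm_num⟩) h1
  have pr : ∀ a ∈ [2, 3, 5, 7, 11], Nat.Prime a := by
    intro a ha
    simp only [List.mem_cons, List.not_mem_nil, or_false] at ha
    rcases ha with rfl | rfl | rfl | rfl | rfl <;> norm_num
  exact ab (((Nat.prime_dvd_prime_iff_eq (pr a ha) hq).1 ((pr a ha).dvd_of_dvd_pow h2)).trans
    ((Nat.prime_dvd_prime_iff_eq (pr b hb) hq).1 ((pr b hb).dvd_of_dvd_pow h3)).symm)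

end CfsgKil
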