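import Mathlib
import Cfsg.Agent.H9.Kil

/-! Refinements of the degree equation test; the order 4320. -/

set_option autoImplicit false

namespace CfsgKil
open Cfsg CfsgSm CfsgH4 CfsgL0
open CfsgH3 hiding cj cj_cj

local notation "C[" Q "]" => Subgroup.centralizer (SetLike.coe (Q : Subgroup _))
local notation "N[" Q "]" => Subgroup.normalizer (SetLike.coe (Q : Subgroup _))
local notation "Z[" u "]" => Subgroup.zpowers u

def csQ (Q : ℕ → Bool) (p m e n : ℕ) : List ℕ := (cs p m e n).filter Q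

def xsQ (Q : ℕ → Bool) (p m e n : ℕ) : List ℤ :=
  ((csQ Q p m e n).filter fun d => d % p = 1).map (fun d : ℕ => (d : ℤ)) ++
    ((csQ Q p m e n).filter fun d => (d + 1) % p = 0).map fun d : ℕ => -(d : ℤ)

def ChkQ (Q : ℕ → Bool) (e0 p m : ℕ) : Prop :=
  ∀ n ∈ m.divisors, n % p = 1 → 1 < n → ∀ e ∈ (p - 1).divisors, 2 ≤ e → e * n ∣ m →
    ¬ (e = e0 ∧ e * n = m) → ∀ f ∈ csQ Q p m e n, (p - 1) / e * f ^ 2 ≤ p * m →
      ((f + e) % p = 0 → -((f : ℤ) + 1) ∉ sums (xsQ Q p m e n) (e - 1)) ∧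
        (f % p = e → (f : ℤ) - 1 ∉ sums (xsQ Q p m e n) (e - 1))

instance (Q : ℕ → Bool) (e0 p m : ℕ) : Decidable (ChkQ Q e0 p m) := by unfold ChkQ; infer_instance

variable {G : Type*} [Group G] [Finite G] [IsSimpleGroup G]

theorem core (hG : ¬ ∀ a b : G, a * b = b * a) {p m e0 : ℕ} [hp : Fact p.Prime] {Q : ℕ → Bool}
    (h : Nat.card G = p * m) (hm : ¬ p ∣ m)
    (hQ : ∀ χ : IrrCharacter G, χ ≠ irrOne G → Q (charDegree χ.1)) (hc : ChkQ Q e0 p m) :
    ∃ (M : Ideal AlgInt) (_ : PMod p M) (u : G) (X : Finset (IrrCharacter G))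
      (y : (Z[u] →* ℂˣ) → IrrCharacter G) (ε : IrrCharacter G → ℤ) (δ : ℤ),
      PB M p u e0 X y ε δ ∧ e0 * (N[Z[u]]).index = m ∧ C[Z[u]] = Z[u] ∧ 2 ≤ e0 := by
  classical
  obtain ⟨M, _, u, e, X, y, ε, δ, n, c, H, h1, h2, h3, h4, h5, h6, h7⟩ := setup (p := p) hG h hm
  have m0 : m ≠ 0 := fun e => hm (e ▸ dvd_zero p)
  by_cases hR : e = e0 ∧ e * n = m
  · obtain ⟨rfl, hR⟩ := hR
    have : c = 1 := Nat.eq_of_mul_eq_mul_left (Nat.pos_of_ne_zero m0)
      (by rw [mul_one]; rwa [hR] at h3)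
    exact ⟨M, ‹_›, u, X, y, ε, δ, H, h1 ▸ hR, eqC H (by rw [h2, this, mul_one]), h6⟩
  exfalso
  have p1 := hp.out.one_lt
  obtain ⟨ψ, hψ⟩ := Finset.card_pos.1 H.pos'
  obtain ⟨b1, b2, b3, b4⟩ := dY hG H hψ
  have r := rel' H hψ
  have ce := card_erase H
  have sq := sq_le H hψ
  have cY := H.cardY
  have bg : ∀ χ ∈ principalBlock M G, χ ≠ irrOne G → e * n = m ∨ 2 * p ≤ charDegree χ.1 := by
    intro χ a b
    by_cases c1 : c = 1
    · left; rw [← h3, c1, mul_one]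
    · right
      refine big hG H ?_ a b
      rw [h2]
      intro e
      exact c1 (Nat.eq_of_mul_eq_mul_left hp.out.pos (e.trans (mul_one p).symm))
  have mc : ∀ χ ∈ principalBlock M G, χ ≠ irrOne G → 1 < charDegree χ.1 →
      charDegree χ.1 ∣ e * n → charDegree χ.1 ^ 2 < Nat.card G →
      charDegree χ.1 ∈ csQ Q p m e n := fun χ a b c1 c2 c3 => List.mem_filter.2
    ⟨List.mem_filter.2 ⟨mem_cands c1 c2 (h ▸ c3), by simpa using bg χ a b⟩, hQ χ b⟩
  rw [h1] at b2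
  have hx : ∀ χ ∈ X.erase (irrOne G), ε χ * charDegree χ.1 ∈ xsQ Q p m e n := fun χ a => by
    obtain ⟨a1, a2, a3, a4⟩ := dX hG H (Finset.mem_of_mem_erase a) (Finset.ne_of_mem_erase a)
    rw [h1] at a2
    have := mc χ (H.memX (Finset.mem_of_mem_erase a)) (Finset.ne_of_mem_erase a) a1 a2 a3
    rw [xsQ, List.mem_append]
    rcases a4 with ⟨a4, a5⟩ | ⟨a4, a5⟩
    · exact Or.inl (List.mem_map.2 ⟨_, List.mem_filter.2 ⟨this, by simpa using a5⟩, by simp [a4]⟩)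
    · exact Or.inr (List.mem_map.2 ⟨_, List.mem_filter.2 ⟨this, by simpa using a5⟩, by simp [a4]⟩)
  have hs := mem_sums _ _ _ hx
  rw [show (X.erase (irrOne G)).card = e - 1 by omega] at hs
  have hY : (p - 1) / e = (exc y).card := by
    rw [show p - 1 = e * (exc y).card by omega, Nat.mul_div_cancel_left _ (by omega)]
  obtain ⟨k1, k2⟩ := hc n (Nat.mem_divisors.2 ⟨⟨e * c, by rw [← h3]; ring⟩, m0⟩) h4 h7 e
    (Nat.mem_divisors.2 ⟨h5, by omega⟩) h6 ⟨c, h3.symm⟩ hR _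
    (mc ψ (H.memY hψ) (H.ne_oneY hψ) b1 b2 b3) (by rw [hY, ← h]; omega)
  rcases b4 with ⟨b4, b5⟩ | ⟨b4, b5⟩ <;> rw [b4] at r
  · exact k1 b5 (by convert hs using 1; omega)
  · exact k2 b5 (by convert hs using 1; omega)

def cg (p e d : ℕ) : Bool :=
  d % p = 0 ∨ d % p = 1 ∨ (d + 1) % p = 0 ∨ (d + e) % p = 0 ∨ d % p = e

theorem cross (hG : ¬ ∀ a b : G, a * b = b * a) {p m e q k : ℕ} (hp : p.Prime) (hq : q.Prime)
    (h : Nat.card G = p * m) (hm : ¬ p ∣ m) (h' : Nat.card G = q * k) (hk : ¬ q ∣ k)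
    (c1 : ChkQ (fun _ => true) e p m) (c2 : ChkQ (cg p e) 0 q k) : False := by
  haveI := Fact.mk hp
  haveI := Fact.mk hq
  obtain ⟨M, _, u, X, y, ε, δ, H, -, hC, -⟩ := core hG h hm (fun _ _ => rfl) c1
  obtain ⟨-, -, -, -, -, -, -, -, -, -, h2⟩ := core hG h' hk (Q := cg p e) (fun χ h1 => by
    rw [cg, decide_eq_true_iff]
    by_cases d : p ∣ charDegree χ.1
    · exact Or.inl (Nat.mod_eq_zero_of_dvd d)
    rcases mem_of_not_dvd H hC d with a | a
    · have := (dX hG H a h1).2.2.2; omega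
    · have := (dY hG H a).2.2.2; omega) c2
  omega

set_option maxRecDepth 100000 in
theorem ne4620 (hG : ¬ ∀ a b : G, a * b = b * a) : Nat.card G ≠ 4620 := fun h =>
  cross hG (p := 11) (m := 420) (e := 2) (q := 7) (k := 660) (by norm_num) (by norm_num) h
    (by norm_num) h (by norm_num) (by decide +kernel) (by decide +kernel)

set_option maxRecDepth 100000 in
theorem ne5460 (hG : ¬ ∀ a b : G, a * b = b * a) : Nat.card G ≠ 5460 := fun h =>
  cross hG (p := 13) (m := 420) (e := 4) (q := 7) (k := 780) (by norm_num) (by norm_num) h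
    (by norm_num) h (by norm_num) (by decide +kernel) (by decide +kernel)

theorem no_unique4 (hG : ¬ ∀ a b : G, a * b = b * a) (h : 3 ^ 3 ∣ Nat.card G)
    {χ : IrrCharacter G} (h4 : charDegree χ.1 = 4)
    (hu : ∀ θ : IrrCharacter G, charDegree θ.1 = 4 → θ = χ) : False := by
  classical
  haveI : Fact (Nat.Prime 3) := ⟨Nat.prime_three⟩
  have c1 : χ.1 1 = 4 := by rw [← coe_deg, h4]; norm_num
  have n1 : χ ≠ irrOne G := fun e => by rw [e, deg_irrOne] at h4; omega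
  have hi : ∀ g, ∃ n : ℤ, χ.1 g = n := fun g =>
    exists_int_of_fixed (χ.2.isGen.isIntegral g) fun σ => by
      have := hu ⟨_, χ.2.map (σ : ℂ →+* ℂ)⟩ (by
        have := coe_deg ⟨_, χ.2.map (σ : ℂ →+* ℂ)⟩
        simp only [c1, map_ofNat] at this
        exact_mod_cast this)
      exact congrArg (fun θ : IrrCharacter G => θ.1 g) this
  obtain ⟨P, hP⟩ := Sylow.exists_subgroup_card_pow_prime 3 h
  haveI := Fintype.ofFinite P
  have ch := χ.2.isCharacter.comp P.subtype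
  obtain ⟨k1, h1⟩ := ch.exists_nat_classInner ch
  obtain ⟨k2, h2⟩ := ch.exists_nat_classInner (irrOne P).2.isCharacter
  simp only [classInner, irrOne, hP, map_one, mul_one, Subgroup.coe_subtype] at h1 h2
  have key : ∀ g : P, χ.1 g * (starRingEnd ℂ) (χ.1 g) + χ.1 g - 2 = if g = 1 then 18 else 0 := by
    intro g
    split_ifs with e
    · rw [e, OneMemClass.coe_one, c1, map_ofNat]; norm_num
    obtain ⟨n, hn⟩ := hi g
    have a1 := abs_lt hG n1 (g := g.1) (by simpa using e) hn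
    have a2 := dvd_sub_of_pelt (p := 3) χ.2.isCharacter (y := g.1)
      (CfsgH2.pgroup_mem_order (IsPGroup.of_card hP) g.2) hn (d := 4) (by rw [c1]; norm_num)
    rw [h4, _root_.abs_lt] at a1
    have : n = 1 ∨ n = -2 := by omega
    rw [hn, map_intCast]
    rcases this with rfl | rfl <;> norm_num
  have s := Finset.sum_congr (s₁ := Finset.univ) rfl fun g _ => key g
  rw [Finset.sum_ite_eq', if_pos (Finset.mem_univ _), Finset.sum_sub_distrib,
    Finset.sum_add_distrib, Finset.sum_const, Finset.card_univ, ← Nat.card_eq_fintype_card, hP] at s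
  have : ((27 * k1 + 27 * k2 : ℕ) : ℂ) = (72 : ℕ) := by
    push_cast at h1 h2 ⊢
    rw [nsmul_eq_mul] at s
    push_cast at s
    linear_combination s - 27 * h1 - 27 * h2
  have := Nat.cast_injective this
  omega

def LL : List ℤ := [6, 16, 36, -4, -9, -24, -54]

def E2 (x y z w : ℤ) : Prop :=
  ∃ a ∈ [0, x], ∃ b ∈ [0, y], ∃ c ∈ [0, z], ∃ d ∈ [0, w], (∀ t ∈ [a, b, c, d], t ≠ 16 ∧ t ≠ -4) ∧
      32 ∣ d + 1 + (a + (b + c))
instance (x y z w : ℤ) : Decidable (E2 x y z w) := by unfold E2; infer_instance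

def E3 (x y z w : ℤ) : Prop :=
  ∃ a ∈ [0, x], ∃ b ∈ [0, y], ∃ c ∈ [0, z], ∃ d ∈ [0, w], (∀ t ∈ [a, b, c, d], t ≠ -9) ∧
      27 ∣ d + 1 + (a + (b + c))
instance (x y z w : ℤ) : Decidable (E3 x y z w) := by unfold E3; infer_instance

set_option maxRecDepth 100000 in
theorem num4320 : ∀ x ∈ LL, ∀ y ∈ LL, ∀ z ∈ LL, ∀ w ∈ LL, w + 1 + (x + (y + z)) = 0 →
    w ^ 2 + 1 + (x ^ 2 + (y ^ 2 + z ^ 2)) ≤ 4320 → E2 x y z w → E3 x y z w →
    x = -4 ∧ y ≠ -4 ∧ z ≠ -4 ∧ w ≠ -4 ∨ x ≠ -4 ∧ y = -4 ∧ z ≠ -4 ∧ w ≠ -4 ∨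
      x ≠ -4 ∧ y ≠ -4 ∧ z = -4 ∧ w ≠ -4 ∨ x ≠ -4 ∧ y ≠ -4 ∧ z ≠ -4 ∧ w = -4 := by
  decide +kernel

theorem ne4320 (hG : ¬ ∀ a b : G, a * b = b * a) : Nat.card G ≠ 4320 := fun h => by
  classical
  haveI : Fact (Nat.Prime 5) := ⟨by norm_num⟩
  haveI : Fact (Nat.Prime 3) := ⟨Nat.prime_three⟩
  obtain ⟨M, _, u, X, y, ε, δ, H, h1, hC, -⟩ := core hG (p := 5) (m := 864) (e0 := 4)
    (Q := fun _ => true) h
    (by norm_num) (fun _ _ => rfl) (by set_option maxRecDepth 100000 in decide +kernel)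
  obtain ⟨M2, _⟩ := exists_pmod 2
  obtain ⟨M3, _⟩ := exists_pmod 3
  have k : ∀ (χ : IrrCharacter G) (s : ℤ), χ ≠ irrOne G → charDegree χ.1 ∣ 864 →
      (s = 1 ∧ charDegree χ.1 % 5 = 1 ∨ s = -1 ∧ charDegree χ.1 % 5 = 4) →
      s * charDegree χ.1 ∈ LL ∧ (s * charDegree χ.1) ^ 2 = (charDegree χ.1 ^ 2 : ℕ) ∧
      (charDegree χ.1 = 4 ↔ s * charDegree χ.1 = -4) ∧
      (∀ t, t = (if χ ∈ principalBlock M2 G then s * charDegree χ.1 else 0) →
        t ∈ [0, s * charDegree χ.1] ∧ t ≠ 16 ∧ t ≠ -4) ∧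
      (∀ t, t = (if χ ∈ principalBlock M3 G then s * charDegree χ.1 else 0) →
        t ∈ [0, s * charDegree χ.1] ∧ t ≠ -9) := fun χ s n dd a4 => by
    have a1 := one_lt_deg hG n
    have a3 := deg_sq_lt n
    have l : charDegree χ.1 < 66 := by by_contra! d; have := Nat.pow_le_pow_left d 2; omega
    have b2 : ∀ j, χ ∈ principalBlock M2 G → charDegree χ.1 ≠ 2 ^ j := fun j a b =>
      n (Subtype.ext (eq_one_of_principal_pow (p := 2) (k := j) hG a b))
    have b3 : ∀ j, χ ∈ principalBlock M3 G → charDegree χ.1 ≠ 3 ^ j := fun j a b =>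
      n (Subtype.ext (eq_one_of_principal_pow (p := 3) (k := j) hG a b))
    refine ⟨?_, ?_, ?_, ?_, ?_⟩
    · generalize charDegree χ.1 = d at *
      rcases a4 with ⟨rfl, a4⟩ | ⟨rfl, a4⟩ <;> interval_cases d <;> simp_all [LL]
    · rcases a4 with ⟨rfl, a4⟩ | ⟨rfl, a4⟩ <;> simp
    · rcases a4 with ⟨rfl, a4⟩ | ⟨rfl, a4⟩ <;> omega
    · rintro t rfl
      split_ifs with e
      · have := b2 4 e
        have := b2 2 e
        refine ⟨by simp, ?_⟩
        rcases a4 with ⟨rfl, a4⟩ | ⟨rfl, a4⟩ <;> omega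
      · simp
    · rintro t rfl
      split_ifs with e
      · have := b3 2 e
        refine ⟨by simp, ?_⟩
        rcases a4 with ⟨rfl, a4⟩ | ⟨rfl, a4⟩ <;> omega
      · simp
  have kX := fun χ (hχ : χ ∈ X.erase (irrOne G)) =>
    let ⟨_, a2, _, a4⟩ := dX hG H (Finset.mem_of_mem_erase hχ) (Finset.ne_of_mem_erase hχ)
    k χ (ε χ) (Finset.ne_of_mem_erase hχ) (by rwa [h1] at a2) (by omega)
  obtain ⟨ψ, e'⟩ := Finset.card_eq_one.1 (show (exc y).card = 1 by have := H.cardY; omega)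
  have hψ : ψ ∈ exc y := e' ▸ Finset.mem_singleton_self ψ
  obtain ⟨-, a2, -, a4⟩ := dY hG H hψ
  obtain ⟨m4, s4, i4, u4, v4⟩ := k ψ δ (H.ne_oneY hψ) (by rwa [h1] at a2) (by omega)
  obtain ⟨a, b, d, ab, ad, bd, e⟩ := Finset.card_eq_three.1
    (show (X.erase (irrOne G)).card = 3 by have := card_erase H; omega)
  have sm : ∀ {A : Type} [AddCommMonoid A] (F : IrrCharacter G → A),
      ∑ x ∈ X.erase (irrOne G), F x = F a + (F b + F d) := fun F => by
    rw [e, Finset.sum_insert (by simp [ab, ad]), Finset.sum_pair bd]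
  obtain ⟨m1, s1, i1, u1, v1⟩ := kX a (by simp [e])
  obtain ⟨m2, s2, i2, u2, v2⟩ := kX b (by simp [e])
  obtain ⟨m3, s3, i3, u3, v3⟩ := kX d (by simp [e])
  have r := rel' H hψ
  have q := sq_le H hψ
  have t2 := bt3' (q := 2) (M' := M2) H (by rw [hC, H.card]; norm_num) hψ
  have t3 := bt3' (q := 3) (M' := M3) H (by rw [hC, H.card]; norm_num) hψ
  rw [fact_eq (k := 5) (m := 135) Nat.prime_two h (by norm_num)] at t2
  rw [fact_eq (k := 3) (m := 160) Nat.prime_three h (by norm_num)] at t3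
  rw [sm] at r q t2 t3
  have cnt := num4320 _ m1 _ m2 _ m3 _ m4 r (by
      rw [s1, s2, s3, s4]
      rw [e', Finset.card_singleton, one_mul, h] at q
      exact_mod_cast q)
    ⟨_, (u1 _ rfl).1, _, (u2 _ rfl).1, _, (u3 _ rfl).1, _, (u4 _ rfl).1, by
      simp only [List.forall_mem_cons]
      exact ⟨(u1 _ rfl).2, (u2 _ rfl).2, (u3 _ rfl).2, (u4 _ rfl).2, by simp⟩, by convert t2; norm_num⟩
    ⟨_, (v1 _ rfl).1, _, (v2 _ rfl).1, _, (v3 _ rfl).1, _, (v4 _ rfl).1, by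
      simp only [List.forall_mem_cons]
      exact ⟨(v1 _ rfl).2, (v2 _ rfl).2, (v3 _ rfl).2, (v4 _ rfl).2, by simp⟩, by convert t3; norm_num⟩
  have all : ∀ θ : IrrCharacter G, charDegree θ.1 = 4 → θ = a ∨ θ = b ∨ θ = d ∨ θ = ψ := by
    intro θ h4
    rcases mem_of_not_dvd H hC (χ := θ) (by rw [h4]; norm_num) with c | c
    · have : θ ∈ X.erase (irrOne G) :=
        Finset.mem_erase.2 ⟨fun f => by rw [f, deg_irrOne] at h4; omega, c⟩
      rw [e] at this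
      simp only [Finset.mem_insert, Finset.mem_singleton] at this
      exact this.imp_right fun f => f.imp_right Or.inl
    · rw [e', Finset.mem_singleton] at c
      exact Or.inr (Or.inr (Or.inr c))
  have fin := fun χ => no_unique4 hG (by rw [h]; norm_num) (χ := χ)
  simp only [ne_eq, ← i1, ← i2, ← i3, ← i4] at cnt
  rcases cnt with ⟨ha, hb, hd, hs⟩ | ⟨ha, hb, hd, hs⟩ | ⟨ha, hb, hd, hs⟩ | ⟨ha, hb, hd, hs⟩
  · exact fin a ha fun θ t => by
      rcases all θ t with f | f | f | f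
      exacts [f, (hb (f ▸ t)).elim, (hd (f ▸ t)).elim, (hs (f ▸ t)).elim]
  · exact fin b hb fun θ t => by
      rcases all θ t with f | f | f | f
      exacts [(ha (f ▸ t)).elim, f, (hd (f ▸ t)).elim, (hs (f ▸ t)).elim]
  · exact fin d hd fun θ t => by
      rcases all θ t with f | f | f | f
      exacts [(ha (f ▸ t)).elim, (hb (f ▸ t)).elim, f, (hs (f ▸ t)).elim]
  · exact fin ψ hs fun θ t => by
      rcases all θ t with f | f | f | f
      exacts [(ha (f ▸ t)).elim, (hb (f ▸ t)).elim, (hd (f ▸ t)).elim, f]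

end CfsgKil
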