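import Mathlib
import Cfsg.Agent.H9.Kil2
import Cfsg.Agent.H4.MH3
import Cfsg.Agent.H4.G2
import Cfsg.Agent.H1.Sm3
import Cfsg.Agent.H1.Misc1
import Cfsg.Agent.H2.PG1
import Cfsg.Agent.L0.Count
import Cfsg.Agent.S0985

/-! Sylow intersection tests for simple group orders; the order 5400. -/

set_option autoImplicit false

namespace CfsgKil
open Subgroup Cfsg CfsgH2 MulAction

variable {G : Type*} [Group G] [Finite G] {p : ℕ} [hp : Fact p.Prime]

theorem nsyl {P L : Subgroup G} (h : Syl p P L) :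
    N[P].relIndex L % p = 1 ∧ N[P].relIndex L ∣ P.relIndex L :=
  ⟨by
    rw [← CfsgH1.Syl.card_sylow_sub h]
    exact Eq.trans (card_sylow_modEq_one p L) (Nat.mod_eq_of_lt hp.out.one_lt),
    relIndex_dvd_of_le_left L le_normalizer⟩

variable [IsSimpleGroup G]

theorem nsyl_top (hG : ¬ ∀ a b : G, a * b = b * a) {a m : ℕ} (h : Nat.card G = p ^ (a + 1) * m) :
    Nat.card (Sylow p G) ∣ m ∧ Nat.card (Sylow p G) % p = 1 ∧ 1 < Nat.card (Sylow p G) ∧
      Nat.card G ∣ (Nat.card (Sylow p G)).factorial := by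
  obtain ⟨P⟩ : Nonempty (Sylow p G) := inferInstance
  have n1 : Nat.card (Sylow p G) ≠ 1 := fun e =>
    CfsgSm.not_normal hG ⟨p ^ a * m, by rw [h]; ring⟩ P (by
      rw [P.card_eq_index_normalizer, index_eq_one] at e; exact normalizer_eq_top_iff.1 e)
  exact ⟨CfsgH8.card_sylow_dvd_of_card h,
    Eq.trans (card_sylow_modEq_one p G) (Nat.mod_eq_of_lt hp.out.one_lt),
    lt_of_le_of_ne Nat.card_pos n1.symm, CfsgH8.card_le_factorial_sylow n1⟩

theorem inter {a m : ℕ} (h : Nat.card G = p ^ (a + 2) * m) (hm : ¬ p ∣ m) {P R : Sylow p G}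
    (ne : P ≠ R) (hi : (R : Subgroup G).relIndex P ≤ p) :
    (R : Subgroup G).relIndex P = p ∧ (P : Subgroup G) ≤ N[(P : Subgroup G) ⊓ R] ∧
    (R : Subgroup G) ≤ N[(P : Subgroup G) ⊓ R] ∧ ∃ j k, j ∣ m ∧ j ≠ m ∧
      Nat.card G ∣ (m / j).factorial ∧ k ∣ j ∧ k % p = 1 ∧ 1 < k ∧
      o[N[(P : Subgroup G) ⊓ R]] = p ^ (a + 2) * j ∧
      N[(P : Subgroup G)].relIndex N[(P : Subgroup G) ⊓ R] = k := by
  have sP := syl_top P
  have sR := syl_top R
  have cP : o[(P : Subgroup G)] = p ^ (a + 2) := by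
    rw [P.card_eq_multiplicity, CfsgSm.fact_eq hp.out h hm]
  have ne' : (P : Subgroup G) ≠ R := fun e => ne (Sylow.ext e)
  have i1 : (R : Subgroup G).relIndex P = p := by
    obtain ⟨k, hk⟩ := sP.pg.index ((R : Subgroup G).subgroupOf P)
    rw [relIndex] at hi ⊢
    rcases k with _ | k
    · exact (ne' (sP.eq_of_le sR.pg (relIndex_eq_one.1 hk) le_top).symm).elim
    · rw [hk] at hi ⊢
      exact le_antisymm hi (Nat.le_self_pow (by omega) p)
  have c1 := card_inf_mul_relIndex (R : Subgroup G) P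
  have c2 := card_inf_mul_relIndex (P : Subgroup G) R
  have i2 : (P : Subgroup G).relIndex R = p := by
    rw [← sP.card_eq_card sR, ← c1, inf_comm, i1] at c2
    exact Nat.eq_of_mul_eq_mul_left (card_pos' _) c2
  set D := (P : Subgroup G) ⊓ R with hD
  have n1 : (P : Subgroup G) ≤ N[D] := le_norm_of_relIndex_prime sP.pg inf_le_left (by
    rw [hD, inf_relIndex_left, i1]; exact hp.out)
  have n2 : (R : Subgroup G) ≤ N[D] := le_norm_of_relIndex_prime sR.pg inf_le_right (by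
    rw [hD, inf_relIndex_right, i2]; exact hp.out)
  have nt : N[D] ≠ ⊤ := fun e => by
    rcases (normalizer_eq_top_iff.1 e).eq_bot_or_eq_top with f | f
    · rw [inf_comm, ← hD, f, card_bot, cP, i1, one_mul, pow_succ] at c1
      have := Nat.eq_of_mul_eq_mul_right hp.out.pos ((one_mul p).trans c1)
      exact absurd this (Nat.one_lt_pow (by omega) hp.out.one_lt).ne
    · exact ne' ((top_le_iff.1 (f.ge.trans inf_le_left)).trans
        (top_le_iff.1 (f.ge.trans inf_le_right)).symm)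
  have s1 := sP.mono n1 le_top
  have c3 := card_mul_relIndex n1
  have c4 := N[D].card_mul_index
  rw [← c3, h, cP, mul_assoc] at c4
  have c5 := Nat.eq_of_mul_eq_mul_left (pow_pos hp.out.pos _) c4
  have j0 := relIndex_pos (P : Subgroup G) N[D]
  obtain ⟨k1, k2⟩ := nsyl s1
  refine ⟨i1, n1, n2, _, _, ⟨_, c5.symm⟩, fun e => nt (index_eq_one.1 ?_), ?_, k2, k1,
    lt_of_le_of_ne (relIndex_pos _ _) fun e => ne' ?_, by rw [← c3, cP], rfl⟩
  · rw [← e] at c5
    exact Nat.eq_of_mul_eq_mul_left j0 (c5.trans (mul_one _).symm)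
  · rw [← c5, Nat.mul_div_cancel_left _ j0]
    exact CfsgL0.card_dvd_factorial_of_simple _ nt
  · exact (s1.eq_of_norm (sR.mono n2 le_top) (relIndex_eq_one.1 e.symm)).symm

def P5 (n p m : ℕ) : Prop := ∀ k ∈ m.divisors, k % p = 1 → 1 < k → n ∣ k.factorial →
  k % (p * p) ≠ 1 ∧ ∀ j ∈ m.divisors, j ≠ m → n ∣ (m / j).factorial →
    ∀ l ∈ j.divisors, l % p = 1 → l ≤ 1

instance (n p m : ℕ) : Decidable (P5 n p m) := by unfold P5; infer_instance

theorem exists_pair (h : Nat.card (Sylow p G) % (p * p) ≠ 1) :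
    ∃ P R : Sylow p G, P ≠ R ∧ (R : Subgroup G).relIndex P ≤ p := by
  obtain ⟨P, R, h1, h2⟩ := Cfsg.Agent.S0985.result (G := G) p 2 fun e => h (by
    rw [← sq]
    exact Eq.trans e (Nat.mod_eq_of_lt (Nat.one_lt_pow (by omega) hp.out.one_lt)))
  exact ⟨P, R, h1, h2.trans_eq (pow_one p)⟩

theorem kill5 (hG : ¬ ∀ a b : G, a * b = b * a) {a m : ℕ} (h : Nat.card G = p ^ (a + 2) * m)
    (hm : ¬ p ∣ m) (hc : P5 (Nat.card G) p m) : False := by
  have m0 : m ≠ 0 := fun e => hm (e ▸ dvd_zero p)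
  obtain ⟨h1, h2, h3, h4⟩ := nsyl_top hG h
  obtain ⟨k1, k2⟩ := hc _ (Nat.mem_divisors.2 ⟨h1, m0⟩) h2 h3 h4
  obtain ⟨P, R, ne, hi⟩ := exists_pair k1
  obtain ⟨-, -, -, j, k, j1, j2, j3, j4, j5, j6, -⟩ := inter h hm ne hi
  exact absurd (k2 j (Nat.mem_divisors.2 ⟨j1, m0⟩) j2 j3 k
    (Nat.mem_divisors.2 ⟨j4, ne_zero_of_dvd_ne_zero m0 j1⟩) j5) (by omega)

set_option synthInstance.maxSize 1000 in
theorem n5400 : (∀ k ∈ Nat.divisors 216, k % 5 = 1 → 1 < k → 5400 ∣ k.factorial →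
    k = 36 ∨ k = 216) ∧ ∀ j ∈ Nat.divisors 216, j ≠ 216 → 5400 ∣ (216 / j).factorial →
      ∀ l ∈ j.divisors, l % 5 = 1 → 1 < l → l = 6 ∧ (j = 6 ∨ j = 12 ∨ j = 18) :=
  ⟨by decide +kernel, by decide +kernel⟩

theorem ne5400 (hG : ¬ ∀ a b : G, a * b = b * a) : Nat.card G ≠ 5400 := fun h => by
  haveI : Fact (Nat.Prime 5) := ⟨by norm_num⟩
  have h' : Nat.card G = 5 ^ (0 + 2) * 216 := h
  have cP : ∀ P : Sylow 5 G, o[(P : Subgroup G)] = 25 := fun P => by
    rw [P.card_eq_multiplicity, CfsgSm.fact_eq Fact.out h' (by norm_num)]; rfl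
  have cN : ∀ P : Sylow 5 G, o[N[(P : Subgroup G)]] * Nat.card (Sylow 5 G) = 5400 := fun P => by
    rw [P.card_eq_index_normalizer, ← h]; exact card_mul_index _
  obtain ⟨h1, h2, h3, h4⟩ := nsyl_top hG h'
  rw [h] at h4
  have n5 : Nat.card (Sylow 5 G) = 36 := by
    refine (n5400.1 _ (Nat.mem_divisors.2 ⟨h1, by norm_num⟩) h2 h3 h4).resolve_right fun e => ?_
    obtain ⟨P⟩ : Nonempty (Sylow 5 G) := inferInstance
    refine CfsgH1.Sm.not_npc hG (p := 5) (by rw [h]; norm_num)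
      ((syl_top P).npc_of_norm_le_cent ?_)
    have := cN P
    rw [e] at this
    rw [top_inf_eq, ← eq_of_le_of_card_ge le_normalizer (by rw [cP]; omega)]
    exact le_cent_self ⟨⟨IsPGroup.commutative_of_card_eq_prime_sq (p := 5) (cP P)⟩⟩
  have orb : ∀ P R : Sylow 5 G,
      (orbit (P : Subgroup G) R).ncard = (R : Subgroup G).relIndex P := fun P R =>
    Nat.eq_of_mul_eq_mul_right (card_pos' ((P : Subgroup G) ⊓ R)) (by
      rw [CfsgH4.ncard_orbit_mul, mul_comm, inf_comm, card_inf_mul_relIndex])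
  obtain ⟨P, R0, ne0, h25⟩ : ∃ P R : Sylow 5 G, R ≠ P ∧ (orbit (P : Subgroup G) R).ncard ≠ 5 := by
    by_contra! hc
    obtain ⟨P⟩ : Nonempty (Sylow 5 G) := inferInstance
    have := CfsgH4.card_eq_of_orbits h3.ne' hc P
    have := cP P
    omega
  have h25' : 25 ≤ (orbit (P : Subgroup G) R0).ncard := by
    by_contra! hc
    rw [orb] at h25 hc
    refine h25 (inter h' (by norm_num) ne0.symm ?_).1
    have d : (R0 : Subgroup G).relIndex P ∣ 5 ^ 2 :=
      (relIndex_dvd_card _ _).trans (cP P).dvd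
    obtain ⟨i, hi, e⟩ := (Nat.dvd_prime_pow (by norm_num)).1 d
    interval_cases i <;> omega
  obtain ⟨P1, R1, ne1, hi1⟩ := exists_pair (G := G) (p := 5) (by rw [n5]; norm_num)
  obtain ⟨g, rfl⟩ := exists_smul_eq G P1 P
  have ne : g • P1 ≠ g • R1 := fun e => ne1 (smul_left_cancel g e)
  have hi : ((g • R1 : Sylow 5 G) : Subgroup G).relIndex (g • P1 : Sylow 5 G) ≤ 5 := by
    rwa [← orb, CfsgH4.ncard_orbit_smul, orb]
  generalize g • P1 = P at *
  generalize g • R1 = R at *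
  obtain ⟨i1, n1, n2, j, k, j1, j2, j3, j4, j5, j6, j7, j8⟩ := inter h' (by norm_num) ne hi
  rw [h] at j3
  obtain ⟨rfl, hj⟩ := n5400.2 j (Nat.mem_divisors.2 ⟨j1, by norm_num⟩) j2 j3 k
    (Nat.mem_divisors.2 ⟨j4, ne_zero_of_dvd_ne_zero (by norm_num) j1⟩) j5 j6
  have sP := syl_top P
  have sR := syl_top R
  set D := (P : Subgroup G) ⊓ R with hD
  have j18 : j ≠ 18 := by
    rintro rfl
    obtain ⟨T, hT⟩ := exists_syl 2 N[D]
    have cT : o[T] = 2 := by
      rw [hT.card_eq, CfsgSm.fact_eq (k := 1) (m := 225) Nat.prime_two j7 (by norm_num)]; rfl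
    have np := CfsgH4.npc_of_cyclic hT (isCyclic_of_prime_card cT)
    have l1 := np.le n1 (by rw [cP]; norm_num)
    have l2 := np.le n2 (by rw [cP]; norm_num)
    set K := piCoreOf {2}ᶜ N[D]
    have k1 : ¬ 2 ∣ o[K] := (piN_compl_singleton Nat.prime_two).1 piN_piCoreOf
    have k2 : o[K] ∣ 450 := (card_dvd_of_le piCoreOf_le).trans j7.dvd
    have k3 := card_mul_relIndex l1
    rw [cP] at k3
    obtain ⟨b1, b2⟩ := nsyl (sP.mono l1 le_top)
    have k4 : (P : Subgroup G).relIndex K ∣ 18 :=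
      Nat.dvd_of_mul_dvd_mul_left (k := 25) (by norm_num) (k3 ▸ k2)
    have k5 : ¬ 2 ∣ N[(P : Subgroup G)].relIndex K := fun e =>
      k1 (k3 ▸ (e.trans b2).mul_left _)
    have k6 := b2.trans k4
    have k7 := Nat.le_of_dvd (by norm_num) k6
    have k8 : N[(P : Subgroup G)].relIndex K = 1 := by
      generalize N[(P : Subgroup G)].relIndex K = t at *
      interval_cases t <;> omega
    exact ne (Sylow.ext ((sP.mono l1 le_top).eq_of_norm (sR.mono l2 le_top)
      (relIndex_eq_one.1 k8)).symm)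
  have c1 := card_inf_mul_relIndex N[(P : Subgroup G)] N[D]
  have c2 := card_inf_mul_relIndex (R : Subgroup G) P
  rw [j8, j7] at c1
  rw [i1, cP, inf_comm, ← hD] at c2
  set T := N[(R : Subgroup G)] ⊓ N[(P : Subgroup G)] with hT
  have c3 := card_sup_mul_card_inf (H := T) (K := (P : Subgroup G)) inf_le_right
  have c4 : o[T ⊔ P] ≤ o[N[(P : Subgroup G)] ⊓ N[D]] := card_le_of_le (sup_le
    (le_inf inf_le_right (le_norm_inf inf_le_right inf_le_left)) (le_inf le_normalizer n1))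
  have c5 : o[T ⊓ P] ≤ o[D] := card_le_of_le (le_inf inf_le_right
    (sR.le_of_norm' (sP.pg.to_le inf_le_right) le_top (inf_le_left.trans inf_le_left)))
  have c6 : o[T] ≤ 10 := by
    have := Nat.mul_le_mul (show o[T ⊔ P] ≤ 50 by omega) (show o[T ⊓ P] ≤ 5 by omega)
    rw [cP] at c3
    omega
  have c7 := card_inf_mul_relIndex N[(R : Subgroup G)] N[(P : Subgroup G)]
  rw [← hT] at c7
  have c8 := cN P
  rw [n5] at c8
  have c9 : (orbit N[(P : Subgroup G)] R).ncard = N[(R : Subgroup G)].relIndex N[(P : Subgroup G)] := by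
    rw [← index_stabilizer, relIndex]
    congr 1
    exact Subgroup.ext fun y => Sylow.smul_eq_iff_mem_normalizer
  have c10 : 15 ≤ (orbit N[(P : Subgroup G)] R).ncard := by
    rw [c9]
    by_contra! hc
    have := Nat.mul_le_mul c6 (Nat.le_of_lt_succ hc)
    omega
  have dj : Disjoint (orbit N[(P : Subgroup G)] R) (orbit (P : Subgroup G) R0) := by
    rw [Set.disjoint_left]
    rintro _ ⟨y, rfl⟩ hQ
    have e1 := CfsgH4.ncard_orbit_smul y.1 P R
    rw [Sylow.smul_eq_iff_mem_normalizer.2 y.2, orb P R, i1] at e1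
    rw [← orbit_eq_iff.2 hQ] at h25'
    exact absurd (h25'.trans_eq e1) (by norm_num)
  have := Set.ncard_le_card (orbit N[(P : Subgroup G)] R ∪ orbit (P : Subgroup G) R0)
  rw [Set.ncard_union_eq dj] at this
  omega

end CfsgKil
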