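import Cfsg.Agent.H2.BG0
import Cfsg.Agent.H2.FF3
import Cfsg.Agent.H3.Burnside
import Cfsg.Agent.S0609

/-! Relative `p`-separability, Hall `{p, q}`-subgroups, Thompson factorization of `{p,q}`-groups. -/

namespace CfsgMV
open Subgroup Cfsg CfsgH2 Function CfsgL0
open scoped commutatorElement

universe u
variable {G : Type*} [Group G] [Finite G] {p q : ℕ} {C K L M T X : Subgroup G}

/-- `L / (L ⊓ C)` is `p`-separable. -/
def PS (p : ℕ) (L C : Subgroup G) : Prop :=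
  ∀ D ≤ L, piRes {p} D = D → piRes {p}ᶜ D = D → D ≤ C

theorem PS.qt (h : PS p L C) (hn : L ≤ N[K]) : PS p (qt K L) (qt K C) := by
  intro D' hD h1 h2
  obtain ⟨B, b1, b2, b3⟩ := exists_qt_eq_le hD
  obtain ⟨D, d1, d2, d3⟩ := exists_minimal_le (fun D => CfsgH2.qt K D = D') b3
  have n := d1.trans b2
  rw [← d2]
  refine qt_mono (h D (d1.trans b1) (d3 _ ?_ piRes_le) (d3 _ ?_ piRes_le))
  · rw [qt_piRes n, d2, h1]
  · rw [qt_piRes n, d2, h2]

omit [Finite G] in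
theorem PS.mono (h : PS p L C) (h1 : M ≤ L) (h2 : C ≤ K) : PS p M K :=
  fun D hD a b => (h D (hD.trans h1) a b).trans h2

theorem ps_of_sep (h : CfsgH1.Sep {{p}, {p}ᶜ} G) : PS p (⊤ : Subgroup G) ⊥ := by
  intro D hD h1 h2
  have : ∀ N : Subgroup G, CfsgH1.SepTo {{p}, {p}ᶜ} N → D ≤ N → D ≤ ⊥ := by
    intro N hN
    induction hN with
    | bot => exact id
    | step N M σ s1 s2 s3 s4 s5 ih =>
      intro hM
      haveI := s1.normal
      have n : ∀ X : Subgroup G, X ≤ N[N] := fun X => le_top.trans (top_le_norm_iff.2 inferInstance)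
      have h3 : piRes σ D ≤ N := by
        refine piRes_le_of (n D) (PiN.of_dvd s5 ?_)
        rw [← card_qt (n D), ← card_qt (n M)]
        exact card_dvd_of_le (qt_mono hM)
      rcases s4 with rfl | rfl
      · exact ih (h1 ▸ h3)
      · exact ih (h2 ▸ h3)
  exact this ⊤ h hD

theorem ps_of_quot [hp : Fact p.Prime] {H : Subgroup G}
    (h : IsPSolvable p (N[H] ⧸ C[H].subgroupOf N[H])) : PS p N[H] C[H] := by
  obtain ⟨e⟩ := exists_equiv_quot (K := C[H]) (norm_le_norm_cent H)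
  have h1 := ps_of_sep (((CfsgH1.isPSolvable_iff hp.out).1 h).of_mulEquiv e)
  intro D hD h2 h3
  have n := hD.trans (norm_le_norm_cent H)
  rw [← qt_eq_bot n]
  have key : ∀ π, piRes π D = D → piRes π ((qt C[H] D).subgroupOf (qt C[H] N[H])) =
      (qt C[H] D).subgroupOf (qt C[H] N[H]) := by
    intro π h4
    apply map_injective (subtype_injective _)
    rw [map_piRes, map_subgroupOf_eq_of_le (qt_mono hD), ← qt_piRes n, h4]
  have := h1 _ le_top (key _ h2) (key _ h3)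
  rwa [le_bot_iff, subgroupOf_eq_bot, disjoint_iff, inf_eq_left.2 (qt_mono hD)] at this

theorem hall_pq [hp : Fact p.Prime] [hq : Fact q.Prime] (n : ℕ) :
    ∀ (G : Type u) [Group G] [Finite G] (L : Subgroup G), o[L] = n → PS p L ⊥ →
      ∃ X, Hall {p, q} X L := by
  induction n using Nat.strong_induction_on with
  | _ n ih =>
  intro G _ _ L hn h
  subst hn
  have quo : ∀ N : Subgroup G, N ≤ L → L ≤ N[N] → N ≠ ⊥ → ∃ X, N ≤ X ∧ X ≤ L ∧
      Hall {p, q} (qt N X) (qt N L) := by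
    intro N h1 h2 h3
    obtain ⟨Y, hY⟩ := ih _ (card_qt_lt (by rwa [inf_eq_right.2 h1])) _ (qt N L) rfl
      ((h.qt h2).mono le_rfl qt_bot.le)
    exact ⟨qc N Y, le_qc, qc_le h2 h1 hY.le, by rwa [qt_qc]⟩
  have good : ∀ N : Subgroup G, N ≤ L → L ≤ N[N] → N ≠ ⊥ → PiN {p, q} o[N] →
      ∃ X, Hall {p, q} X L := by
    intro N h1 h2 h3 h4
    obtain ⟨X, x1, x2, x3⟩ := quo N h1 h2 h3
    exact ⟨X, Hall.of_qt x2 h2 x1 x3 h4⟩
  have sub : ∀ Y : Subgroup G, Y < L → PiN {p, q}ᶜ (Y.relIndex L) → ∃ X, Hall {p, q} X L := by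
    intro Y h1 h2
    obtain ⟨X, hX⟩ := ih _ (card_lt_of_lt h1) _ Y rfl (h.mono h1.le le_rfl)
    exact ⟨X, hX.trans h1.le h2⟩
  by_cases h0 : L = ⊥
  · exact ⟨L, Hall.self (h0 ▸ piN_bot)⟩
  obtain ⟨N, n1, ⟨n2, n3⟩, n4⟩ := exists_minimal_le (fun N => L ≤ N[N] ∧ N ≠ ⊥) ⟨le_normalizer, h0⟩
  have res : ∀ π, piRes π N ≠ N → PiN π o[N] := by
    intro π h1
    have : piRes π N = ⊥ := by
      by_contra h2
      exact h1 (n4 _ ⟨n2.trans norm_le_norm_piRes, h2⟩ piRes_le)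
    have h3 := piN_relIndex_piRes (π := π) (M := N)
    rwa [this, relIndex_bot_left] at h3
  by_cases h1 : piRes {p} N = N
  swap
  · exact good N n1 n2 n3 ((res _ h1).mono (by simp))
  have h2 : ¬ p ∣ o[N] := (piN_compl_singleton hp.out).1
    (res _ fun h2 => n3 (le_bot_iff.1 (h N n1 h1 h2)))
  obtain ⟨X, x1, x2, x3⟩ := quo N n1 n2 n3
  rcases x2.lt_or_eq with x4 | rfl
  · exact sub X x4 (by rw [← relIndex_qt n2 x1]; exact x3.pi')
  obtain ⟨Q, hQ⟩ := exists_syl q N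
  have e := hQ.frattini_sup x1 n2
  rcases (inf_le_left : X ⊓ N[Q] ≤ X).lt_or_eq with y | y
  · refine sub _ y fun r hr hd => ?_
    have e2 : (X ⊓ N[Q]).relIndex X ∣ Q.relIndex N := by
      have a1 := card_sup_mul_card_inf' (H := N) (K := X ⊓ N[Q]) (inf_le_left.trans n2)
      have a2 := card_mul_relIndex (inf_le_left : X ⊓ N[Q] ≤ X)
      have a3 := card_mul_relIndex (inf_le_left : N ⊓ (X ⊓ N[Q]) ≤ N)
      rw [e, ← a2, ← a3] at a1
      have a4 : (X ⊓ N[Q]).relIndex X = (N ⊓ (X ⊓ N[Q])).relIndex N := by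
        refine Nat.eq_of_mul_eq_mul_left (Nat.mul_pos (card_pos' (X ⊓ N[Q]))
          (card_pos' (N ⊓ (X ⊓ N[Q])))) ?_
        linarith
      rw [a4]
      exact relIndex_dvd_of_le_left N (le_inf hQ.le (le_inf (hQ.le.trans x1) le_normalizer))
    rintro (rfl | rfl)
    · exact h2 ((hd.trans e2).trans (relIndex_dvd_card _ _))
    · exact hQ.nd (hd.trans e2)
  by_cases Q0 : Q = ⊥
  swap
  · exact good Q (hQ.le.trans x1) (y.ge.trans inf_le_right) Q0 (IsPGroup.piN hQ.pg (by simp))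
  have h3 : PiN {p, q}ᶜ o[N] := by
    rintro r hr hd (rfl | rfl)
    · exact h2 hd
    · exact hQ.ne_bot hd Q0
  have h4 : PiN {p, q} (N.relIndex X) := card_qt n2 ▸ x3.pi
  obtain ⟨H, a1, a2, a3, a4⟩ := exists_compl x1 n2 (h3.coprime' h4)
  exact ⟨H, Hall.of_compl a1 (a4 ▸ h4) h3 (Or.inl (a1.trans n2)) (by rw [sup_comm, a2])⟩

theorem tf_of [hp : Fact p.Prime] (hs : Group.IsSolvable G) (h6 : ¬ 6 ∣ Nat.card G) :
    IsThompsonFactorizable p G := by
  rw [Cfsg.Agent.S0609.result]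
  by_contra hnf
  have hsep : IsPSolvable p (G ⧸ pPrimeCore p G) := CfsgH1.isPSolvable_of_isSolvable hp.out
  have hO : pPrimeCore p (G ⧸ pPrimeCore p G) = ⊥ := CfsgH1.pPrimeCore_quotient_pPrimeCore p
  have h : AF p (VZ p (G ⧸ pPrimeCore p G)) ⊤ :=
    ⟨VZ_elem (con_top_iff.1 (CfsgH1.centralizer_pCore_le hsep hO)),
    le_top, top_le_norm_iff.2 inferInstance,
    ((CfsgH1.isPSolvable_iff Fact.out).1 hsep).subgroup _, fun D _ n l =>
      haveI := normal_of_top_le_norm n; le_cent_VZ_of_piRes l⟩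
  obtain ⟨E, c⟩ := h.exists_ac (mt (tf_iff_cent hO).2 hnf)
  have h1 := c.idx h
  refine h6 (Dvd.dvd.trans ?_ (((h1 ▸ relIndex_dvd_card _ E).trans
    (card_subgroup_dvd_card E)).trans (card_quotient_dvd_card _)))
  rcases c.two_or_three h with rfl | rfl <;> norm_num

theorem tf_amb [hp : Fact p.Prime] (hs : Sol[X]) (h6 : ¬ 6 ∣ o[X]) (hT : Syl p T X) {g : G}
    (hg : g ∈ X) : ∃ x ∈ O[{p}ᶜ, X], ∃ c ∈ X ⊓ C[omegaOne p Z[T]], ∃ n ∈ X ⊓ N[J[p, T]],
      g = x * c * n := by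
  obtain ⟨x, hx, c, hc, n, hn, e⟩ := tf_iff.1 (tf_of hs h6) _ hT.subgroupOf ⟨g, hg⟩
  have hf := subtype_injective X
  have eT : (T.subgroupOf X).map X.subtype = T := map_subgroupOf_eq_of_le hT.le
  refine ⟨x, ?_, c, ⟨c.2, ?_⟩, n, ⟨n.2, ?_⟩, congrArg Subtype.val e⟩
  · rw [← map_pPrimeCore_subtype]; exact mem_map_of_mem _ hx
  · rw [← eT]
    have := ((inj_simps hf).2.2.2.2.2.2.2.2.2.2.2.2.2.2.2.1 _ c).2 hc
    rwa [← inj_omegaOne hf, ← (inj_simps hf).2.2.2.2.2.2.2.2.2.2.2.1] at this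
  · rw [← eT, inj_J hf]
    exact ((inj_simps hf).2.2.2.2.2.2.2.2.2.2.2.2.2.2.1 _ n).2 hn

end CfsgMV
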