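import Cfsg.Agent.H9.MvP

/-! Moving a prime divisor of an automizer up to a subgroup normal in a Sylow subgroup. -/

namespace CfsgMV
open Subgroup Cfsg CfsgH2 Function CfsgL0
open scoped commutatorElement

universe u
variable {G : Type*} [Group G] [Finite G] {p q : ℕ} {C H K L M T X : Subgroup G}

/-- some `q`-subgroup of `M` normalizes but does not centralize `H`. -/
def Mv (q : ℕ) (M H : Subgroup G) : Prop := ∃ Y ≤ M ⊓ N[H], PG[q, Y] ∧ ¬ Y ≤ C[H]

omit [Finite G] in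
theorem Mv.mono (h : Mv q M H) (hl : M ≤ L) : Mv q L H :=
  let ⟨Y, h1, h2, h3⟩ := h; ⟨Y, h1.trans (inf_le_inf_right _ hl), h2, h3⟩

theorem syl_not_le [Fact q.Prime] {Y : Subgroup G} (hY : Syl q Y L) (h : q ∣ C.relIndex L) :
    ¬ Y ≤ C := fun h1 => by
  have := hY.not_dvd_of_le (le_inf h1 hY.le)
  rw [inf_relIndex_right] at this
  exact this h

theorem dvd_of_not_le [Fact q.Prime] {Y : Subgroup G} (hn : L ≤ N[C]) (hY : Y ≤ L) (h1 : PG[q, Y])
    (h : ¬ Y ≤ C) : q ∣ C.relIndex L := by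
  by_contra h2
  exact h (le_of_coprime_relIndex hY hn (coprime_of_pgroup h1 h2))

theorem mv_iff [Fact q.Prime] : Mv q M H ↔ q ∣ C[H].relIndex (M ⊓ N[H]) := by
  refine ⟨fun ⟨Y, h1, h2, h3⟩ =>
    dvd_of_not_le (inf_le_right.trans (norm_le_norm_cent H)) h1 h2 h3, fun h => ?_⟩
  obtain ⟨Y, hY⟩ := exists_syl q (M ⊓ N[H])
  exact ⟨Y, hY.le, hY.pg, syl_not_le hY h⟩

omit [Finite G] in
theorem Mv.map_cj (h : Mv q M H) {g : G} (hg : g ∈ M) : Mv q M (H.map (cj g)) := by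
  obtain ⟨Y, h1, h2, h3⟩ := h
  refine ⟨Y.map (cj g), le_inf (map_cj_le_of_mem (h1.trans inf_le_left) hg) ?_, h2.map _, ?_⟩
  · rw [normalizer_map_cj]; exact map_mono (h1.trans inf_le_right)
  · rwa [centralizer_map_cj, map_cj_le_map_cj]

variable [hp : Fact p.Prime] [hq : Fact q.Prime]

theorem cop (hpq : p ≠ q) {Y : Subgroup G} (h1 : PG[q, Y]) (h2 : PG[p, H]) : o[Y].Coprime o[H] :=
  coprime_of_pgroup h1 fun h => hpq (isPGroup_iff_piN.1 h2 q hq.out h).symm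

theorem step (hpq : p ≠ q) (h6 : ∀ n, PiN {p, q} n → ¬ 6 ∣ n) (hH : PG[p, H]) (hHM : H ≤ M)
    (hs : PS p (M ⊓ N[H]) C[H]) (hT : Syl p T (M ⊓ N[H])) (hc : T ⊓ C[H] ≤ H) (h : Mv q M H) :
    ∃ Y, PG[q, Y] ∧ Y ≤ M ⊓ N[H] ∧ ¬ Y ≤ C[H] ∧
      (Y ≤ N[omegaOne p Z[T]] ∨ Y ≤ N[J[p, T]]) := by
  set L := M ⊓ N[H]
  have nC : L ≤ N[C[H]] := inf_le_right.trans (norm_le_norm_cent H)
  have hHT : H ≤ T := hT.le_of_norm hH (le_inf hHM le_normalizer) (hT.le.trans inf_le_right)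
  have s0 : Syl p (T ⊓ (L ⊓ C[H])) (L ⊓ C[H]) :=
    hT.inf_norm inf_le_left (hT.le.trans (le_norm_inf le_normalizer nC))
  have npc : NPC p (L ⊓ C[H]) := s0.npc_of_norm_le_cent
    ((inf_le_left.trans inf_le_right).trans (cent_anti ((inf_le_inf_left _ inf_le_right).trans hc)))
  have ps : PS p L ⊥ := fun D hD h1 h2 => by
    have h3 := npc.mono (le_inf hD (hs D hD h1 h2))
    have h4 : ¬ p ∣ o[D] := by rw [← h1]; exact NPC.iff_piRes.1 h3
    rw [← h2]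
    exact (piRes_eq_bot' ((piN_compl_singleton hp.out).2 h4)).le
  obtain ⟨X0, x0⟩ := hall_pq (p := p) (q := q) _ G L rfl ps
  obtain ⟨T0, t0⟩ := exists_syl p X0
  obtain ⟨g, hg, e⟩ := (x0.syl (by simp) t0).conj hT
  have hX := x0.map_cj_mem hg
  have hTX : T ≤ X0.map (cj g) := e ▸ map_mono t0.le
  set X := X0.map (cj g)
  have tX : Syl p T X := hT.mono hTX hX.le
  have sol : Sol[X] := by
    obtain ⟨a, b, e, ha, hb⟩ := exists_piN_factor {p} (card_pos' X).ne'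
    obtain ⟨i, rfl⟩ := (piN_singleton hp.out
      (by rintro rfl; exact (card_pos' X).ne' (by simpa using e))).1 ha
    obtain ⟨j, rfl⟩ := (piN_singleton hq.out
      (by rintro rfl; exact (card_pos' X).ne' (by simpa using e))).1
      fun r hr hd => (hX.pi r hr (e ▸ hd.mul_left _)).resolve_left (hb r hr hd)
    exact CfsgH3.burnside_paqb p q i j hp.out hq.out e.dvd
  by_contra hcon
  push Not at hcon
  have nX := hX.le.trans nC
  have key : ∀ W, T ≤ W → W ≤ X → (W ≤ N[omegaOne p Z[T]] ∨ W ≤ N[J[p, T]]) →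
      qt C[H] W = qt C[H] T := by
    intro W w1 w2 w3
    refine (tX.qt nX).eq_of_le (isPGroup_iff_piN.2 fun r hr hd => ?_) (qt_mono w1) (qt_mono w2)
    rcases hX.pi r hr ((hd.trans card_qt_dvd).trans (card_dvd_of_le w2)) with h1 | rfl
    · exact h1
    obtain ⟨Y, hY⟩ := exists_syl r W
    rw [card_qt (w2.trans nX)] at hd
    have := hcon Y hY.pg (hY.le.trans (w2.trans hX.le)) (syl_not_le hY hd)
    rcases w3 with w3 | w3
    · exact absurd (hY.le.trans w3) this.1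
    · exact absurd (hY.le.trans w3) this.2
  have k1 := key (X ⊓ N[omegaOne p Z[T]]) (le_inf hTX (le_norm_omegaOne' le_norm_center))
    inf_le_left (Or.inl inf_le_right)
  have k2 := key (X ⊓ N[J[p, T]]) (le_inf hTX le_norm_J) inf_le_left (Or.inr inf_le_right)
  have k0 : O[{p}ᶜ, X] ≤ C[H] := le_cent_of_inf_eq_bot
    (piCoreOf_le.trans (hX.le.trans inf_le_right)) ((hHT.trans hTX).trans le_norm_piCoreOf)
    (inf_eq_bot_of_coprime' (coprime_of_pgroup hH not_dvd_piCoreOf).symm)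
  have nT := hT.le.trans nC
  have k3 : X ≤ T ⊔ C[H] := by
    intro g hg
    obtain ⟨x, hx, c, hc, n, hn, rfl⟩ := tf_amb sol (h6 _ hX.pi) tX hg
    refine mul_mem (mul_mem (mem_sup_right (k0 hx)) ?_) ?_
    · exact (qt_le_qt (inf_le_left.trans nX) nT).1 k1.le ⟨hc.1, cent_le_norm _ hc.2⟩
    · exact (qt_le_qt (inf_le_left.trans nX) nT).1 k2.le hn
  obtain ⟨Y, hY⟩ := exists_syl q X
  refine syl_not_le (hX.syl (by simp) hY) (mv_iff.1 h) ?_
  rw [← qt_eq_bot (hY.le.trans nX), eq_bot_iff,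
    ← inf_eq_bot_of_coprime' (cop hpq (isPGroup_qt (K := C[H]) hY.pg) (isPGroup_qt hT.pg))]
  exact le_inf le_rfl ((qt_le_qt (hY.le.trans nX) nT).2 (hY.le.trans k3))

theorem main (hpq : p ≠ q) (h6 : ∀ n, PiN {p, q} n → ¬ 6 ∣ n) (n : ℕ) :
    ∀ (G : Type u) [Group G] [Finite G] (M : Subgroup G), o[M] = n →
      (∀ H ≤ M, PG[p, H] → PS p (M ⊓ N[H]) C[H]) → ∀ H ≤ M, PG[p, H] → Mv q M H →
      ∀ P, Syl p P M → ∃ K ≤ P, P ≤ N[K] ∧ Mv q M K := by
  induction n using Nat.strong_induction_on with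
  | _ n ih =>
  intro G _ _ M hn hs H0 h1 h2 h3 P hP
  subst hn
  by_cases hV : O[{p}, M] = ⊥
  swap
  · set V := O[{p}, M]
    have nV : M ≤ N[V] := le_norm_piCoreOf
    have pV : PG[p, V] := isPGroup_piCoreOf
    have VP : V ≤ P := hP.pCoreOf_le
    by_cases hm : Mv q M V
    · exact ⟨V, VP, hP.le.trans nV, hm⟩
    obtain ⟨K, k1, k2, Y, y1, y2, y3⟩ := ih _ (card_qt_lt (by rwa [inf_eq_right.2 piCoreOf_le]))
      _ (qt V M) rfl (fun H a1 a2 => by
        have := (hs (qc V H) (qc_le nV piCoreOf_le a1) (isPGroup_qc a2 pV)).qt (K := V)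
          (inf_le_left.trans nV)
        rw [qt_inf_norm qc_le_norm le_qc, qt_qc] at this
        exact this.mono le_rfl (qt_cent_le.trans (by rw [qt_qc]))) (qt V H0) (qt_mono h1)
      (isPGroup_qt h2) (by
        obtain ⟨Y, y1, y2, y3⟩ := h3
        refine ⟨qt V Y, le_inf (qt_mono (y1.trans inf_le_left))
          (qt_le_norm (y1.trans inf_le_right)), isPGroup_qt y2, fun h => y3 ?_⟩
        have yV := (y1.trans inf_le_left).trans nV
        rw [qt_le_cent_iff yV (h1.trans nV), commutator_comm] at h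
        refine coprime_le_cent_of_stable (y1.trans inf_le_right) (cop hpq y2 h2)
          (Or.inl (isSolvable_of_pgroup y2)) h ?_
        by_contra h4
        exact hm ⟨Y, le_inf (y1.trans inf_le_left) yV, y2, h4⟩) _ (hP.qt nV)
    refine ⟨qc V K, qc_le (hP.le.trans nV) VP k1, le_norm_qc (hP.le.trans nV) k2, ?_⟩
    obtain ⟨Y1, hY⟩ := exists_syl q (qc V Y)
    have e := (hY.qt (K := V) qc_le_norm).eq_of_pgroup (by rwa [qt_qc])
    rw [qt_qc] at e
    refine ⟨Y1, hY.le.trans (le_inf (qc_le nV piCoreOf_le (y1.trans inf_le_left))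
      (qc_le_norm_qc (y1.trans inf_le_right))), hY.pg, fun h => y3 ?_⟩
    have := qt_le_cent (K := V) h
    rwa [e, qt_qc] at this
  obtain ⟨T, ⟨pT, H1, a1, a2, a3, a4⟩, hT⟩ := exists_max_card (fun T : Subgroup G => PG[p, T] ∧
    ∃ H ≤ M, PG[p, H] ∧ Mv q M H ∧ T ≤ M ⊓ N[H]) (H := ⊥) ⟨IsPGroup.of_bot, H0, h1, h2, h3, bot_le⟩
  obtain ⟨H, -, ⟨b1, b2, b3, b4⟩, hH⟩ := exists_maximal_ge (fun H : Subgroup G =>
    H ≤ M ∧ PG[p, H] ∧ Mv q M H ∧ T ≤ M ⊓ N[H]) ⟨a1, a2, a3, a4⟩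
  have sT : Syl p T (M ⊓ N[H]) := by
    obtain ⟨T1, t1, t2⟩ := exists_syl_ge pT b4
    exact t1.of_card_ge pT b4 (hT _ ⟨t1.pg, H, b1, b2, b3, t1.le⟩)
  have hHT : H ≤ T := sT.le_of_norm b2 (le_inf b1 le_normalizer) (b4.trans inf_le_right)
  have TM : T ≤ M := b4.trans inf_le_left
  obtain ⟨P1, p1, p2⟩ := exists_syl_ge pT TM
  rcases p2.lt_or_eq with p3 | rfl
  swap
  · obtain ⟨g, hg, rfl⟩ := p1.conj hP
    refine ⟨H.map (cj g), map_mono hHT, ?_, b3.map_cj hg⟩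
    rw [normalizer_map_cj]; exact map_mono (b4.trans inf_le_right)
  exfalso
  have lt := lt_inf_norm (nil_of_pg p1.pg) p3
  set L := M ⊓ N[H]
  have nC : L ≤ N[C[H]] := inf_le_right.trans (norm_le_norm_cent H)
  have hc : T ⊓ C[H] ≤ H := by
    have HL : H ≤ L := le_inf b1 le_normalizer
    have nD : L ≤ N[H ⊔ (L ⊓ C[H])] := le_norm_sup inf_le_right (le_norm_inf le_normalizer nC)
    have DL : H ⊔ (L ⊓ C[H]) ≤ L := sup_le HL inf_le_left
    have s1 := sT.inf_norm DL (b4.trans nD)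
    have e := s1.frattini_sup DL nD
    set H' := T ⊓ (H ⊔ (L ⊓ C[H]))
    have HH : H ≤ H' := le_inf hHT le_sup_left
    have nT : T ≤ N[H'] := le_norm_inf le_normalizer (b4.trans nD)
    have e2 : qt C[H] L = qt C[H] (L ⊓ N[H']) := by
      refine le_antisymm ((qt_le_qt nC (inf_le_left.trans nC)).2 ?_) (qt_mono inf_le_left)
      refine e.ge.trans (sup_le (sup_le ?_ (le_sup_of_le_right inf_le_right)) le_sup_left)
      exact le_sup_of_le_left (le_inf HL (hHT.trans nT))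
    have h4 := mv_iff.1 b3
    rw [← card_qt nC, e2, card_qt (inf_le_left.trans nC)] at h4
    obtain ⟨Y, hY⟩ := exists_syl q (L ⊓ N[H'])
    have := hH H' ⟨inf_le_left.trans TM, s1.pg, ⟨Y, hY.le.trans (inf_le_inf_right _ inf_le_left),
      hY.pg, fun h => syl_not_le hY h4 (h.trans (cent_anti HH))⟩, le_inf TM nT⟩ HH
    exact (le_inf inf_le_left (le_sup_of_le_right (inf_le_inf_right _ b4))).trans this.le
  have T0 : T ≠ ⊥ := by
    rintro rfl
    obtain ⟨Y, -, -, y3⟩ := b3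
    rw [le_bot_iff.1 hHT, cent_bot] at y3
    exact y3 le_top
  have fin : ∀ K Y : Subgroup G, K ≤ T → K ≠ ⊥ → N[T] ≤ N[K] → PG[q, Y] → Y ≤ L → ¬ Y ≤ C[H] →
      ¬ Y ≤ N[K] := by
    intro K Y k1 k2 k3 y1 y2 y3 y4
    have lt2 : M ⊓ N[K] < M := inf_lt_left.2 fun h =>
      k2 (le_bot_iff.1 (hV ▸ le_pCoreOf (k1.trans TM) h (pT.to_le k1)))
    obtain ⟨P2, c1, c2⟩ := exists_syl_ge (p1.pg.to_le (inf_le_left : P1 ⊓ N[T] ≤ P1))
      (inf_le_inf p1.le k3)
    obtain ⟨K2, d1, d2, d3⟩ := ih _ (card_lt_of_lt lt2) G _ rfl (fun H a1 a2 =>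
      (hs H (a1.trans inf_le_left) a2).mono (inf_le_inf_right _ inf_le_left) le_rfl) H
      (hHT.trans (le_inf TM (le_normalizer.trans k3))) b2
      ⟨Y, le_inf (le_inf (y2.trans inf_le_left) y4) (y2.trans inf_le_right), y1, y3⟩ P2 c1
    have := hT P2 ⟨c1.pg, K2, d1.trans (c1.le.trans inf_le_left), c1.pg.to_le d1,
      d3.mono inf_le_left, le_inf (c1.le.trans inf_le_left) d2⟩
    exact absurd (card_lt_of_lt (lt.trans_le c2)) (not_lt.2 this)
  obtain ⟨Y, y1, y2, y3, y4 | y4⟩ := step hpq h6 b2 b1 (hs H b1 b2) sT hc b3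
  · refine fin _ Y (omegaOne_le.trans inf_le_left) (omegaOne_ne_bot hp.out (dvd_card_of_pgroup
      (pT.to_le inf_le_left) (nil_center_ne_bot (nil_of_pg pT) T0)))
      (norm_le_norm_center.trans norm_le_norm_omegaOne) y1 y2 y3 y4
  · refine fin _ Y J_le (fun e => omega_ZJ_ne_bot dvd_rfl pT T0 ?_) norm_le_norm_J y1 y2 y3 y4
    exact le_bot_iff.1 (omegaOne_le.trans (inf_le_left.trans e.le))

end CfsgMV
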