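import Cfsg.Agent.H2.NP1

/-! A quadratic `SL₂(F)`-module contains the natural module. -/

set_option autoImplicit false
namespace CfsgJW
open Function Matrix Subgroup CfsgH2 CfsgL0
open scoped MatrixGroups

variable {F : Type*} [Field F]

/-- the monomial elements -/
def nT (t : F) (h : t ≠ 0) : SL(2, F) := ⟨!![0, t; -t⁻¹, 0], by simp [h]⟩

theorem nT_eq (t : F) (h : t ≠ 0) : nT t h = uT t * (lT (-t⁻¹) * uT t) := by
  apply Subtype.ext; simp only [sl_mul]; ext i j; fin_cases i <;> fin_cases j <;> simp [nT, uT, lT, h]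

theorem nT_eq' (t : F) (h : t ≠ 0) : nT t h = lT (-t⁻¹) * (uT t * lT (-t⁻¹)) := by
  apply Subtype.ext; simp only [sl_mul]; ext i j; fin_cases i <;> fin_cases j <;> simp [nT, uT, lT, h]

theorem lT_nT (s t : F) (h : t ≠ 0) : lT s * nT t h = nT t h * uT (-(s * t ^ 2)) := by
  apply Subtype.ext; simp only [sl_mul]; ext i j; fin_cases i <;> fin_cases j <;> simp [nT, uT, lT]
  field_simp

theorem uT_nT (s t : F) (h : t ≠ 0) : uT s * nT t h = nT t h * lT (-(s / t ^ 2)) := by
  apply Subtype.ext; simp only [sl_mul]; ext i j; fin_cases i <;> fin_cases j <;> simp [nT, uT, lT]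
  field_simp

theorem nT_nT {t s t' s' : F} (h1 : t ≠ 0) (h2 : s ≠ 0) (h3 : t' ≠ 0) (h4 : s' ≠ 0)
    (e : t * s' = t' * s) : nT t h1 * nT s h2 = nT t' h3 * nT s' h4 := by
  apply Subtype.ext; simp only [sl_mul]; ext i j; fin_cases i <;> fin_cases j <;> simp [nT] <;>
    field_simp <;> first | linear_combination e | linear_combination -e

theorem natq {W : Type*} [AddCommGroup W] (a : SL(2, F) → W →+ W)
    (hm : ∀ g h w, a (g * h) w = a g (a h w)) (h1 : ∀ w, a 1 w = w)
    (q : ∀ s t w, a (uT s) (a (uT t) w - w) = a (uT t) w - w)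
    (c0 : ∀ w, (∀ s, a (uT s) w = w) → (∀ s, a (lT s) w = w) → w = 0) (x : W)
    (hx : ∀ s, a (uT s) x = x) (x0 : x ≠ 0) :
    ∃ κ : (Fin 2 → F) →+ W, Injective κ ∧ ∀ g v, κ (g.1 *ᵥ v) = a g (κ v) := by
  obtain ⟨U, hU⟩ : ∃ U : F → W →+ W, ∀ t w, a (uT t) w = w + U t w :=
    ⟨fun t => a (uT t) - AddMonoidHom.id W, fun t w => by simp⟩
  obtain ⟨L, hL⟩ : ∃ L : F → W →+ W, ∀ t w, a (lT t) w = w + L t w :=
    ⟨fun t => a (lT t) - AddMonoidHom.id W, fun t w => by simp⟩
  have qU : ∀ s t w, a (uT s) (U t w) = U t w := fun s t w => by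
    have := q s t w
    rwa [hU t, add_sub_cancel_left] at this
  have qL : ∀ s t w, a (lT s) (L t w) = L t w := fun s t w => by
    obtain ⟨v, rfl⟩ : ∃ v, w = a (nT 1 one_ne_zero) v := ⟨a (nT 1 one_ne_zero)⁻¹ w, by
      rw [← hm, mul_inv_cancel, h1]⟩
    have := hL t (a (nT 1 one_ne_zero) v)
    rw [← hm, lT_nT, hm, hU, map_add, add_right_inj] at this
    rw [← this, ← hm, lT_nT, hm, qU]
  have aU : ∀ s t w, U (s + t) w = U s w + U t w := fun s t w => by
    have := hU (s + t) w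
    rw [uT_add, hm, hU t, map_add, qU, hU, add_assoc, add_right_inj] at this
    exact this.symm
  have aL : ∀ s t w, L (s + t) w = L s w + L t w := fun s t w => by
    have := hL (s + t) w
    rw [lT_add, hm, hL t, map_add, qL, hL, add_assoc, add_right_inj] at this
    exact this.symm
  have U0 : ∀ w, U 0 w = 0 := fun w => by simpa using aU 0 0 w
  have L0 : ∀ w, L 0 w = 0 := fun w => by simpa using aL 0 0 w
  have n0 : ∀ t h x, (∀ s, a (uT s) x = x) → x + U t (L (-t⁻¹) x) = 0 ∧ a (nT t h) x = L (-t⁻¹) x :=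
    fun t h x hx => by
      have e : a (nT t h) x = x + U t (L (-t⁻¹) x) + L (-t⁻¹) x := by
        rw [nT_eq, hm, hm, hx, hL, map_add, hx, hU]; abel
      have : x + U t (L (-t⁻¹) x) = 0 := c0 _ (fun s => by rw [map_add, hx, qU]) fun s => by
        rw [eq_sub_iff_add_eq.2 e.symm, map_sub, qL, ← hm, lT_nT, hm, hx]
      exact ⟨this, by rw [e, this, zero_add]⟩
  have n1 : ∀ t h y, (∀ s, a (lT s) y = y) → y + L (-t⁻¹) (U t y) = 0 ∧ a (nT t h) y = U t y :=
    fun t h y hy => by
      have e : a (nT t h) y = y + L (-t⁻¹) (U t y) + U t y := by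
        rw [nT_eq', hm, hm, hy, hU, map_add, hy, hL]; abel
      have : y + L (-t⁻¹) (U t y) = 0 := c0 _ (fun s => by
        rw [eq_sub_iff_add_eq.2 e.symm, map_sub, qU, ← hm, uT_nT, hm, hy]) fun s => by
          rw [map_add, hy, qL]
      exact ⟨this, by rw [e, this, zero_add]⟩
  have m1 : (-1 : F) ≠ 0 := neg_ne_zero.2 one_ne_zero
  have k0 : ∀ t b, U t (L b x) = U (t * b) (L 1 x) := fun t b => by
    by_cases ht : t = 0
    · rw [ht, zero_mul, U0, U0]
    by_cases hb : b = 0
    · rw [hb, mul_zero, L0, U0, map_zero]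
    have hb' : -b⁻¹ ≠ 0 := by simpa using hb
    have := congrArg (fun g => a g x) (nT_nT ht hb' (mul_ne_zero ht hb) m1 (by field_simp))
    simp only [hm, (n0 _ _ x hx).2, (n1 _ _ _ (qL · _ x)).2] at this
    simpa using this
  have k2 : U 1 (L 1 x) = x := by
    have h := (n0 1 one_ne_zero x hx).1
    have : L (-1) x = -L 1 x := eq_neg_of_add_eq_zero_left (by rw [← aL, neg_add_cancel, L0])
    rw [inv_one, this, map_neg, add_neg_eq_zero] at h
    exact h.symm
  have k1 : ∀ s c, L s (U c (L 1 x)) = L (s * c) x := fun s c => by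
    by_cases hs : s = 0
    · rw [hs, zero_mul, L0, L0]
    by_cases hc : c = 0
    · rw [hc, mul_zero, L0, U0, map_zero]
    have hs' : -s⁻¹ ≠ 0 := by simpa using hs
    have hc' : -(s * c)⁻¹ ≠ 0 := by simpa using ⟨hc, hs⟩
    have := congrArg (fun g => a g (L 1 x)) (nT_nT hs' hc hc' one_ne_zero (by field_simp))
    simp only [hm, (n1 _ _ _ (qL · _ x)).2, (n0 _ _ _ (qU · _ _)).2, k2, (n0 _ _ x hx).2] at this
    simpa using this
  let κ : (Fin 2 → F) →+ W := AddMonoidHom.mk' (fun v => U (v 0) (L 1 x) + L (v 1) x) fun v w => by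
    simp only [Pi.add_apply, aU, aL]; abel
  have hκ : ∀ v, κ v = U (v 0) (L 1 x) + L (v 1) x := fun _ => rfl
  refine ⟨κ, (injective_iff_map_eq_zero _).2 fun v hv => ?_, fun g => ?_⟩
  · have e : U (v 0) (L 1 x) = -L (v 1) x := eq_neg_of_add_eq_zero_left hv
    have e0 : U (v 0) (L 1 x) = 0 := c0 _ (qU · _ _) fun s => by rw [e, map_neg, qL]
    have e1 : L (v 1) x = 0 := by rwa [e0, eq_comm, neg_eq_zero] at e
    ext k
    fin_cases k <;> by_contra n
    · have := (n1 (v 0) n _ (qL · 1 x)).1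
      rw [e0, map_zero, add_zero] at this
      exact x0 (by rw [← k2, this, map_zero])
    · have := (n0 (-(v 1)⁻¹) (by simpa using n) x hx).1
      rw [← neg_inv, neg_neg, inv_inv, e1, map_zero, add_zero] at this
      exact x0 this
  · let Γ : Subgroup SL(2, F) :=
      { carrier := {g | ∀ v, κ (g.1 *ᵥ v) = a g (κ v)}
        one_mem' := fun v => by simp [h1]
        mul_mem' := fun {g h} hg hh v => by rw [sl_mul, ← mulVec_mulVec, hg, hh, hm]
        inv_mem' := fun {g} hg v => by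
          conv_rhs => rw [← sl_inv_mulVec g v, hg, ← hm, inv_mul_cancel, h1] }
    refine (sl2_gen (Γ := Γ) (fun t v => ?_) fun t v => ?_).ge (mem_top g)
    · rw [uT_mulVec, map_add, hκ v, map_add, qU, hU, k0 t, hκ]
      simp only [cons_val_zero, cons_val_one, L0]; abel
    · rw [lT_mulVec, map_add, hκ v, map_add, qL, hL, k1, hκ]
      simp only [cons_val_zero, cons_val_one, U0]; abel

end CfsgJW
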