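import Cfsg.Agent.H9.PIrr
import Cfsg.Agent.H9.Gen

/-! Normal structure of `p`-minimal groups. -/

set_option autoImplicit false
namespace CfsgH9
open Subgroup Cfsg

variable {G : Type*} [Group G] [Finite G] {p : ℕ} {S M N L K : Subgroup G}

theorem UM.exists_normal (h : UM S M ⊤) (hN : Sn N ⊤) (l : N ≤ M) :
    ∃ K, N ≤ K ∧ K ≤ M ∧ ⊤ ≤ normalizer (K : Set G) := by
  obtain ⟨K, h1, ⟨h2, h3⟩, h4⟩ := exists_max_subgroup (P := fun K => Sn K ⊤ ∧ K ≤ M) ⟨hN, l⟩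
  refine ⟨K, h1, h3, (h.eq_of_not_le (le_normalizer_iff_cj.2 fun s hs => ?_) le_top fun k => ?_).ge⟩
  · exact le_sup_right.trans (h4 _ le_sup_left ⟨h2.sup (h2.cj_of_mem (Subgroup.le_normalizer (mem_top s))),
      sup_le h3 (cj_le_of_mem (h.le hs) h3)⟩).le
  · rcases h2.eq_or_exists' with e | ⟨Y, a, b, c⟩
    · exact h.lt.not_ge (e ▸ h3)
    · exact a.ne' (h4 Y a.le ⟨c, b.trans k⟩)

variable [hp : Fact p.Prime]

theorem UM.inf_le (h : UM S M ⊤) (hS : Syl p S ⊤) (hN : Sn N ⊤) (l : N ≤ M) : N ⊓ S ≤ pCore p G := by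
  obtain ⟨K, h1, h2, h3⟩ := h.exists_normal hN l
  exact (h.pCl hS h2 h3 _ (inf_le_left.trans h1) (hS.pg.to_le inf_le_right)).trans
    (le_pCore ((sn_Op p K).trans (.of_normal le_top h3)) (Op_isPGroup p K))

theorem UM.exists_q (h : UM S M ⊤) (hS : IsPGroup p S) (n : S ≤ normalizer (L : Set G))
    (c : (Nat.card L).Coprime p) (l : ¬ L ≤ M) :
    ∃ q : ℕ, q.Prime ∧ ∃ Q ≤ L, IsPGroup q Q ∧ S ≤ normalizer (Q : Set G) ∧ S ⊔ Q = ⊤ := by
  by_contra k
  refine l ((eq_of_forall_prime (inf_le_right (a := M)) fun q hq => ?_).ge.trans inf_le_left)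
  haveI := Fact.mk hq
  obtain ⟨Q, h1, h2⟩ := exists_invariant_syl_coprime n (coprime_card_of_p c hS).symm
    (.inl (isSolvable_of_isPGroup hS)) q
  refine h1.not_dvd_relIndex (le_inf (le_sup_right.trans ((h.le_or_eq le_sup_left le_top).resolve_right
    fun e => k ⟨q, hq, Q, h1.le, h1.pg, h2, e⟩)) h1.le)

theorem UM.nilpotent (h : UM S M ⊤) (hS : IsPGroup p S) (n : ⊤ ≤ normalizer (L : Set G))
    (c : (Nat.card L).Coprime p) : Group.IsNilpotent L := by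
  by_cases l : L ≤ M
  · refine nilpotent_of_syl_Op fun q _ => ?_
    obtain ⟨Q, h1, h2⟩ := exists_invariant_syl_coprime (le_top.trans n) (coprime_card_of_p c hS).symm
      (.inl (isSolvable_of_isPGroup hS)) q
    rw [h1.eq_Op (le_top.trans (h.eq_of_not_le h2 le_top fun k => h.lt.not_ge ?_).ge)]
    exacts [h1, (h1.frattini_sup le_top n).ge.trans (sup_le l (inf_le_left.trans k))]
  · obtain ⟨q, hq, Q, h1, h2, h3, h4⟩ := h.exists_q hS (le_top.trans n) c l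
    haveI := Fact.mk hq
    have := inf_sup_of_le_normalizer' h3 h1
    rw [sup_comm, h4, top_inf_eq, inf_eq_bot_of_p_pp hS c, sup_bot_eq] at this
    exact this ▸ h2.isNilpotent

theorem um_of_pmin (hP : IsPMinimal p G) (S : Sylow p G) (hM : IsCoatom M) (l : (S : Subgroup G) ≤ M) :
    UM S M ⊤ := um_of_isCoatom (um_top_iff.2 (hP S).2) hM l

theorem UM.Oup_not_le (h : UM S M ⊤) (hS : Syl p S ⊤) : ¬ Oup p ⊤ ≤ M := fun k =>
  h.lt.not_ge (hS.sup_Oup.ge.trans (sup_le h.le k))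

end CfsgH9
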