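import Cfsg.Agent.H2.BG0
import Cfsg.Agent.H2.PG1
import Cfsg.Agent.H3.Thompson

/-! Two-Frobenius groups and disconnected prime graphs. -/

set_option autoImplicit false
open Subgroup Cfsg CfsgH2 Function
open CfsgH1 (Frob)
open scoped commutatorElement IsMulCommutative

namespace CfsgMC

universe u v
variable {G : Type u} [Group G] [Finite G] {G' : Type v} [Group G'] [Finite G'] {f : G →* G'}
  {H C K : Subgroup G} {D L : Subgroup G'} {π : Set ℕ}

theorem tf_main (h1 : Frob H C K) (hk : K ⊓ f.ker = H) (h2 : Frob (K.map f) D L) :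
    ¬ 2 ∣ o[C] ∧ Cyc[C] ∧ o[K.map f] = o[C] ∧ Cyc[K.map f] ∧ Cyc[D] := by
  have e : K.map f = C.map f := by
    rw [← h1.sup, Subgroup.map_sup, (Subgroup.map_eq_bot_iff _).2 (hk.ge.trans inf_le_right), bot_sup_eq]
  have i0 : ∀ c ∈ C, f c = 1 → c = 1 := fun c a b =>
    mem_bot.1 (h1.disj.le (mem_inf.2 ⟨hk.le (mem_inf.2 ⟨h1.comp_le a, b⟩), a⟩))
  let φ : C ≃* C.map f := MulEquiv.ofBijective (f.subgroupMap C) ⟨(injective_iff_map_eq_one _).2 fun c a =>
    Subtype.ext (i0 c c.2 (congrArg Subtype.val a)), f.subgroupMap_surjective C⟩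
  have od : ¬ 2 ∣ o[C] := fun d => by
    obtain ⟨s, s1, s2⟩ := exists_prime_order_mem Nat.prime_two d
    obtain ⟨y, y1, y2⟩ := (bot_or_exists_ne_one D).resolve_left h2.comp_ne
    have s3 : f s ∈ K.map f := mem_map_of_mem f (h1.comp_le s1)
    have s4 : f s ≠ 1 := fun a => by rw [i0 s s1 a] at s2; simp at s2
    obtain ⟨t, t1, t2⟩ := e.le (conj_mem_of_norm (h2.norm y1) s3)
    have t3 : orderOf t = 2 := orderOf_eq_prime (i0 _ (pow_mem t1 2) (by
      rw [map_pow, t2, conj_pow, ← map_pow, ← s2, pow_orderOf_eq_one]; simp)) fun a => s4 (by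
        rw [a, map_one] at t2; simpa using t2.symm)
    rw [h1.involution_unique s1 s2 t1 t3] at t2
    exact (h2.eq_one s3 y1 (eq_mul_inv_iff_mul_eq.1 t2)).elim s4 y2
  have nC : Nil[C] := by
    haveI : Nil[C.map f] := e ▸ CfsgH3.frob_nilpotent h2
    exact nilpotent_of_mulEquiv φ.symm
  have cC : Cyc[C] := nil_cyc_of_cores nC fun p hp d =>
    h1.isCyclic_of_odd hp.out (fun a => od (a ▸ d)) piCoreOf_le isPGroup_piCoreOf
  have cK : Cyc[K.map f] := e ▸ isCyclic_of_surjective φ φ.surjective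
  refine ⟨od, cC, e ▸ (Nat.card_congr φ.toEquiv).symm, cK, h2.isCyclic_of_comm le_rfl
    (commutator_self_eq_bot_iff.1 (eq_bot_iff.2 fun y a => mem_bot.2 ?_))⟩
  obtain ⟨x, x1, x2⟩ := (bot_or_exists_ne_one _).resolve_left h2.ker_ne
  exact (h2.eq_one x1 (comm_le_left le_normalizer a)
    (commutator_le_cent_of_cyclic cK h2.norm a x x1)).resolve_left x2

theorem ex_ord {g : G} {n : ℕ} (h : n ∣ orderOf g) : ∃ x : G, orderOf x = n :=
  ⟨_, orderOf_pow_orderOf_div (orderOf_pos g).ne' h⟩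

theorem ex_mul {x y : G} {a b : ℕ} (c : Commute x y) (h : a.Coprime b) (ha : a ∣ orderOf x) (hb : b ∣ orderOf y) :
    ∃ g : G, orderOf g = a * b := by
  have o1 := orderOf_pow_orderOf_div (orderOf_pos x).ne' ha
  have o2 := orderOf_pow_orderOf_div (orderOf_pos y).ne' hb
  exact ⟨_, by rw [(c.pow_pow _ _).orderOf_mul_eq_mul_orderOf_of_coprime (by rw [o1, o2]; exact h), o1, o2]⟩

/-- no edge of the prime graph joins `π` to its complement -/
def NE (π : Set ℕ) (G : Type*) [Group G] : Prop :=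
  ∀ a ∈ π, ∀ b ∉ π, a.Prime → b.Prime → ∀ g : G, orderOf g ≠ a * b

omit [Finite G] in
theorem NE.compl (h : NE π G) : NE πᶜ G := fun a x b y c d g e =>
  h b (not_not.1 y) a x d c g (e.trans (mul_comm _ _))

omit [Finite G'] in
theorem NE.surj (h : NE π G) (hf : Surjective f) : NE π G' := fun a x b y c d g e => by
  obtain ⟨g, rfl⟩ := hf g
  obtain ⟨z, hz⟩ := ex_ord (e ▸ orderOf_map_dvd f g)
  exact h a x b y c d z hz

theorem NE.cent (h : NE π G) {x y : G} (h1 : x ≠ 1) (hx : PiN π (orderOf x)) (c : Commute x y) :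
    PiN π (orderOf y) := fun b hb d => by_contra fun n => by
  have a := Nat.minFac_prime (fun e => h1 (orderOf_eq_one_iff.1 e))
  have m := hx _ a (Nat.minFac_dvd _)
  obtain ⟨g, e⟩ := ex_mul c ((Nat.coprime_primes a hb).2 fun e => n (e ▸ m)) (Nat.minFac_dvd _) d
  exact h _ m b n a hb g e

theorem NE.frob (h : NE π G) (hK : H < K) (h0 : H ≠ ⊥) (hn : K ≤ N[H]) (hH : Hall π H K) : ∃ C, Frob H C K :=
  CfsgH1.exists_frob_of_cent hK h0 hn fun _ a b _ c =>
    hH.mem_of_norm hn c.1 (h.cent b (piN_orderOf hH.pi a) (mem_centralizer_singleton_iff.1 c.2).symm)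

theorem NE.two (h : NE π G) (hs : Group.IsSolvable G) (h0 : piCore π G ≠ ⊥) (h1 : ¬ PiN π (Nat.card G)) :
    (∃ H C : Subgroup G, Frob H C ⊤) ∨ ∃ (H K : Subgroup G) (_ : H.Normal), K.Normal ∧ H < K ∧
      (∃ C, Frob H C K) ∧ ∃ D, Frob (K.map (QuotientGroup.mk' H)) D ⊤ := by
  set H := piCore π G
  have sf := QuotientGroup.mk'_surjective H
  set f := QuotientGroup.mk' H
  set Q := piCore πᶜ (G ⧸ H)
  have c : C[Q] ≤ Q := CfsgH1.centralizer_piCore_le (CfsgH1.sep_pi_of_isSolvable _)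
    (by rw [compl_compl]; exact piCore_quot_piCore)
  have pQ : PiN πᶜ o[Q] := piN_piCore
  have pH : PiN π o[H] := piN_piCore
  have m : (Q.comap f).map f = Q := map_comap_eq_self_of_surjective sf Q
  have kf : f.ker = H := QuotientGroup.ker_mk' H
  have l : H ≤ Q.comap f := kf.ge.trans (ker_le_comap _ _)
  have k : Q.comap f ⊓ f.ker = H := by rw [kf]; exact inf_eq_right.2 l
  have Q0 : Q ≠ ⊥ := fun e => h1 (by
    rw [e, cent_bot] at c
    have : H = ⊤ := top_le_iff.1 fun g _ => kf.le (mem_bot.1 (c (mem_top (f g))))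
    rw [this, card_top] at pH
    exact pH)
  have lt : H < Q.comap f := lt_of_le_of_ne l fun e => Q0 (by rw [← m, ← e]; exact (Subgroup.map_eq_bot_iff _).2 kf.ge)
  have ri : H.relIndex (Q.comap f) = o[Q] := by
    have a := card_map_mul_card_inf_ker f (Q.comap f)
    rw [m, k, ← card_mul_relIndex l, mul_comm] at a
    exact (Nat.eq_of_mul_eq_mul_left (card_pos' H) a).symm
  obtain ⟨C, hC⟩ := h.frob lt h0 le_normalizer_of_normal ⟨l, pH, ri ▸ pQ⟩
  by_cases t : Q = ⊤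
  · exact Or.inl ⟨H, C, by rwa [t, comap_top] at hC⟩
  refine Or.inr ⟨H, Q.comap f, inferInstance, inferInstance, lt, ⟨C, hC⟩, ?_⟩
  have h' := (h.surj sf).compl
  rw [m]
  refine h'.frob (lt_top_iff_ne_top.2 t) Q0 le_normalizer_of_normal ⟨le_top, pQ, fun r hr d n => ?_⟩
  obtain ⟨y, -, y1, y2⟩ := exists_pelem_not_mem hr d
  have nπ : ¬ PiN πᶜ (Nat.card (G ⧸ H)) := fun a => t (top_le_iff.1 (CfsgH1.le_piCore (by rwa [card_top])))
  obtain ⟨a, a1, a2, a3⟩ : ∃ a : ℕ, a.Prime ∧ a ∣ Nat.card (G ⧸ H) ∧ a ∈ π := by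
    by_contra z; push Not at z
    exact nπ z
  obtain ⟨x, -, hx⟩ := exists_prime_order_mem (H := (⊤ : Subgroup (G ⧸ H))) a1 (by rwa [card_top])
  have px : PiN πᶜᶜ o[zpowers x] := piN_card_zpowers (by rw [hx, compl_compl]; exact PiN.of_prime a1 a3)
  have xQ : x ∉ Q := fun z => piN_orderOf pQ z a a1 (hx ▸ dvd_rfl) a3
  obtain ⟨D, hD⟩ := h'.frob (H := Q) (K := Q ⊔ zpowers x) (lt_of_le_of_ne le_sup_left fun e =>
    xQ (e.ge (mem_sup_right (mem_zpowers x)))) Q0 le_normalizer_of_normal ⟨le_sup_left, pQ, by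
      rw [sup_comm, relIndex_sup_of_norm le_normalizer_of_normal]
      exact px.of_dvd (relIndex_dvd_card _ _)⟩
  have cy := (tf_main hC k (m.symm ▸ hD)).2.2.2.1
  rw [m] at cy
  have dq := (commutator_le_cent_of_cyclic (H := ⊤) cy le_normalizer_of_normal).trans c
  haveI := normal_of_top_le_norm (le_norm_of_between (A := ⊤) (H := ⊤) (K := Q ⊔ zpowers y) (dq.trans le_sup_left) le_top)
  refine y2 (CfsgH1.le_piCore (N := Q ⊔ zpowers y) (piN_sup pQ (piN_card_zpowers (y1.mono ?_))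
    (Or.inr le_normalizer_of_normal)) (mem_sup_right (mem_zpowers y)))
  rintro _ rfl
  exact n

omit [Finite G] in
theorem frob_sub (hl : H ≤ K) : (∃ C, Frob H C K) ↔
    ∃ C : Subgroup K, Frob (H.subgroupOf K) C ⊤ :=
  ⟨fun ⟨C, h⟩ => ⟨_, (Frob.subgroupOf_iff hl h.comp_le).2 h⟩, fun ⟨C, h⟩ => ⟨C.map K.subtype, by
    have := (Frob.map_iff K.subtype_injective).2 h
    rwa [subgroupOf_map_subtype, inf_eq_left.2 hl, ← MonoidHom.range_eq_map, range_subtype] at this⟩⟩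

theorem NE.two' (h : NE π G) (hs : Group.IsSolvable G) (h0 : ¬ PiN πᶜ (Nat.card G)) (h1 : ¬ PiN π (Nat.card G)) :
    (∃ H C : Subgroup G, Frob H C ⊤) ∨ ∃ (H K : Subgroup G) (_ : H.Normal), K.Normal ∧ H < K ∧
      (∃ C, Frob H C K) ∧ ∃ D, Frob (K.map (QuotientGroup.mk' H)) D ⊤ := by
  haveI : Nontrivial G := Finite.one_lt_card_iff_nontrivial.1 (lt_of_le_of_ne Nat.card_pos fun e => h0 (e ▸ PiN.one))
  obtain ⟨σ, a | a, b⟩ := (CfsgH1.sep_pi_of_isSolvable (G := G) π).exists_piCore_ne_bot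
  · exact h.two hs (a ▸ b) h1
  · exact h.compl.two hs (a ▸ b) h0

end CfsgMC
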