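import Cfsg.Agent.H2.BG0
import Cfsg.Agent.H2.PL1
import Cfsg.Agent.H3.Hig3
import Cfsg.Agent.L0.G3
import Cfsg.Agent.S3774
import Cfsg.Agent.S4408

/-! Solvable groups with one class of involutions: preparations. -/

set_option autoImplicit false
open Subgroup Cfsg CfsgH2 Function
open scoped commutatorElement IsMulCommutative

namespace CfsgTH

/-- an abelian 2-group whose involutions are permuted transitively is homocyclic -/
theorem hc {K : Type*} [Group K] [Finite K] (ab : IsMulCommutative K) (hK : IsPGroup 2 K)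
    (tr : ∀ x y : K, x ≠ 1 → x ^ 2 = 1 → y ≠ 1 → y ^ 2 = 1 → ∃ a : MulAut K, a x = y) :
    ∃ m r : ℕ, Nonempty (K ≃* (Fin r → Multiplicative (ZMod (2 ^ m)))) := by
  classical
  obtain ⟨ι, _, n, h1, ⟨e⟩⟩ := CommGroup.equiv_prod_multiplicative_zmod_of_finite K
  let x : ι → K := fun i => e.symm (Pi.mulSingle i (Multiplicative.ofAdd 1))
  have ox : ∀ i, orderOf (x i) = n i := fun i => by
    rw [MulEquiv.orderOf_eq, orderOf_piMulSingle, orderOf_ofAdd_eq_addOrderOf, ZMod.addOrderOf_one]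
  have pw : ∀ i, ∃ a, n i = 2 ^ (a + 1) := fun i => by
    obtain ⟨k, hk⟩ := IsPGroup.iff_orderOf.1 hK (x i)
    rw [ox] at hk
    rcases k with _ | k
    · have := h1 i; omega
    · exact ⟨k, hk⟩
  choose a ha using pw
  have u1 : ∀ i, x i ^ 2 ^ a i ≠ 1 := fun i h => by
    have := Nat.le_of_dvd (by positivity) (orderOf_dvd_of_pow_eq_one h)
    rw [ox, ha, pow_succ] at this
    have : 0 < 2 ^ a i := by positivity
    omega
  have u2 : ∀ i, (x i ^ 2 ^ a i) ^ 2 = 1 := fun i => by rw [← pow_mul, ← pow_succ, ← ha, ← ox, pow_orderOf_eq_one]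
  have le : ∀ i j, a i ≤ a j := fun i j => by
    by_contra h
    obtain ⟨φ, hφ⟩ := tr _ _ (u1 i) (u2 i) (u1 j) (u2 j)
    haveI : NeZero (n j) := ⟨by have := h1 j; omega⟩
    have d : Nat.card (Multiplicative (ZMod (n j))) ∣ 2 ^ a i := by
      rw [Nat.card_congr Multiplicative.toAdd, Nat.card_zmod, ha]; exact pow_dvd_pow 2 (by omega)
    have c : e (x j ^ 2 ^ a j) j = 1 := by
      rw [← hφ, map_pow, map_pow, Pi.pow_apply]
      exact orderOf_dvd_iff_pow_eq_one.1 ((_root_.orderOf_dvd_natCard _).trans d)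
    apply u1 j
    apply e.injective
    rw [map_one]
    funext k
    by_cases hk : k = j
    · subst hk; exact c
    · simp [x, Pi.mulSingle_eq_of_ne hk]
  obtain ⟨m, hm⟩ : ∃ m, n = fun _ => 2 ^ m := by
    rcases isEmpty_or_nonempty ι with _ | ⟨⟨i⟩⟩
    · exact ⟨0, funext fun i => isEmptyElim i⟩
    · exact ⟨a i + 1, funext fun j => by rw [ha, le_antisymm (le i j) (le j i)]⟩
  subst hm
  exact ⟨m, _, ⟨e.trans (MulEquiv.arrowCongr (Fintype.equivFin ι) (MulEquiv.refl _))⟩⟩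

variable {G : Type*} [Group G] [Finite G] {A H K U V : Subgroup G}

theorem card_le_cube [V.Normal] (hV : IsElementaryAbelian 2 V) (l : V ≤ H) (c : H ≤ C[V])
    (sq : ∀ h ∈ H, h * h ∈ V) (iv : ∀ h ∈ H, h * h = 1 → h ∈ V) : o[H] ≤ o[V] ^ 3 := by
  classical
  let g := QuotientGroup.mk' V
  have g1 : ∀ u, g u = 1 ↔ u ∈ V := fun u => QuotientGroup.eq_one_iff u
  have cmV : ∀ u ∈ H, ∀ v ∈ H, ⁅u, v⁆ ∈ V := fun u hu v hv => by
    rw [show ⁅u, v⁆ = u * v * (u * v) * (v⁻¹ * (u * u)⁻¹ * v) * (v * v)⁻¹ by rw [commutatorElement_def]; group]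
    refine mul_mem (mul_mem (sq _ (mul_mem hu hv)) ?_) (inv_mem (sq v hv))
    exact conj_mem_of_norm' (le_normalizer_of_normal (mem_top v)) (inv_mem (sq u hu))
  haveI : IsMulCommutative (H.map g) := isMulComm_iff.2 (by
    rintro _ ⟨u, hu, rfl⟩ _ ⟨v, hv, rfl⟩
    rw [← commutatorElement_eq_one_iff_mul_comm, ← map_commutatorElement, g1]; exact cmV u hu v hv)
  haveI := hV.1
  letI : Module (ZMod 2) (Additive (H.map g)) := AddCommGroup.zmodModule fun x => by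
    have : x.toMul ^ 2 = 1 := Subtype.ext (by
      obtain ⟨u, hu, e⟩ := x.toMul.2
      rw [SubgroupClass.coe_pow, ← e, ← map_pow, OneMemClass.coe_one, g1, pow_two]; exact sq u hu)
    exact this
  letI : Module (ZMod 2) (Additive V) := AddCommGroup.zmodModule fun x => by
    have : x.toMul ^ 2 = 1 := Subtype.ext (hV.2 _ x.toMul.2)
    exact this
  let cE : G → Additive V := fun x => if h : x ∈ V then Additive.ofMul ⟨x, h⟩ else 0
  have ca : ∀ x ∈ V, ∀ y ∈ V, cE (x * y) = cE x + cE y := fun x hx y hy => by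
    simp only [cE, dif_pos hx, dif_pos hy, dif_pos (mul_mem hx hy)]; rfl
  have c1 : cE 1 = 0 := by simp only [cE, dif_pos (one_mem V)]; rfl
  have ck : ∀ x ∈ V, cE x = 0 → x = 1 := fun x hx h => by
    simp only [cE, dif_pos hx] at h; exact congrArg Subtype.val h
  have cm : ∀ e ∈ V, ∀ u ∈ H, u * e = e * u := fun e he u hu => (c hu e he).symm
  have ee : ∀ e ∈ V, e * e = 1 := fun e he => by rw [← pow_two]; exact hV.2 e he
  have ex : ∀ x : Additive (H.map g), ∃ u ∈ H, g u = x.toMul := fun x => x.toMul.2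
  choose s s1 s2 using ex
  have add : ∀ u ∈ H, ∀ v ∈ H, cE (u * v * (u * v)) = cE (u * u) + cE (v * v) + cE ⁅u⁻¹, v⁆ := by
    intro u hu v hv
    have m := cmV _ (inv_mem hu) v hv
    rw [show u * v * (u * v) = u * u * ⁅u⁻¹, v⁆ * (v * v) by rw [commutatorElement_def]; group,
      ca _ (mul_mem (sq u hu) m) _ (sq v hv), ca _ (sq u hu) _ m]
    abel
  have sa : ∀ x y, ∃ e ∈ V, s (x + y) = s x * s y * e := fun x y =>
    ⟨_, (g1 ((s x * s y)⁻¹ * s (x + y))).1 (by rw [map_mul, map_inv, map_mul, s2, s2, s2]; exact inv_mul_cancel _),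
      by simp [mul_assoc]⟩
  have cme : ∀ u ∈ H, ∀ v ∈ H, ∀ e ∈ V, ⁅(u * e)⁻¹, v⁆ = ⁅u⁻¹, v⁆ := fun u hu v hv e he => by
    rw [mul_inv_rev, commutator_mul_left', cm _ (cmV _ (inv_mem hu) v hv) _ (inv_mem (l he)), mul_inv_cancel_right,
      commutatorElement_eq_one_iff_mul_comm.2 (cm _ (inv_mem he) v hv).symm, mul_one]
  have qa : ∀ x y, cE (s (x + y) * s (x + y)) = cE (s x * s x) + cE (s y * s y) + cE ⁅(s x)⁻¹, s y⁆ := by
    intro x y
    obtain ⟨e, he, e1⟩ := sa x y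
    have m := mul_mem (s1 x) (s1 y)
    rw [e1, ← add _ (s1 x) _ (s1 y), mul_assoc _ e, ← mul_assoc e, ← cm e he _ m, mul_assoc _ e, ee e he, mul_one]
  have q0 : cE (s 0 * s 0) = 0 := by rw [ee _ ((g1 _).1 (s2 0)), c1]
  let Q : QuadraticMap (ZMod 2) (Additive (H.map g)) (Additive V) := QuadraticMap.ofPolar (fun x => cE (s x * s x))
    (fun a x => by rcases CfsgRO.zmod2 a with rfl | rfl <;> simp [q0])
    (fun x y z => by
      simp only [QuadraticMap.polar, qa]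
      obtain ⟨e, he, e1⟩ := sa x y
      have m := cmV _ (inv_mem (s1 x)) _ (s1 z)
      rw [e1, cme _ (mul_mem (s1 x) (s1 y)) _ (s1 z) e he, mul_inv_rev, commutator_mul_left',
        cm _ m _ (inv_mem (s1 y)), mul_inv_cancel_right, ca _ m _ (cmV _ (inv_mem (s1 y)) _ (s1 z))]
      abel)
    (fun a x y => by rcases CfsgRO.zmod2 a with rfl | rfl <;> simp [QuadraticMap.polar, q0])
  have := CfsgRO.card_le_sq Q fun x hx => by
    have h2 := (g1 _).2 (iv _ (s1 x) (ck _ (sq _ (s1 x)) hx))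
    rw [s2] at h2
    exact Subtype.ext h2
  rw [← card_map_mul_card_inf_ker g H, QuotientGroup.ker_mk', inf_eq_right.2 l, pow_succ]
  exact Nat.mul_le_mul_right _ this

/-- a regular orbit -/
theorem reg (hA : Ab[A]) (hU : Ab[U]) (n : A ≤ N[U]) (cp : o[A].Coprime o[U]) : ∃ u ∈ U, A ⊓ C1[u] ≤ C[U] := by
  obtain ⟨_, -, ⟨u, hu, rfl⟩, mn⟩ := exists_minimal_le (fun B => ∃ u ∈ U, B = A ⊓ C1[u]) ⟨1, one_mem U, rfl⟩
  refine ⟨u, hu, le_centralizer_iff.1 (comm_eq_bot_iff.1 (eq_bot_iff.2 fun w hw => ?_))⟩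
  set B := A ⊓ C1[u] with hB
  have nB : A ≤ N[B] := le_norm_of_le_cent (le_cent_of_comm hA inf_le_left)
  have d := coprime_comm_inf_cent hU (inf_le_left.trans n : B ≤ _) (cp.coprime_dvd_left (card_dvd_of_le inf_le_left))
  have wU := comm_le_left (inf_le_left.trans n : B ≤ _) hw
  have uB : u ∈ C[B] := le_cent1_iff.1 inf_le_right
  have key : A ⊓ C1[u * w] ≤ B ⊓ C1[w] := fun a ha => by
    have e := mem_centralizer_singleton_iff.1 ha.2
    have m1 : u⁻¹ * (a * u * a⁻¹) ∈ C[B] := mul_mem (inv_mem uB) (conj_mem_of_norm (le_norm_cent nB ha.1) uB)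
    have m2 : w * (a * w * a⁻¹)⁻¹ ∈ ⁅U, B⁆ := mul_mem hw (inv_mem (conj_mem_of_norm (le_norm_commutator n nB ha.1) hw))
    have e2 : u⁻¹ * (a * u * a⁻¹) = w * (a * w * a⁻¹)⁻¹ := by
      calc _ = u⁻¹ * (a * (u * w)) * a⁻¹ * (a * w * a⁻¹)⁻¹ := by group
        _ = _ := by rw [e]; group
    have z := mem_bot.1 (d.le (mem_inf.2 ⟨m2, e2 ▸ m1⟩))
    refine mem_inf.2 ⟨mem_inf.2 ⟨ha.1, mem_centralizer_singleton_iff.2 ?_⟩, mem_centralizer_singleton_iff.2 ?_⟩
    · rw [z, inv_mul_eq_one] at e2; exact (eq_mul_inv_iff_mul_eq.1 e2).symm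
    · rw [mul_inv_eq_one] at z; exact (eq_mul_inv_iff_mul_eq.1 z).symm
  have := mn _ ⟨u * w, mul_mem hu wU, rfl⟩ (key.trans inf_le_left)
  exact d.le (mem_inf.2 ⟨hw, le_cent1_iff.1 (this.ge.trans (key.trans inf_le_right))⟩)

theorem count (hV : IsElementaryAbelian 2 V) (l : V ≤ H) (c : H ≤ C[V]) (n : A ≤ N[H]) (cA : A ≤ C[V]) {h : G}
    (h1 : h ∈ H) (h2 : h * h ∈ V) (rg : ∀ a ∈ A, ⁅a, h⁆ ∈ V → a = 1)
    (tr : ∀ v ∈ V, v ≠ 1 → ∃ g ∈ N[H], g * (h * h) * g⁻¹ = v) : (o[V] - 1) * o[A] * o[V] ≤ o[H] := by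
  classical
  have ex : ∀ v : {v : V // v ≠ 1}, ∃ g ∈ N[H], g * (h * h) * g⁻¹ = v.1 := fun v =>
    tr _ v.1.2 fun e => v.2 (Subtype.ext e)
  choose g g1 g2 using ex
  have m : ∀ a : A, a * h * (a : G)⁻¹ ∈ H := fun a => conj_mem_of_norm (n a.2) h1
  let φ : ({v : V // v ≠ 1} × A) × V → H := fun x =>
    ⟨g x.1.1 * (x.1.2 * h * (x.1.2 : G)⁻¹ * x.2) * (g x.1.1)⁻¹, conj_mem_of_norm (g1 _) (mul_mem (m _) (l x.2.2))⟩
  have sq : ∀ x, (φ x : G) * φ x = x.1.1.1 := fun ⟨⟨v, a⟩, w⟩ => by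
    have e1 : (w : G) * (a * h * (a : G)⁻¹) = a * h * (a : G)⁻¹ * w := c (m a) w w.2
    have e2 : (w : G) * w = 1 := by rw [← pow_two]; exact hV.2 _ w.2
    have e3 : h * h * a = a * (h * h) := cA a.2 _ h2
    calc _ = g v * (a * h * (a : G)⁻¹ * (w * (a * h * (a : G)⁻¹)) * w) * (g v)⁻¹ := by simp only [φ]; group
      _ = g v * (a * (h * h) * (a : G)⁻¹ * (w * w)) * (g v)⁻¹ := by rw [e1]; group
      _ = _ := by rw [e2, ← e3, mul_one, mul_inv_cancel_right, g2]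
  have inj : Injective φ := fun ⟨⟨v, a⟩, w⟩ ⟨⟨v', a'⟩, w'⟩ e => by
    have e1 : v = v' := Subtype.ext (Subtype.ext ((sq ⟨⟨v, a⟩, w⟩).symm.trans (e ▸ sq ⟨⟨v', a'⟩, w'⟩)))
    subst e1
    have e2 : a * h * (a : G)⁻¹ * w = a' * h * (a' : G)⁻¹ * w' := by simpa [φ] using e
    have nV : ∀ b : A, (b : G) ∈ N[V] := fun b => cent_le_norm _ (cA b.2)
    have e3 : a = a' := Subtype.ext (inv_mul_eq_one.1 (rg _ (mul_mem (inv_mem a'.2) a.2) (by
      have : ⁅(a' : G)⁻¹ * a, h⁆ = h * ((a' : G)⁻¹ * (w' * (w : G)⁻¹) * a') * h⁻¹ := by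
        calc _ = (a' : G)⁻¹ * (a * h * (a : G)⁻¹ * w) * (w : G)⁻¹ * a' * h⁻¹ := by rw [commutatorElement_def]; group
          _ = _ := by rw [e2]; group
      rw [this]
      exact conj_mem_of_norm (cent_le_norm _ (c h1)) (conj_mem_of_norm' (nV a') (mul_mem w'.2 (inv_mem w.2)))))).symm
    subst e3
    rw [Subtype.ext (mul_left_cancel e2) (a1 := w)]
  have := Nat.card_le_card_of_injective φ inj
  rw [Nat.card_prod, Nat.card_prod] at this
  rwa [← Nat.card_congr (Equiv.optionSubtypeNe (1 : V)), Finite.card_option, Nat.add_sub_cancel,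
    ← Finite.card_option, Nat.card_congr (Equiv.optionSubtypeNe (1 : V))]

end CfsgTH
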