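import Cfsg.Agent.H9.Th1

/-! Thompson's theorem on solvable groups with one class of involutions. -/

set_option autoImplicit false
open Subgroup Cfsg CfsgH2 Function
open scoped commutatorElement IsMulCommutative

namespace CfsgTH

variable {G : Type*} [Group G] [Finite G] {A H K S U V : Subgroup G}

structure OC (V : Subgroup G) : Prop where
  nm : V.Normal
  el : IsElementaryAbelian 2 V
  mem : ∀ x, x ^ 2 = 1 → x ∈ V
  tr : ∀ x ∈ V, ∀ y ∈ V, x ≠ 1 → y ≠ 1 → IsConj x y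

omit [Finite G] in
theorem OC.le (h : OC V) [K.Normal] (h0 : V ⊓ K ≠ ⊥) : V ≤ K := fun y hy => by
  obtain ⟨x, x1, x0⟩ := (bot_or_exists_ne_one _).resolve_left h0
  by_cases e : y = 1
  · exact e ▸ one_mem K
  obtain ⟨g, rfl⟩ := isConj_iff.1 (h.tr x x1.1 y hy x0 e)
  exact Normal.conj_mem inferInstance x x1.2 g

theorem OC.le_cent (h : OC V) (hs : Sol[(⊤ : Subgroup G)]) (hS : PG[2, S]) : S ≤ C[V] := by
  haveI := h.nm
  by_cases e : C[V] = ⊤
  · exact e ▸ le_top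
  have V0 : V ≠ ⊥ := fun c => e (by rw [c, cent_bot])
  let f := QuotientGroup.mk' C[V]
  obtain ⟨r, _, M, -, M0, nM, eM, -⟩ := exists_min_norm (M := ⊤) (isSolvable_map f hs)
    (fun c => e (top_le_iff.1 ((map_mk_eq_bot _).1 c))) (by rw [map_mk_top, norm_top])
  haveI := normal_of_top_le_norm nM
  obtain ⟨R, hR⟩ := exists_syl r (M.comap f)
  have e1 : M.comap f = R ⊔ C[V] := by
    have := hR.map f
    rw [map_comap_mk] at this
    rw [← this.eq_of_pgroup (elem_pgroup eM), comap_map_mk]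
  have e2 : V ⊓ C[R] = ⊥ := by
    by_contra c
    refine M0 ?_
    rw [← map_comap_mk _ M, map_mk_eq_bot]
    refine le_centralizer_iff.1 (h.le fun d => c (eq_bot_iff.2 (le_trans ?_ d.le)))
    rw [e1, cent_sup]
    exact le_inf inf_le_left (le_inf inf_le_right (inf_le_left.trans (le_centralizer_iff.1 le_rfl)))
  have r2 : r ≠ 2 := by
    rintro rfl
    exact inf_cent_ne_bot' hR.pg (elem_pgroup h.el) le_normalizer_of_normal V0 e2
  have d : V ⊓ R = ⊥ := (IsPGroup.disjoint_of_ne 2 r r2.symm _ _ (elem_pgroup h.el) hR.pg).eq_bot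
  have od : ¬ 2 ∣ o[N[R]] := fun c => by
    obtain ⟨t, t1, t2⟩ := exists_prime_order_mem Nat.prime_two c
    have t3 := h.mem t (t2 ▸ pow_orderOf_eq_one t)
    have : t = 1 := mem_bot.1 (e2.le (mem_inf.2 ⟨t3, le_cent_of_inf_eq_bot (H := V ⊓ N[R]) inf_le_right
      (le_norm_inf le_normalizer_of_normal (le_norm_norm (le_norm_of_le le_rfl)))
      (eq_bot_iff.2 ((inf_le_inf_right R inf_le_left).trans d.le)) (mem_inf.2 ⟨t3, t1⟩)⟩))
    rw [this, orderOf_one] at t2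
    omega
  have e3 : N[R] ⊔ C[V] = ⊤ := by
    have := hR.frattini_sup (M := ⊤) le_top le_normalizer_of_normal
    rw [top_inf_eq, e1] at this
    exact top_le_iff.1 (this.ge.trans (sup_le (sup_le_sup_right (le_norm_of_le le_rfl) _) le_sup_left))
  refine le_of_coprime_relIndex le_top le_normalizer_of_normal (coprime_of_pgroup hS fun c => od ?_)
  rw [← e3, relIndex_sup_of_norm le_normalizer_of_normal] at c
  exact c.trans (relIndex_dvd_card _ _)

theorem OC.fus (h : OC V) (hs : Sol[(⊤ : Subgroup G)]) (hS : Syl 2 S ⊤) {x y : G} (hx : x ∈ V) (hy : y ∈ V)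
    (x0 : x ≠ 1) (y0 : y ≠ 1) : ∃ n ∈ N[S], n * x * n⁻¹ = y := by
  haveI := h.nm
  obtain ⟨g, rfl⟩ := isConj_iff.1 (h.tr x hx y hy x0 y0)
  obtain ⟨n, n1, k, k1, rfl⟩ := (hS.mono (h.le_cent hs hS.pg) le_top).frattini' (le_normalizer_of_normal (mem_top g))
  exact ⟨n, n1, by rw [mul_inv_rev, mul_assoc n k, ← k1 x hx]; group⟩

theorem OC.card_pow (h : OC V) (V0 : V ≠ ⊥) (l : V ≤ K) (hK : PG[2, K])
    (tr : ∀ x ∈ V, ∀ y ∈ V, x ≠ 1 → y ≠ 1 → ∃ n ∈ N[K], n * x * n⁻¹ = y) : ∃ m, o[K] = o[V] ^ m := by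
  haveI : Nontrivial K := (nontrivial_iff_ne_bot K).2 fun c => V0 (eq_bot_iff.2 (l.trans c.le))
  obtain ⟨m, hm⟩ := (Cfsg.Agent.S3774.result hK fun x y x0 x2 y0 y2 => by
    obtain ⟨n, n1, e⟩ := tr x (h.mem _ (congrArg Subtype.val x2)) y (h.mem _ (congrArg Subtype.val y2))
      (fun c => x0 (Subtype.ext c)) fun c => y0 (Subtype.ext c)
    exact ⟨K.normalizerMonoidHom ⟨n, n1⟩, Subtype.ext e⟩).2
  refine ⟨m, hm.trans (congrArg (· ^ m) (Nat.card_congr ?_))⟩
  exact ⟨fun z => ⟨z.1, h.mem _ (congrArg Subtype.val z.2)⟩, fun v => ⟨⟨v, l v.2⟩, Subtype.ext (h.el.2 _ v.2)⟩,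
    fun _ => rfl, fun _ => rfl⟩

theorem OC.bound (h : OC V) [K.Normal] (hK : PG[2, K]) (l : V ≤ K) (c : K ≤ C[V]) (hA : Ab[A]) (od : ¬ 2 ∣ o[A])
    (cA : A ≤ C[V]) (h0 : A ⊓ C[K] = ⊥) : o[A] = 1 ∨ (o[V] - 1) * o[A] * o[V] ≤ o[V] ^ 3 := by
  haveI := h.nm
  obtain ⟨H, H1, H2, H3, H4⟩ := CfsgL0.exists_crit4 hK
  haveI : H.Normal := normal_of_top_le_norm (le_normalizer_of_normal.trans H2)
  have l' : H ⊔ V ≤ K := sup_le H1 l
  have sq : ∀ x ∈ H ⊔ V, x * x ∈ V := fun x hx => by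
    obtain ⟨u, hu, v, hv, rfl⟩ := (mem_sup_of_norm le_normalizer_of_normal).1 hx
    have e : v * v = 1 := by rw [← pow_two]; exact h.el.2 v hv
    rw [mul_assoc, ← mul_assoc v, c (H1 hu) v hv, mul_assoc, e, mul_one, ← pow_two]
    refine h.mem _ ?_
    rw [← pow_mul]
    rcases H3 u hu with rfl | e | ⟨-, e⟩
    · simp
    · exact orderOf_dvd_iff_pow_eq_one.1 (e ▸ by norm_num)
    · exact orderOf_dvd_iff_pow_eq_one.1 (e ▸ by norm_num)
  let g := QuotientGroup.mk' V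
  have ab : Ab[(H ⊔ V).map g] := isMulComm_iff.2 (by
    rintro _ ⟨u, hu, rfl⟩ _ ⟨v, hv, rfl⟩
    have i : ∀ w ∈ H ⊔ V, (g w)⁻¹ = g w := fun w hw => inv_eq_of_mul_eq_one_right (by
      rw [← map_mul]; exact (QuotientGroup.eq_one_iff _).2 (sq w hw))
    rw [← map_mul, ← i _ (mul_mem hu hv), map_mul, mul_inv_rev, i u hu, i v hv])
  have cp : ∀ B ≤ A, o[B].Coprime o[H ⊔ V] := fun B hB =>
    coprime_of_not_dvd (fun d => od (d.trans (card_dvd_of_le hB))) (hK.to_le l')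
  obtain ⟨_, ⟨u, hu, rfl⟩, e⟩ := reg (isMulComm_map g hA) ab (map_le_norm_map g le_normalizer_of_normal)
    (((cp A le_rfl).coprime_dvd_left (card_map_dvd _ g)).coprime_dvd_right (card_map_dvd _ g))
  have rg : ∀ a ∈ A, ⁅a, u⁆ ∈ V → a = 1 := fun a ha m => by
    have z := zpowers_le.2 ha
    have m1 : g a ∈ C[(H ⊔ V).map g] := e (mem_inf.2 ⟨mem_map_of_mem g ha, mem_centralizer_singleton_iff.2 (by
      rw [← commutatorElement_eq_one_iff_mul_comm, ← map_commutatorElement]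
      exact (QuotientGroup.eq_one_iff _).2 m)⟩)
    rw [← zpowers_le, ← MonoidHom.map_zpowers, map_le_cent_map_iff_comm, QuotientGroup.ker_mk', commutator_comm] at m1
    have m2 := coprime_le_cent_of_stable le_normalizer_of_normal (cp _ z) (Or.inr (isSolvable_of_pgroup (hK.to_le l')))
      m1 (z.trans cA)
    exact mem_bot.1 (h0.le (mem_inf.2 ⟨ha, H4 _ (fun d => od (d.trans (card_dvd_of_le z))) le_normalizer_of_normal
      (m2.trans (cent_anti le_sup_left)) (mem_zpowers a)⟩))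
  by_cases u0 : u * u = 1
  · refine Or.inl (card_eq_one.2 (eq_bot_iff.2 fun a ha => mem_bot.2 (rg a ha ?_)))
    rw [commutatorElement_eq_one_iff_mul_comm.2 (cA ha u (h.mem u (by rw [pow_two, u0]))).symm]
    exact one_mem V
  refine Or.inr ((count h.el le_sup_right (l'.trans c) le_normalizer_of_normal cA hu (sq u hu) rg fun v hv v0 => ?_).trans
    (card_le_cube h.el le_sup_right (l'.trans c) sq fun x _ e => h.mem x (by rw [pow_two, e])))
  obtain ⟨k, hk⟩ := isConj_iff.1 (h.tr _ (sq u hu) v hv u0 v0)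
  exact ⟨k, le_normalizer_of_normal (mem_top k), hk⟩

theorem three_pow {n : ℕ} (h : 2 ≤ n) : 2 ^ n + 2 ≤ 3 ^ n := by
  induction n, h using Nat.le_induction with
  | base => norm_num
  | succ n _ ih => rw [pow_succ, pow_succ]; omega

theorem OC.syl_le (h : OC V) (hs : Sol[(⊤ : Subgroup G)]) (h0 : O[{2}ᶜ, (⊤ : Subgroup G)] = ⊥) (h3 : 3 ≤ o[V])
    (hS : Syl 2 S ⊤) : S ≤ O[{2}, (⊤ : Subgroup G)] := by
  haveI := h.nm
  by_contra nl
  set T := O[{2}, (⊤ : Subgroup G)] with hT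
  have pT : PG[2, T] := isPGroup_piCoreOf
  have V0 : V ≠ ⊥ := fun c => by rw [c, card_bot] at h3; omega
  have VT : V ≤ T := le_pCoreOf le_top le_normalizer_of_normal (elem_pgroup h.el)
  have TS : T ≤ S := hS.pCoreOf_le
  have SC := h.le_cent hs hS.pg
  let f := QuotientGroup.mk' T
  have S0 : S.map f ≠ ⊥ := fun c => nl ((map_mk_eq_bot _).1 c)
  set I := omegaOne 2 Z[S.map f] with hI
  have eI : IsElementaryAbelian 2 I := elem_omegaOne (isMulComm_cent_inf _)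
  have pS := hS.pg.map f
  have I0 : I ≠ ⊥ := omegaOne_ne_bot Nat.prime_two (dvd_card_of_pgroup (pS.to_le inf_le_left) (center_ne_bot pS S0))
  have IS : I ≤ S.map f := omegaOne_le.trans inf_le_left
  have IS' : I.comap f ≤ S := (comap_mono IS).trans (by rw [comap_map_mk]; exact sup_le le_rfl TS)
  obtain ⟨a, ha⟩ := h.card_pow V0 (VT.trans (le_comap_mk T I)) (hS.pg.to_le IS') fun x hx y hy x0 y0 => by
    obtain ⟨n, n1, e⟩ := h.fus hs hS hx hy x0 y0
    exact ⟨n, comap_norm_ge f I (norm_le_norm_omegaOne (norm_le_norm_center (mem_norm_map f n1))), e⟩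
  obtain ⟨b, hb⟩ := h.card_pow V0 VT pT fun x hx y hy x0 y0 => by
    obtain ⟨n, -, e⟩ := h.fus hs hS hx hy x0 y0
    exact ⟨n, le_normalizer_of_normal (mem_top n), e⟩
  have rf : f.range = ⊤ := MonoidHom.range_eq_top.2 (QuotientGroup.mk'_surjective T)
  rw [card_comap_eq f I (rf ▸ le_top), QuotientGroup.ker_mk', hb] at ha
  have I1 : o[V] ≤ o[I] := by
    have i1 : 1 < o[I] := (one_lt_card_iff_ne_bot I).2 I0
    have p : 0 < o[V] ^ b := by positivity
    have : b < a := (Nat.pow_lt_pow_iff_right (by omega : 1 < o[V])).1 (by rw [← ha]; nlinarith)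
    refine Nat.le_of_mul_le_mul_right ?_ p
    rw [ha, ← pow_succ']
    exact Nat.pow_le_pow_right (by omega) this
  obtain ⟨n, hn⟩ := exists_card_eq_pow (elem_pgroup eI)
  set C := C[V].map f with hC
  haveI : C.Normal := Normal.map inferInstance f (QuotientGroup.mk'_surjective T)
  have IC : I ≤ C := IS.trans (map_mono SC)
  have od : Odd o[F[C]] := by
    have z : O[({2}ᶜ : Set ℕ)ᶜ, C] = ⊥ := by
      rw [compl_compl]
      refine eq_bot_iff.2 ((piCoreOf_le_of_norm (M := ⊤) le_top le_normalizer_of_normal).trans ?_)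
      rw [← map_mk_top T]
      exact (piCoreOf_map_mk_self ⊤).le
    exact Nat.odd_iff.2 (Nat.two_dvd_ne_zero.1 ((piN_compl_singleton Nat.prime_two).1 (fit_piN z)))
  obtain ⟨φ, f1, f2, -, f4, f5, -⟩ := Cfsg.Agent.S4408.main fit_nil od eI (IC.trans le_norm_fit)
    (eq_bot_iff.2 ((le_inf inf_le_left ((inf_le_inf_right _ IC).trans
      (cent_fit_le (isSolvable_map f (isSolvable_of_le hs le_top))))).trans (inf_eq_bot_of_coprime'
        (coprime_of_pgroup (elem_pgroup eI) od.not_two_dvd_nat)).le)) hn n le_rfl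
  set B := ⨆ i, φ i with hB
  have BF : B ≤ F[C] := iSup_le f2
  have oB := odd_of_le od BF
  have aB : Ab[B] := isMulComm_of_le_cent (iSup_le fun i => le_centralizer_iff.1 (iSup_le fun j => by
    by_cases e : i = j
    · subst e
      haveI := Fact.mk (f1 i)
      exact le_cent_self (isMulComm_of_cyclic (isCyclic_of_prime_card rfl))
    · exact fun b hb a ha => f4 i j e a ha b hb))
  have B3 : 3 ^ n ≤ o[B] := by
    rw [f5]
    refine le_trans (by simp) (Finset.pow_card_le_prod Finset.univ _ 3 fun i _ => ?_)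
    have := (f1 i).two_le
    have := (odd_of_le od (f2 i)).not_two_dvd_nat
    omega
  have ri : T.relIndex (B.comap f) = o[B] := by rw [← card_map_mk, map_comap_mk]
  obtain ⟨A, A1, -, A3, A4⟩ := exists_compl (le_comap_mk T B) le_normalizer_of_normal
    (coprime_of_pgroup pT (ri ▸ oB.not_two_dvd_nat))
  rw [ri] at A4
  have aA : Ab[A] := comm_self_eq_bot_iff.1 (eq_bot_iff.2 ((le_inf ?_ commutator_self_le).trans A3.le))
  swap
  · have l := map_le_iff_le_comap.2 A1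
    rw [← QuotientGroup.ker_mk' T, ← map_le_cent_map_iff_comm]
    exact l.trans (le_cent_of_comm aB l)
  have AC : A ≤ C[V] := A1.trans ((comap_mono (BF.trans fit_le)).trans (by
    rw [hC, comap_map_mk]; exact sup_le le_rfl (TS.trans SC)))
  have n2 : 2 ≤ n := by
    rcases n with _ | _ | n <;> omega
  have t := three_pow n2
  have cT := cent_core_le hs h0
  rw [top_inf_eq] at cT
  rcases h.bound pT VT (TS.trans SC) aA (A4 ▸ oB.not_two_dvd_nat) AC
    (eq_bot_iff.2 ((inf_le_inf_left A cT).trans (by rw [inf_comm, A3]))) with e | e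
  · omega
  obtain ⟨q, hq⟩ : ∃ q, o[V] = q + 1 := ⟨o[V] - 1, by omega⟩
  rw [hq, Nat.add_sub_cancel, pow_succ] at e
  have e' := Nat.le_of_mul_le_mul_right e (by omega)
  have : q * (q + 3) ≤ q * o[A] := Nat.mul_le_mul_left q (by omega)
  nlinarith

theorem exists_oc (hs : Sol[(⊤ : Subgroup G)]) (h0 : O[{2}ᶜ, (⊤ : Subgroup G)] = ⊥) {x : G} (x0 : x ≠ 1)
    (hc : ∀ x y : G, x ≠ 1 → x ^ 2 = 1 → y ≠ 1 → y ^ 2 = 1 → IsConj x y) : ∃ V : Subgroup G, OC V := by
  have cT := cent_core_le hs h0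
  set T := O[{2}, (⊤ : Subgroup G)] with hT
  have pT : PG[2, T] := isPGroup_piCoreOf
  have T0 : T ≠ ⊥ := fun c => by
    rw [c, cent_bot] at cT
    exact x0 (mem_bot.1 (cT ⟨mem_top x, mem_top x⟩))
  have e : IsElementaryAbelian 2 (omegaOne 2 Z[T]) := elem_omegaOne (isMulComm_cent_inf _)
  haveI n : (omegaOne 2 Z[T]).Normal :=
    normal_of_top_le_norm (le_norm_omegaOne' (le_normalizer_of_normal.trans norm_le_norm_center))
  obtain ⟨v, v1, v0⟩ := (bot_or_exists_ne_one _).resolve_left (omegaOne_ne_bot Nat.prime_two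
    (dvd_card_of_pgroup (pT.to_le inf_le_left) (center_ne_bot pT T0)))
  refine ⟨_, n, e, fun y hy => ?_, fun a ha b hb a0 b0 => hc a b a0 (e.2 a ha) b0 (e.2 b hb)⟩
  by_cases y0 : y = 1
  · exact y0 ▸ one_mem _
  obtain ⟨g, rfl⟩ := isConj_iff.1 (hc v y v0 (e.2 v v1) y0 hy)
  exact n.conj_mem v v1 g

theorem main (hs : Sol[(⊤ : Subgroup G)]) (hS : Syl 2 S ⊤) {x y : G} (hx : x ∈ S) (hy : y ∈ S) (xy : x ≠ y)
    (x0 : x ≠ 1) (x2 : x ^ 2 = 1) (y0 : y ≠ 1) (y2 : y ^ 2 = 1)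
    (hc : ∀ x y : G, x ≠ 1 → x ^ 2 = 1 → y ≠ 1 → y ^ 2 = 1 → IsConj x y) :
    PL1 2 (⊤ : Subgroup G) ∧ ∀ z ∈ S, z ^ 2 = 1 → z ∈ C[S] := by
  set O := O[{2}ᶜ, (⊤ : Subgroup G)] with hO
  have od : ¬ 2 ∣ o[O] := not_dvd_piCoreOf
  let f := QuotientGroup.mk' O
  have i : ∀ z ∈ S, f z = 1 → z = 1 := fun z hz e => mem_bot.1 ((inf_eq_bot_of_coprime'
    (coprime_of_pgroup hS.pg od)).le (mem_inf.2 ⟨hz, (QuotientGroup.eq_one_iff z).1 e⟩))
  have hs' : Sol[(⊤ : Subgroup (G ⧸ O))] := map_mk_top O ▸ isSolvable_map f hs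
  have h0 : O[{2}ᶜ, (⊤ : Subgroup (G ⧸ O))] = ⊥ := map_mk_top O ▸ piCoreOf_map_mk_self ⊤
  have hS' : Syl 2 (S.map f) ⊤ := map_mk_top O ▸ hS.map f
  have lift : ∀ a : G ⧸ O, a ≠ 1 → a ^ 2 = 1 → ∃ z, z ≠ 1 ∧ z ^ 2 = 1 ∧ IsConj (f z) a := fun a a0 a2 => by
    obtain ⟨g, -, hg⟩ := hS'.exists_conj_le (isPGroup_zpowers (k := 1) (by rwa [pow_one])) le_top
    obtain ⟨z, hz, e⟩ := hg (conj_mem_map_cj (mem_zpowers a))
    refine ⟨z, fun c => a0 ?_, i _ (pow_mem hz 2) (by rw [map_pow, e, conj_pow, a2]; simp), e ▸ isConj_iff.2 ⟨g⁻¹, by group⟩⟩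
    rw [c, map_one] at e
    simpa using e.symm
  obtain ⟨V, h⟩ := exists_oc hs' h0 (fun c => x0 (i x hx c)) fun a b a0 a2 b0 b2 => by
    obtain ⟨z, z0, z2, e⟩ := lift a a0 a2
    obtain ⟨w, w0, w2, e'⟩ := lift b b0 b2
    exact e.symm.trans ((f.map_isConj (hc z w z0 z2 w0 w2)).trans e')
  have m : ∀ z : G, z ^ 2 = 1 → f z ∈ V := fun z e => h.mem _ (by rw [← map_pow, e, map_one])
  have h3 : 3 ≤ o[V] := by
    classical
    have : ({1, ⟨f x, m x x2⟩, ⟨f y, m y y2⟩} : Finset V).card = 3 := Finset.card_eq_three.2 ⟨_, _, _,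
      fun c => x0 (i x hx (congrArg Subtype.val c).symm), fun c => y0 (i y hy (congrArg Subtype.val c).symm),
      fun c => xy (mul_inv_eq_one.1 (i _ (mul_mem hx (inv_mem hy)) (by
        rw [map_mul, map_inv, show f x = f y from congrArg Subtype.val c, mul_inv_cancel]))), rfl⟩
    letI _f := Fintype.ofFinite V
    rw [← this, Nat.card_eq_fintype_card]
    exact Finset.card_le_univ _
  have e : S.map f = O[{2}, ⊤] := le_antisymm (h.syl_le hs' h0 h3 hS') hS'.pCoreOf_le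
  refine ⟨PL1.of_map f (map_mk_top O ▸ pl1_of_norm hS' (e ▸ le_norm_piCoreOf)) (by
    rwa [top_inf_eq, QuotientGroup.ker_mk']), fun z hz z2 s hs => ?_⟩
  refine commutatorElement_eq_one_iff_mul_comm.1 (i _ (commutator_self_le (commutator_mem_commutator hs hz)) ?_)
  rw [map_commutatorElement, commutatorElement_eq_one_iff_mul_comm]
  exact (h.le_cent hs' hS'.pg (mem_map_of_mem f hs) _ (m z z2)).symm

end CfsgTH
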